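import Cfsg.Agent.Helper75.NilpPrincipal
import Cfsg.Agent.Helper70.FrobComp2

/-!
# `G` has a normal `p`-complement iff its principal block is nilpotent

* `frobCond_iff_nilpotent_principal`: Frobenius' condition `⟺` `IsNilpotentBlock p M B₀(G)`.
* `hasNormalPComplement_iff_nilpotent_principal`.
* `hasNormalPComplement_iff_blockRank`: `⟺ blockRank p B₀(G) = 1`.
-/

set_option autoImplicit false
open Cfsg

namespace Cfsg.Agent.Helper75

universe u

variable {G : Type u} [Group G] [Fintype G]

theorem frobCond_iff_nilpotent_principal {p : ℕ} [hp : Fact p.Prime] {M : Ideal Cfsg.AlgInt}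
    (hM : Cfsg.IsPModular p M) :
    Helper70.FrobCond p G ↔ Cfsg.IsNilpotentBlock p M (Cfsg.principalBlock M G) := by
  constructor
  · intro hfrob
    refine ⟨⟨Helper81.trivIrr G, rfl⟩, fun Q e hpair x hx _ hreg => ?_⟩
    exact hfrob Q hpair.1.1 x hx ((Nat.Prime.coprime_iff_not_dvd hp.out).2 hreg).symm
  · intro hnil Q hQ g hg hcop
    exact hnil.2 Q _ ((isBrauerPairOf_principal_iff hM Q hQ _ ⟨Helper81.trivIrr _, rfl⟩).2 rfl)
      g hg (stabilizesBlock_principal_centralizer M Q g hg)
      ((Nat.Prime.coprime_iff_not_dvd hp.out).1 hcop.symm)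

theorem hasNormalPComplement_iff_nilpotent_principal {p : ℕ} [Fact p.Prime]
    {M : Ideal Cfsg.AlgInt} (hM : Cfsg.IsPModular p M) :
    Cfsg.HasNormalPComplement p G ↔ Cfsg.IsNilpotentBlock p M (Cfsg.principalBlock M G) :=
  Helper70.hasNormalPComplement_iff_frobCond.trans (frobCond_iff_nilpotent_principal hM)

theorem hasNormalPComplement_iff_blockRank {p : ℕ} [Fact p.Prime]
    {M : Ideal Cfsg.AlgInt} (hM : Cfsg.IsPModular p M) :
    Cfsg.HasNormalPComplement p G ↔ Cfsg.blockRank p (Cfsg.principalBlock M G) = 1 :=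
  (hasNormalPComplement_iff_nilpotent_principal hM).trans (nilpotent_principal_iff hM)

end Cfsg.Agent.Helper75
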