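import Cfsg.Agent.Helper75.BRNFAux
import Cfsg.Agent.S4441

/-!
# Brauer–Reynolds (CALL S0999), piece NF: the normal form `BRTab` of the principal block (helper75)
-/

set_option autoImplicit false
open Cfsg
open scoped ComplexConjugate

namespace Cfsg.Agent.Helper75

universe u

theorem br_tab_exists {G : Type u} [Group G] [Fintype G] (p : ℕ) [Fact p.Prime]
    (M : Ideal Cfsg.AlgInt) (hM : Cfsg.IsPModular p M) (hodd : p ≠ 2) (P : Sylow p G)
    (hP : Nat.card (P : Subgroup G) = p) (q : ℕ)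
    (hq : (Subgroup.centralizer ((P : Subgroup G) : Set G)).relIndex
        (Subgroup.normalizer ((P : Subgroup G) : Set G)) = q) (hq2 : 2 ≤ q) :
    Nonempty (Cfsg.Agent.Helper9.BRTab p M P q) := by
  classical
  have hp : p.Prime := Fact.out
  have hp3 : 3 ≤ p := by
    have := hp.two_le
    omega
  haveI : M.IsPrime := hM.2.1.isPrime
  letI : Fintype (Cfsg.IrrCharacter G) := Fintype.ofFinite _
  obtain ⟨X, Y, hB, hdisj, hXc, hYc, εX, ε, hX, hε, hYdeg, hYreg, hrel⟩ :=
    Cfsg.Agent.S4441.result p M hM hodd P hP q hq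
  have hXs : X = ((Finset.univ.filter (fun χ : Cfsg.IrrCharacter G => χ ∈ X) :
      Finset (Cfsg.IrrCharacter G)) : Set (Cfsg.IrrCharacter G)) := by
    ext χ
    simp
  have hYs : Y = ((Finset.univ.filter (fun χ : Cfsg.IrrCharacter G => χ ∈ Y) :
      Finset (Cfsg.IrrCharacter G)) : Set (Cfsg.IrrCharacter G)) := by
    ext χ
    simp
  have hmX : ∀ χ : Cfsg.IrrCharacter G,
      χ ∈ Finset.univ.filter (fun χ : Cfsg.IrrCharacter G => χ ∈ X) ↔ χ ∈ X := by
    intro χ
    simp
  have hmY : ∀ χ : Cfsg.IrrCharacter G,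
      χ ∈ Finset.univ.filter (fun χ : Cfsg.IrrCharacter G => χ ∈ Y) ↔ χ ∈ Y := by
    intro χ
    simp
  have hXfc : (Finset.univ.filter (fun χ : Cfsg.IrrCharacter G => χ ∈ X)).card = q := by
    rw [← hXc, ← Set.ncard_coe_finset, ← hXs, Nat.card_coe_set_eq]
  have hYfc : (Finset.univ.filter (fun χ : Cfsg.IrrCharacter G => χ ∈ Y)).card = (p - 1) / q := by
    rw [← hYc, ← Set.ncard_coe_finset, ← hYs, Nat.card_coe_set_eq]
  have hXY : ∀ χ : Cfsg.IrrCharacter G, χ ∈ X → χ ∈ Y → False := by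
    intro χ h1 h2
    exact Set.disjoint_left.mp hdisj h1 h2
  have hrel' : ∀ θ ∈ Y, ∀ g : G, ¬ p ∣ orderOf g → (ε : ℂ) * (θ : G → ℂ) g
      = ∑ χ ∈ Finset.univ.filter (fun χ : Cfsg.IrrCharacter G => χ ∈ X),
        (εX χ : ℂ) * (χ : G → ℂ) g := by
    intro θ hθ g hg
    rw [hrel θ hθ g hg]
    conv_lhs => rw [hXs]
    rw [finsum_mem_coe_finset]
  have htriv : Helper81.trivIrr G ∈ X ∨ Helper81.trivIrr G ∈ Y := by
    have h := Helper81.trivIrr_mem_principalBlock (M := M) (G := G)
    rw [hB] at h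
    exact h
  have hdeg1 : Cfsg.charDegree (Helper81.trivIrr G : G → ℂ) = 1 := by
    simp [Cfsg.charDegree, Helper81.trivIrr_apply]
  rcases htriv with ht | ht
  · -- the trivial character is non-exceptional
    have hεt : εX (Helper81.trivIrr G) = 1 := by
      obtain ⟨h1, h2, -⟩ := hX _ ht
      rcases h1 with h | h
      · exact h
      · exfalso
        rw [h, hdeg1] at h2
        have h3 := h2.dvd
        have h4 : (p : ℤ) ∣ ((2 : ℕ) : ℤ) := by
          have h5 : (-1 : ℤ) - ((1 : ℕ) : ℤ) = -((2 : ℕ) : ℤ) := by norm_num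
          rw [h5] at h3
          exact (dvd_neg.mp h3)
        have h6 := Nat.le_of_dvd (by norm_num) (Int.natCast_dvd_natCast.mp h4)
        omega
    refine br_tab_of p M P q (Finset.univ.filter (fun χ : Cfsg.IrrCharacter G => χ ∈ X))
      (Finset.univ.filter (fun χ : Cfsg.IrrCharacter G => χ ∈ Y)) εX ε ?_ ?_ ?_ hεt hXfc hYfc
      ?_ hε ?_ ?_ ?_
    · intro χ
      rw [hmX, hmY, hB]
      rfl
    · rw [Finset.disjoint_left]
      intro χ h1 h2
      exact hXY χ ((hmX χ).mp h1) ((hmY χ).mp h2)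
    · exact (hmX _).mpr ht
    · intro χ hχ
      exact hX χ ((hmX χ).mp hχ)
    · intro θ hθ
      exact hYdeg θ ((hmY θ).mp hθ)
    · intro θ hθ θ' hθ'
      exact hYreg θ ((hmY θ).mp hθ) θ' ((hmY θ').mp hθ')
    · intro θ hθ
      exact hrel' θ ((hmY θ).mp hθ)
  · -- the trivial character is exceptional: `q = p - 1`, `ε = -1`, `Y = {1}`
    have htX : Helper81.trivIrr G ∉ X := fun h => hXY _ h ht
    have hYpos : 1 ≤ (p - 1) / q := by
      rw [← hYfc]
      exact Finset.card_pos.mpr ⟨_, (hmY _).mpr ht⟩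
    have hqle : q ≤ p - 1 := by
      by_contra hlt
      rw [Nat.div_eq_of_lt (by omega)] at hYpos
      omega
    have hY1 := hYdeg _ ht
    rw [hdeg1] at hY1
    have hεq : ε = -1 ∧ q = p - 1 := by
      rcases hε with h | h
      · exfalso
        rw [h, one_mul] at hY1
        have h3 := hY1.dvd
        have h4 : (q : ℤ) - ((1 : ℕ) : ℤ) = ((q - 1 : ℕ) : ℤ) := by
          rw [Nat.cast_sub (by omega)]
        rw [h4] at h3
        have h6 := Nat.le_of_dvd (by omega) (Int.natCast_dvd_natCast.mp h3)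
        omega
      · refine ⟨h, ?_⟩
        rw [h] at hY1
        have h3 := hY1.dvd
        have h4 : (-1 : ℤ) * (q : ℤ) - ((1 : ℕ) : ℤ) = -((q + 1 : ℕ) : ℤ) := by
          push_cast
          ring
        rw [h4] at h3
        have h6 := Nat.le_of_dvd (by omega) (Int.natCast_dvd_natCast.mp (dvd_neg.mp h3))
        omega
    obtain ⟨hεm, hqp⟩ := hεq
    have hYcard1 : (Finset.univ.filter (fun χ : Cfsg.IrrCharacter G => χ ∈ Y)).card = 1 := by
      rw [hYfc, hqp]
      exact Nat.div_self (by omega)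
    have hYeq : ∀ θ ∈ Y, θ = Helper81.trivIrr G := by
      intro θ hθ
      obtain ⟨a, ha⟩ := Finset.card_eq_one.mp hYcard1
      have h1 : θ ∈ ({a} : Finset (Cfsg.IrrCharacter G)) := by
        rw [← ha]
        exact (hmY θ).mpr hθ
      have h2 : Helper81.trivIrr G ∈ ({a} : Finset (Cfsg.IrrCharacter G)) := by
        rw [← ha]
        exact (hmY _).mpr ht
      rw [Finset.mem_singleton] at h1 h2
      rw [h1, h2]
    obtain ⟨χ₀, hχ₀f⟩ : (Finset.univ.filter (fun χ : Cfsg.IrrCharacter G => χ ∈ X)).Nonempty := by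
      rw [← Finset.card_pos, hXfc]
      omega
    have hχ₀ : χ₀ ∈ X := (hmX χ₀).mp hχ₀f
    have hχ₀t : χ₀ ≠ Helper81.trivIrr G := by
      intro h
      rw [h] at hχ₀
      exact htX hχ₀
    have hne : ∀ χ ∈ X, χ ≠ Helper81.trivIrr G := by
      intro χ hχ h
      rw [h] at hχ
      exact htX hχ
    have htE : Helper81.trivIrr G ∉
        (Finset.univ.filter (fun χ : Cfsg.IrrCharacter G => χ ∈ X)).erase χ₀ := by
      intro h
      exact htX ((hmX _).mp (Finset.mem_of_mem_erase h))
    refine br_tab_of p M P q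
      (insert (Helper81.trivIrr G)
        ((Finset.univ.filter (fun χ : Cfsg.IrrCharacter G => χ ∈ X)).erase χ₀))
      {χ₀} (fun χ => if χ = Helper81.trivIrr G then 1 else εX χ) (-εX χ₀)
      ?_ ?_ (Finset.mem_insert_self _ _) (if_pos rfl) ?_ ?_ ?_ ?_ ?_ ?_ ?_
    · intro χ
      rw [hB, Finset.mem_insert, Finset.mem_erase, hmX, Finset.mem_singleton]
      constructor
      · rintro (h | h)
        · by_cases h1 : χ = χ₀
          · exact Or.inr h1
          · exact Or.inl (Or.inr ⟨h1, h⟩)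
        · exact Or.inl (Or.inl (hYeq χ h))
      · rintro ((h | ⟨-, h⟩) | h)
        · rw [h]; exact Or.inr ht
        · exact Or.inl h
        · rw [h]; exact Or.inl hχ₀
    · rw [Finset.disjoint_singleton_right, Finset.mem_insert, Finset.mem_erase]
      rintro (h | ⟨h, -⟩)
      · exact hχ₀t h
      · exact h rfl
    · rw [Finset.card_insert_of_notMem htE, Finset.card_erase_of_mem hχ₀f, hXfc]
      omega
    · rw [Finset.card_singleton, hqp]
      exact (Nat.div_self (by omega)).symm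
    · intro χ hχ
      rw [Finset.mem_insert, Finset.mem_erase, hmX] at hχ
      rcases hχ with h | ⟨-, h⟩
      · rw [h, if_pos rfl, hdeg1]
        refine ⟨Or.inl rfl, ?_, ?_⟩
        · rfl
        · intro x _ _ y _ _
          rw [Helper81.trivIrr_apply, Int.cast_one]
      · rw [if_neg (hne χ h)]
        exact hX χ h
    · rcases (hX χ₀ hχ₀).1 with h | h
      · right; rw [h]
      · left; rw [h]; norm_num
    · intro θ hθ
      rw [Finset.mem_singleton] at hθ
      rw [hθ]
      have h1 := (hX χ₀ hχ₀).2.1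
      rw [Int.modEq_iff_dvd] at h1 ⊢
      have h2 : (q : ℤ) = (p : ℤ) - 1 := by
        rw [hqp, Nat.cast_sub (by omega)]
        norm_num
      have h3 : -εX χ₀ * (q : ℤ) - (Cfsg.charDegree (χ₀ : G → ℂ) : ℤ)
          = (εX χ₀ - (Cfsg.charDegree (χ₀ : G → ℂ) : ℤ)) - (p : ℤ) * εX χ₀ := by
        rw [h2]
        ring
      rw [h3]
      exact dvd_sub h1 (dvd_mul_right _ _)
    · intro θ hθ θ' hθ' g _
      rw [Finset.mem_singleton] at hθ hθ'
      rw [hθ, hθ']
    · intro θ hθ g hg
      rw [Finset.mem_singleton] at hθ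
      rw [hθ, Finset.sum_insert htE, if_pos rfl, Helper81.trivIrr_apply]
      have h1 := hrel' _ ht g hg
      rw [hεm, Helper81.trivIrr_apply, ← Finset.add_sum_erase _ _ hχ₀f] at h1
      have h2 : ∑ χ ∈ (Finset.univ.filter (fun χ : Cfsg.IrrCharacter G => χ ∈ X)).erase χ₀,
          (((if χ = Helper81.trivIrr G then 1 else εX χ : ℤ)) : ℂ) * (χ : G → ℂ) g
          = ∑ χ ∈ (Finset.univ.filter (fun χ : Cfsg.IrrCharacter G => χ ∈ X)).erase χ₀,
            (εX χ : ℂ) * (χ : G → ℂ) g := by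
        apply Finset.sum_congr rfl
        intro χ hχ
        rw [if_neg (hne χ ((hmX χ).mp (Finset.mem_of_mem_erase hχ)))]
      rw [h2]
      push_cast at h1 ⊢
      linear_combination h1

end Cfsg.Agent.Helper75
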