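import Cfsg.Agent.Helper9.BRDefs
import Cfsg.Agent.Helper67.BRA2

/-!
# Brauer–Reynolds (CALL S0999): splitting sums over the principal block along a `BRTab` (helper75)
-/

set_option autoImplicit false
open Cfsg
open scoped ComplexConjugate

namespace Cfsg.Agent.Helper75

universe u

/-- A sum over the principal block splits along the normal form `BRTab`. -/
theorem br_split {G : Type u} [Group G] [Fintype G] {p : ℕ} {M : Ideal Cfsg.AlgInt}
    {P : Sylow p G} {q : ℕ} (T : Cfsg.Agent.Helper9.BRTab p M P q)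
    (f : Cfsg.IrrCharacter G → ℂ) :
    ∑ᶠ ζ ∈ Cfsg.principalBlock M G, f ζ
      = f (Helper81.trivIrr G) + ∑ χ ∈ T.X1, f χ + ∑ χ ∈ T.X2, f χ + ∑ θ ∈ T.Y, f θ := by
  classical
  have hset : Cfsg.principalBlock M G
      = ((insert (Helper81.trivIrr G) (T.X1 ∪ (T.X2 ∪ T.Y)) : Finset (Cfsg.IrrCharacter G)) :
        Set (Cfsg.IrrCharacter G)) := by
    ext χ
    rw [T.hB χ]
    simp only [Finset.coe_insert, Finset.coe_union, Set.mem_insert_iff, Set.mem_union,
      Finset.mem_coe]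
  rw [hset, finsum_mem_coe_finset]
  have h1 : Helper81.trivIrr G ∉ T.X1 ∪ (T.X2 ∪ T.Y) := by
    simp only [Finset.mem_union, not_or]
    exact ⟨T.h1X1, T.h1X2, T.h1Y⟩
  rw [Finset.sum_insert h1]
  have h2 : Disjoint T.X1 (T.X2 ∪ T.Y) := by
    rw [Finset.disjoint_union_right]
    exact ⟨T.hX12, T.hX1Y⟩
  rw [Finset.sum_union h2, Finset.sum_union T.hX2Y]
  ring

/-- A Sylow subgroup of prime order is commutative. -/
theorem br_hab {G : Type u} [Group G] {p : ℕ} [Fact p.Prime] (P : Sylow p G)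
    (hP : Nat.card (P : Subgroup G) = p) : IsMulCommutative P := by
  haveI : IsCyclic (P : Subgroup G) := isCyclic_of_prime_card hP
  exact IsCyclic.isMulCommutative

/-- The Frobenius-type hypothesis of `Helper82.excBlock_sum_self` for a Sylow subgroup of prime
order. -/
theorem br_hfrob {G : Type u} [Group G] {p : ℕ} [Fact p.Prime] (P : Sylow p G)
    (hP : Nat.card (P : Subgroup G) = p) :
    ∀ y : G, y ∈ (P : Subgroup G) → y ≠ 1 → Subgroup.centralizer ({y} : Set G)
      ⊓ Subgroup.normalizer ((P : Subgroup G) : Set G)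
        = Subgroup.centralizer ((P : Subgroup G) : Set G) := by
  intro y hy hy1
  rw [Helper67.br_centralizer_singleton P hP y hy hy1]
  exact inf_eq_left.mpr (Subgroup.centralizer_le_normalizer _)

/-- `1` is `p`-regular. -/
theorem br_one_reg {G : Type u} [Group G] {p : ℕ} [Fact p.Prime] : ¬ p ∣ orderOf (1 : G) := by
  have hp : p.Prime := Fact.out
  rw [orderOf_one]
  exact hp.one_lt.ne' ∘ Nat.dvd_one.mp

/-- Values of the characters in `X1` at the nontrivial elements of `P`. -/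
theorem br_X1_val {G : Type u} [Group G] [Fintype G] {p : ℕ} [Fact p.Prime]
    {M : Ideal Cfsg.AlgInt} {P : Sylow p G} {q : ℕ} (T : Cfsg.Agent.Helper9.BRTab p M P q)
    (χ : Cfsg.IrrCharacter G) (hχ : χ ∈ T.X1) (y : G) (hy : y ∈ (P : Subgroup G)) (hy1 : y ≠ 1) :
    (χ : G → ℂ) y = 1 := by
  have h := (T.hX1 χ hχ).2 y hy hy1 1 (Subgroup.one_mem _) br_one_reg
  rwa [mul_one] at h

/-- Values of the characters in `X2` at the nontrivial elements of `P`. -/
theorem br_X2_val {G : Type u} [Group G] [Fintype G] {p : ℕ} [Fact p.Prime]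
    {M : Ideal Cfsg.AlgInt} {P : Sylow p G} {q : ℕ} (T : Cfsg.Agent.Helper9.BRTab p M P q)
    (χ : Cfsg.IrrCharacter G) (hχ : χ ∈ T.X2) (y : G) (hy : y ∈ (P : Subgroup G)) (hy1 : y ≠ 1) :
    (χ : G → ℂ) y = -1 := by
  have h := (T.hX2 χ hχ).2 y hy hy1 1 (Subgroup.one_mem _) br_one_reg
  rwa [mul_one] at h

end Cfsg.Agent.Helper75
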