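import Cfsg.Agent.Helper75.BRSplit

/-!
# Brauer–Reynolds (CALL S0999), piece T1: the exceptional characters sum to `-ε` on `P#` (helper75)
-/

set_option autoImplicit false
open Cfsg
open scoped ComplexConjugate

namespace Cfsg.Agent.Helper75

universe u

theorem br_theta_sum {G : Type u} [Group G] [Fintype G] {p : ℕ} [Fact p.Prime]
    {M : Ideal Cfsg.AlgInt} (hM : Cfsg.IsPModular p M) {P : Sylow p G} {q : ℕ}
    (T : Cfsg.Agent.Helper9.BRTab p M P q) (hY : T.Y.Nonempty) (y : G)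
    (hy : y ∈ (P : Subgroup G)) (hy1 : y ≠ 1) :
    ∑ θ ∈ T.Y, (θ : G → ℂ) y = -(T.ε : ℂ) := by
  classical
  obtain ⟨θ₀, hθ₀⟩ := hY
  have key := Helper82.excBlock_sum_preg hM P (1 : G) y br_one_reg hy hy1
  rw [br_split T] at key
  have hX1 : ∑ χ ∈ T.X1, (χ : G → ℂ) 1 * conj ((χ : G → ℂ) y) = ∑ χ ∈ T.X1, (χ : G → ℂ) 1 := by
    apply Finset.sum_congr rfl
    intro χ hχ
    rw [br_X1_val T χ hχ y hy hy1, map_one, mul_one]
  have hX2 : ∑ χ ∈ T.X2, (χ : G → ℂ) 1 * conj ((χ : G → ℂ) y)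
      = -∑ χ ∈ T.X2, (χ : G → ℂ) 1 := by
    rw [← Finset.sum_neg_distrib]
    apply Finset.sum_congr rfl
    intro χ hχ
    rw [br_X2_val T χ hχ y hy hy1, map_neg, map_one, mul_neg, mul_one]
  have hYs : ∑ θ ∈ T.Y, (θ : G → ℂ) 1 * conj ((θ : G → ℂ) y)
      = (θ₀ : G → ℂ) 1 * conj (∑ θ ∈ T.Y, (θ : G → ℂ) y) := by
    rw [map_sum, Finset.mul_sum]
    apply Finset.sum_congr rfl
    intro θ hθ
    rw [T.hYreg θ hθ θ₀ hθ₀ 1 br_one_reg]
  have hrel := T.hrel θ₀ hθ₀ 1 br_one_reg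
  rw [hX1, hX2, hYs, Helper81.trivIrr_apply, Helper81.trivIrr_apply, map_one, mul_one] at key
  have hx0 : (θ₀ : G → ℂ) 1 ≠ 0 := Helper81.irr_one_ne_zero θ₀
  have h1 : (θ₀ : G → ℂ) 1 * (conj (∑ θ ∈ T.Y, (θ : G → ℂ) y) + (T.ε : ℂ)) = 0 := by
    rw [mul_add, mul_comm ((θ₀ : G → ℂ) 1) (T.ε : ℂ), hrel]
    linear_combination key
  have h2 : conj (∑ θ ∈ T.Y, (θ : G → ℂ) y) = -(T.ε : ℂ) := by
    rcases mul_eq_zero.mp h1 with h | h
    · exact absurd h hx0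
    · linear_combination h
  have h3 := congrArg conj h2
  rw [Complex.conj_conj, map_neg, map_intCast] at h3
  exact h3

end Cfsg.Agent.Helper75
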