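import Cfsg.Agent.Helper75.BRSplit

/-!
# Brauer–Reynolds (CALL S0999), piece T3: characters outside the principal block vanish on `P#`
(helper75)
-/

set_option autoImplicit false
open Cfsg
open scoped ComplexConjugate

namespace Cfsg.Agent.Helper75

universe u

theorem br_vanish {G : Type u} [Group G] [Fintype G] {p : ℕ} [Fact p.Prime]
    {M : Ideal Cfsg.AlgInt} (hM : Cfsg.IsPModular p M) (P : Sylow p G)
    (hP : Nat.card (P : Subgroup G) = p)
    (hC : Nat.card (Subgroup.centralizer ((P : Subgroup G) : Set G)) = p)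
    (χ : Cfsg.IrrCharacter G) (hχ : χ ∉ Cfsg.principalBlock M G) (y : G)
    (hy : y ∈ (P : Subgroup G)) (hy1 : y ≠ 1) : (χ : G → ℂ) y = 0 := by
  classical
  letI : Fintype (Cfsg.IrrCharacter G) := Fintype.ofFinite _
  have key := Helper82.excBlock_sum_self hM P (br_hab P hP) (br_hfrob P hP) y hy hy1
  have hall := Helper80.irr_finsum_column_orthogonality_of_isConj (IsConj.refl y)
  rw [Helper67.br_centralizer_singleton P hP y hy hy1, hC] at hall
  rw [hP] at key
  rw [finsum_eq_sum_of_fintype] at hall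
  have hset : Cfsg.principalBlock M G
      = ((Finset.univ.filter (fun ζ : Cfsg.IrrCharacter G => ζ ∈ Cfsg.principalBlock M G) :
        Finset (Cfsg.IrrCharacter G)) : Set (Cfsg.IrrCharacter G)) := by
    ext ζ
    simp
  rw [hset, finsum_mem_coe_finset] at key
  have hsplit := Finset.sum_filter_add_sum_filter_not (Finset.univ : Finset (Cfsg.IrrCharacter G))
    (fun ζ : Cfsg.IrrCharacter G => ζ ∈ Cfsg.principalBlock M G)
    (fun ζ : Cfsg.IrrCharacter G => (ζ : G → ℂ) y * conj ((ζ : G → ℂ) y))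
  rw [hall, key] at hsplit
  have h0 : ∑ ζ ∈ Finset.univ.filter (fun ζ : Cfsg.IrrCharacter G =>
      ¬ ζ ∈ Cfsg.principalBlock M G), (ζ : G → ℂ) y * conj ((ζ : G → ℂ) y) = 0 := by
    linear_combination hsplit
  have h0' : ∑ ζ ∈ Finset.univ.filter (fun ζ : Cfsg.IrrCharacter G =>
      ¬ ζ ∈ Cfsg.principalBlock M G), Complex.normSq ((ζ : G → ℂ) y) = 0 := by
    have h1 : ((∑ ζ ∈ Finset.univ.filter (fun ζ : Cfsg.IrrCharacter G =>
        ¬ ζ ∈ Cfsg.principalBlock M G), Complex.normSq ((ζ : G → ℂ) y) : ℝ) : ℂ) = 0 := by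
      rw [Complex.ofReal_sum, ← h0]
      apply Finset.sum_congr rfl
      intro ζ _
      rw [Complex.mul_conj]
    exact_mod_cast h1
  have h2 := (Finset.sum_eq_zero_iff_of_nonneg (fun ζ _ => Complex.normSq_nonneg _)).mp h0' χ
    (by simp [hχ])
  exact Complex.normSq_eq_zero.mp h2

end Cfsg.Agent.Helper75
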