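import Cfsg.Agent.Helper75.BRSplit

/-!
# Brauer–Reynolds (CALL S0999), piece T4: `∑_Y |θ(y)|² = p - q` on `P#` (helper75)
-/

set_option autoImplicit false
open Cfsg
open scoped ComplexConjugate

namespace Cfsg.Agent.Helper75

universe u

theorem br_block_sq_sum {G : Type u} [Group G] [Fintype G] {p : ℕ} [Fact p.Prime]
    {M : Ideal Cfsg.AlgInt} (hM : Cfsg.IsPModular p M) {P : Sylow p G}
    (hP : Nat.card (P : Subgroup G) = p) {q : ℕ}
    (T : Cfsg.Agent.Helper9.BRTab p M P q) (y : G) (hy : y ∈ (P : Subgroup G)) (hy1 : y ≠ 1) :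
    ∑ θ ∈ T.Y, (θ : G → ℂ) y * conj ((θ : G → ℂ) y) = (p : ℂ) - (q : ℂ) := by
  classical
  have key := Helper82.excBlock_sum_self hM P (br_hab P hP) (br_hfrob P hP) y hy hy1
  rw [br_split T, hP] at key
  have hX1 : ∑ χ ∈ T.X1, (χ : G → ℂ) y * conj ((χ : G → ℂ) y) = (T.X1.card : ℂ) := by
    rw [Finset.sum_congr rfl (fun χ hχ => by
      rw [br_X1_val T χ hχ y hy hy1, map_one, mul_one] :
      ∀ χ ∈ T.X1, (χ : G → ℂ) y * conj ((χ : G → ℂ) y) = 1)]
    simp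
  have hX2 : ∑ χ ∈ T.X2, (χ : G → ℂ) y * conj ((χ : G → ℂ) y) = (T.X2.card : ℂ) := by
    rw [Finset.sum_congr rfl (fun χ hχ => by
      rw [br_X2_val T χ hχ y hy hy1, map_neg, map_one, neg_mul_neg, mul_one] :
      ∀ χ ∈ T.X2, (χ : G → ℂ) y * conj ((χ : G → ℂ) y) = 1)]
    simp
  rw [hX1, hX2, Helper81.trivIrr_apply, map_one, mul_one] at key
  have hq : (q : ℂ) = 1 + (T.X1.card : ℂ) + (T.X2.card : ℂ) := by
    have h := T.hcard
    have h' : ((1 + T.X1.card + T.X2.card : ℕ) : ℂ) = (q : ℂ) := congrArg (Nat.cast : ℕ → ℂ) h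
    rw [← h']
    push_cast
    ring
  rw [hq]
  linear_combination key

end Cfsg.Agent.Helper75
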