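import Mathlib
import Cfsg.Agent.Helper75.GaloisAMGM
import Cfsg.Agent.Helper77.LocalRing
import Cfsg.Agent.Helper81.LocalRing

/-!
# Galois means in `2`-power cyclotomic fields (helper75)

`gmean n σ x = |Γ|⁻¹ Σ_{u ∈ Γ} σ_u(x)`, `Γ = (ℤ/n)ˣ`, `σ_u` a chosen automorphism of `ℂ` raising
the `n`-th roots of unity to the `u`-th power.

For `n = 2^K`:
* `gmean_root`: the mean of an `n`-th root of unity `ω` is `1`, `-1`, `0` according as `ω = 1`,
  `ω = -1`, or neither (`rootSign ω`).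
* `gmean_formal`: the mean of `Σ c_i ω_i` (`c_i ∈ ℤ`) is the integer `Σ c_i rootSign ω_i`.
* `gmean_normSq_formal`: the mean of `x conj x`, `x = Σ c_i ω_i`, is a nonnegative integer, odd
  when `x` is not in the local ideal at a maximal ideal containing `2`.
* `gmean_sym_formal`: the mean of `x = Σ_{i,j} g(i,j) ε_i conj ε_j` with `g` symmetric is an
  integer, odd when `x` is not in the local ideal.
-/

set_option autoImplicit false
open scoped ComplexConjugate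

namespace Cfsg.Agent.Helper75

/-- The Galois mean. -/
noncomputable def gmean (n : ℕ) [NeZero n] (σ : (ZMod n)ˣ → (ℂ ≃+* ℂ)) (x : ℂ) : ℂ :=
  (Fintype.card (ZMod n)ˣ : ℂ)⁻¹ * ∑ u : (ZMod n)ˣ, σ u x

theorem gmean_add (n : ℕ) [NeZero n] (σ : (ZMod n)ˣ → (ℂ ≃+* ℂ)) (x y : ℂ) :
    gmean n σ (x + y) = gmean n σ x + gmean n σ y := by
  unfold gmean
  simp only [map_add, Finset.sum_add_distrib, mul_add]

theorem gmean_zero (n : ℕ) [NeZero n] (σ : (ZMod n)ˣ → (ℂ ≃+* ℂ)) : gmean n σ 0 = 0 := by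
  unfold gmean
  simp

theorem gmean_sum (n : ℕ) [NeZero n] (σ : (ZMod n)ˣ → (ℂ ≃+* ℂ)) {ι : Type*} (s : Finset ι)
    (f : ι → ℂ) : gmean n σ (∑ i ∈ s, f i) = ∑ i ∈ s, gmean n σ (f i) := by
  classical
  induction s using Finset.induction_on with
  | empty => simp [gmean_zero]
  | insert a s ha ih => rw [Finset.sum_insert ha, Finset.sum_insert ha, gmean_add, ih]

theorem gmean_intCast_mul (n : ℕ) [NeZero n] (σ : (ZMod n)ˣ → (ℂ ≃+* ℂ)) (c : ℤ) (x : ℂ) :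
    gmean n σ ((c : ℂ) * x) = (c : ℂ) * gmean n σ x := by
  unfold gmean
  simp only [map_mul, map_intCast, ← Finset.mul_sum]
  ring

theorem gmean_natCast_mul (n : ℕ) [NeZero n] (σ : (ZMod n)ˣ → (ℂ ≃+* ℂ)) (c : ℕ) (x : ℂ) :
    gmean n σ ((c : ℂ) * x) = (c : ℂ) * gmean n σ x := by
  have := gmean_intCast_mul n σ (c : ℤ) x
  simpa using this

theorem gmean_one (n : ℕ) [NeZero n] (σ : (ZMod n)ˣ → (ℂ ≃+* ℂ)) : gmean n σ 1 = 1 := by
  unfold gmean
  simp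

theorem gmean_natCast (n : ℕ) [NeZero n] (σ : (ZMod n)ˣ → (ℂ ≃+* ℂ)) (c : ℕ) :
    gmean n σ (c : ℂ) = (c : ℂ) := by
  have := gmean_natCast_mul n σ c 1
  rwa [mul_one, gmean_one, mul_one] at this

/-- The mean of `x conj x` is a nonnegative real number, for `x` in the cyclotomic field. -/
theorem gmean_mul_conj_nonneg (n : ℕ) [NeZero n] (σ : (ZMod n)ˣ → (ℂ ≃+* ℂ)) {x : ℂ}
    (hx : x ∈ cycField n) : ∃ r : ℝ, 0 ≤ r ∧ gmean n σ (x * conj x) = (r : ℂ) := by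
  have hn : n ≠ 0 := NeZero.ne n
  refine ⟨(Fintype.card (ZMod n)ˣ : ℝ)⁻¹ * ∑ u : (ZMod n)ˣ, ‖σ u x‖ ^ 2, by positivity, ?_⟩
  unfold gmean
  push_cast
  congr 1
  refine Finset.sum_congr rfl fun u _ => ?_
  rw [map_mul, ringEquiv_conj_comm (σ u) n hn hx, Complex.mul_conj, Complex.normSq_eq_norm_sq]
  push_cast
  rfl

/-- `1`, `-1` or `0` according as `ω = 1`, `ω = -1` or neither. -/
noncomputable def rootSign (ω : ℂ) : ℤ := by
  classical exact if ω = 1 then 1 else if ω = -1 then -1 else 0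

theorem rootSign_one : rootSign 1 = 1 := by
  unfold rootSign
  simp

theorem rootSign_conj (ω : ℂ) : rootSign (conj ω) = rootSign ω := by
  unfold rootSign
  have h1 : conj ω = 1 ↔ ω = 1 := by
    constructor
    · intro h
      have := congrArg conj h
      simpa using this
    · intro h
      rw [h, map_one]
  have h2 : conj ω = -1 ↔ ω = -1 := by
    constructor
    · intro h
      have := congrArg conj h
      simpa using this
    · intro h
      rw [h, map_neg, map_one]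
  simp only [h1, h2]

theorem gmean_root {K : ℕ} (σ : (ZMod (2 ^ K))ˣ → (ℂ ≃+* ℂ))
    (hσ : ∀ (u : (ZMod (2 ^ K))ˣ) (z : ℂ), z ^ 2 ^ K = 1 → σ u z = z ^ (u : ZMod (2 ^ K)).val)
    {ω : ℂ} (hω : ω ^ 2 ^ K = 1) : gmean (2 ^ K) σ ω = (rootSign ω : ℂ) := by
  have hcard : (Fintype.card (ZMod (2 ^ K))ˣ : ℂ) ≠ 0 := by
    exact_mod_cast Fintype.card_pos.ne'
  by_cases h1 : ω = 1
  · rw [h1, gmean_one, rootSign_one, Int.cast_one]
  by_cases h2 : ω = -1
  · unfold gmean rootSign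
    rw [if_neg h1, if_pos h2, h2]
    simp
  have hrs : rootSign ω = 0 := by
    unfold rootSign
    rw [if_neg h1, if_neg h2]
  rw [hrs, Int.cast_zero]
  unfold gmean
  suffices h : ∑ u : (ZMod (2 ^ K))ˣ, σ u ω = 0 by rw [h, mul_zero]
  have hS : ∑ u : (ZMod (2 ^ K))ˣ, σ u ω
      = ∑ u : (ZMod (2 ^ K))ˣ, ω ^ (u : ZMod (2 ^ K)).val :=
    Finset.sum_congr rfl fun u _ => hσ u ω hω
  rw [hS]
  have hord : orderOf ω ∣ 2 ^ K := orderOf_dvd_of_pow_eq_one hω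
  obtain ⟨j, hjK, hj⟩ := (Nat.dvd_prime_pow Nat.prime_two).mp hord
  have hj2 : 2 ≤ j := by
    by_contra hlt
    have hj01 : j = 0 ∨ j = 1 := by omega
    rcases hj01 with rfl | rfl
    · rw [pow_zero, orderOf_eq_one_iff] at hj
      exact h1 hj
    · have h3 : ω ^ 2 = 1 := by
        have := pow_orderOf_eq_one ω
        rwa [hj, pow_one] at this
      have h4 : (ω - 1) * (ω + 1) = 0 := by linear_combination h3
      rcases mul_eq_zero.mp h4 with h5 | h5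
      · exact h1 (sub_eq_zero.mp h5)
      · exact h2 (eq_neg_of_add_eq_zero_left h5)
  have hhalf : ω ^ 2 ^ (j - 1) = -1 := by
    have hsq : (ω ^ 2 ^ (j - 1)) ^ 2 = 1 := by
      rw [← pow_mul, ← pow_succ, Nat.sub_add_cancel (by omega), ← hj, pow_orderOf_eq_one]
    have hne : ω ^ 2 ^ (j - 1) ≠ 1 :=
      pow_ne_one_of_lt_orderOf (by positivity)
        (by rw [hj]; exact Nat.pow_lt_pow_right (by norm_num) (by omega))
    have h4 : (ω ^ 2 ^ (j - 1) - 1) * (ω ^ 2 ^ (j - 1) + 1) = 0 := by linear_combination hsq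
    rcases mul_eq_zero.mp h4 with h5 | h5
    · exact absurd (sub_eq_zero.mp h5) hne
    · exact eq_neg_of_add_eq_zero_left h5
  have hK1 : K ≠ 0 := by omega
  have hodd : Odd (1 + 2 ^ (j - 1)) := by
    rw [add_comm]
    exact Even.add_one ((Nat.even_pow' (by omega)).mpr even_two)
  have hcop : Nat.Coprime (1 + 2 ^ (j - 1)) (2 ^ K) :=
    Nat.Coprime.pow_right K (Nat.coprime_two_right.mpr hodd)
  obtain ⟨v, hv⟩ : ∃ v : (ZMod (2 ^ K))ˣ, v = ZMod.unitOfCoprime (1 + 2 ^ (j - 1)) hcop :=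
    ⟨_, rfl⟩
  have hvpow : ω ^ (v : ZMod (2 ^ K)).val = -ω := by
    rw [hv, ZMod.coe_unitOfCoprime, ZMod.val_natCast, ← pow_eq_pow_mod _ hω, pow_add, pow_one,
      hhalf]
    ring
  have hterm : ∀ u : (ZMod (2 ^ K))ˣ,
      ω ^ ((u * v : (ZMod (2 ^ K))ˣ) : ZMod (2 ^ K)).val = -ω ^ (u : ZMod (2 ^ K)).val := by
    intro u
    have huodd : Odd (u : ZMod (2 ^ K)).val := by
      have h6 := ZMod.val_coe_unit_coprime u
      exact Nat.coprime_two_right.mp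
        (Nat.Coprime.coprime_dvd_right (dvd_pow_self 2 hK1) h6)
    rw [Units.val_mul, ZMod.val_mul, ← pow_eq_pow_mod _ hω, mul_comm, pow_mul, hvpow,
      Odd.neg_pow huodd]
  have hneg : ∑ u : (ZMod (2 ^ K))ˣ, ω ^ (u : ZMod (2 ^ K)).val
      = -∑ u : (ZMod (2 ^ K))ˣ, ω ^ (u : ZMod (2 ^ K)).val := by
    calc ∑ u : (ZMod (2 ^ K))ˣ, ω ^ (u : ZMod (2 ^ K)).val
        = ∑ u : (ZMod (2 ^ K))ˣ, ω ^ ((u * v : (ZMod (2 ^ K))ˣ) : ZMod (2 ^ K)).val :=
          (Equiv.sum_comp (Equiv.mulRight v)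
            (fun u : (ZMod (2 ^ K))ˣ => ω ^ (u : ZMod (2 ^ K)).val)).symm
      _ = ∑ u : (ZMod (2 ^ K))ˣ, -ω ^ (u : ZMod (2 ^ K)).val :=
          Finset.sum_congr rfl fun u _ => hterm u
      _ = _ := Finset.sum_neg_distrib _
  linear_combination hneg / 2

/-- The mean of an integer combination of `2^K`-th roots of unity. -/
theorem gmean_formal {K : ℕ} (σ : (ZMod (2 ^ K))ˣ → (ℂ ≃+* ℂ))
    (hσ : ∀ (u : (ZMod (2 ^ K))ˣ) (z : ℂ), z ^ 2 ^ K = 1 → σ u z = z ^ (u : ZMod (2 ^ K)).val)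
    {ι : Type*} (I : Finset ι) (c : ι → ℤ) (ω : ι → ℂ) (hω : ∀ i ∈ I, ω i ^ 2 ^ K = 1) :
    gmean (2 ^ K) σ (∑ i ∈ I, (c i : ℂ) * ω i)
      = ((∑ i ∈ I, c i * rootSign (ω i) : ℤ) : ℂ) := by
  rw [gmean_sum]
  push_cast
  refine Finset.sum_congr rfl fun i hi => ?_
  rw [gmean_intCast_mul, gmean_root σ hσ (hω i hi)]

/-- A symmetric double sum is congruent to its diagonal modulo `2`. -/
theorem sum_sym_even {ι : Type*} (S : Finset ι) (h : ι → ι → ℤ)
    (hsym : ∀ i ∈ S, ∀ j ∈ S, h i j = h j i) :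
    Even (∑ i ∈ S, ∑ j ∈ S, h i j - ∑ i ∈ S, h i i) := by
  classical
  induction S using Finset.induction_on with
  | empty => simp
  | insert a S ha ih =>
    have ih' := ih (fun i hi j hj => hsym i (Finset.mem_insert_of_mem hi) j
      (Finset.mem_insert_of_mem hj))
    rw [Finset.sum_insert ha, Finset.sum_insert ha, Finset.sum_insert ha]
    have h1 : ∑ i ∈ S, ∑ j ∈ insert a S, h i j
        = ∑ i ∈ S, h i a + ∑ i ∈ S, ∑ j ∈ S, h i j := by
      rw [← Finset.sum_add_distrib]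
      exact Finset.sum_congr rfl fun i _ => Finset.sum_insert ha
    have h2 : ∑ i ∈ S, h i a = ∑ j ∈ S, h a j :=
      Finset.sum_congr rfl fun i hi => hsym i (Finset.mem_insert_of_mem hi) a
        (Finset.mem_insert_self a S)
    rw [h1, h2]
    obtain ⟨r, hr⟩ := ih'
    exact ⟨∑ j ∈ S, h a j + r, by linarith⟩

/-- An integer combination of `2`-power roots of unity outside the local ideal has odd
coefficient sum. -/
theorem odd_sum_of_not_memLocalIdeal {K : ℕ} {M : Ideal Cfsg.AlgInt}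
    (hM : Cfsg.IsPModular 2 M) {ι : Type*} (I : Finset ι) (c : ι → ℤ) (ω : ι → ℂ)
    (hω : ∀ i ∈ I, ω i ^ 2 ^ K = 1)
    (hx : ¬ Cfsg.MemLocalIdeal M (∑ i ∈ I, (c i : ℂ) * ω i)) : Odd (∑ i ∈ I, c i) := by
  have hMm := hM.2.1
  by_contra hodd
  rw [Int.not_odd_iff_even] at hodd
  obtain ⟨r, hr⟩ := hodd
  apply hx
  have h1 : Cfsg.MemLocalIdeal M (∑ i ∈ I, (c i : ℂ) * (ω i - 1)) := by
    refine Helper77.memLocalIdeal_sum hMm _ _ fun i hi => ?_
    exact Helper77.memLocalIdeal_mul hMm (Helper81.memLocalRing_intCast hMm.ne_top (c i))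
      (Helper77.memLocalIdeal_root_sub_one hM (hω i hi))
  have h2 : Cfsg.MemLocalIdeal M ((∑ i ∈ I, c i : ℤ) : ℂ) := by
    rw [hr]
    have h3 : ((r + r : ℤ) : ℂ) = (r : ℂ) * ((2 : ℕ) : ℂ) := by push_cast; ring
    rw [h3]
    exact Helper77.memLocalIdeal_mul hMm (Helper81.memLocalRing_intCast hMm.ne_top r)
      (Helper77.memLocalIdeal_prime hM)
  have h4 := Helper77.memLocalIdeal_add hMm h1 h2
  have e : ∑ i ∈ I, (c i : ℂ) * (ω i - 1) + ((∑ i ∈ I, c i : ℤ) : ℂ)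
      = ∑ i ∈ I, (c i : ℂ) * ω i := by
    push_cast
    rw [← Finset.sum_add_distrib]
    refine Finset.sum_congr rfl fun i _ => ?_
    ring
  rwa [e] at h4

/-- The mean of `x conj x` for `x = Σ c_i ω_i` is a nonnegative integer, odd when `x` is outside
the local ideal. -/
theorem gmean_normSq_formal {K : ℕ} (σ : (ZMod (2 ^ K))ˣ → (ℂ ≃+* ℂ))
    (hσ : ∀ (u : (ZMod (2 ^ K))ˣ) (z : ℂ), z ^ 2 ^ K = 1 → σ u z = z ^ (u : ZMod (2 ^ K)).val)
    {M : Ideal Cfsg.AlgInt} (hM : Cfsg.IsPModular 2 M)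
    {ι : Type*} (I : Finset ι) (c : ι → ℤ) (ω : ι → ℂ) (hω : ∀ i ∈ I, ω i ^ 2 ^ K = 1) :
    ∃ N : ℤ, gmean (2 ^ K) σ ((∑ i ∈ I, (c i : ℂ) * ω i) * conj (∑ i ∈ I, (c i : ℂ) * ω i))
        = (N : ℂ) ∧ 0 ≤ N ∧
      (¬ Cfsg.MemLocalIdeal M (∑ i ∈ I, (c i : ℂ) * ω i) → Odd N) := by
  classical
  have hn : (2 : ℕ) ^ K ≠ 0 := by positivity
  have hnorm : ∀ i ∈ I, ω i * conj (ω i) = 1 := by
    intro i hi
    rw [Complex.mul_conj, Complex.normSq_eq_norm_sq,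
      Complex.norm_eq_one_of_pow_eq_one (hω i hi) hn]
    simp
  have hexp : (∑ i ∈ I, (c i : ℂ) * ω i) * conj (∑ i ∈ I, (c i : ℂ) * ω i)
      = ∑ x ∈ I ×ˢ I, ((c x.1 * c x.2 : ℤ) : ℂ) * (ω x.1 * conj (ω x.2)) := by
    rw [map_sum, Finset.sum_mul_sum, Finset.sum_product]
    refine Finset.sum_congr rfl fun i _ => Finset.sum_congr rfl fun j _ => ?_
    rw [map_mul, map_intCast]
    push_cast
    ring
  have hroot : ∀ x ∈ I ×ˢ I, (ω x.1 * conj (ω x.2)) ^ 2 ^ K = 1 := by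
    intro x hx
    rw [Finset.mem_product] at hx
    rw [mul_pow, ← map_pow, hω x.1 hx.1, hω x.2 hx.2, map_one, mul_one]
  have hmean := gmean_formal σ hσ (I ×ˢ I) (fun x => c x.1 * c x.2)
    (fun x => ω x.1 * conj (ω x.2)) hroot
  rw [← hexp] at hmean
  refine ⟨_, hmean, ?_, ?_⟩
  · -- nonnegativity
    have hxmem : (∑ i ∈ I, (c i : ℂ) * ω i) ∈ cycField (2 ^ K) :=
      sum_mem fun i hi => mul_mem (intCast_mem _ _) (mem_cycField_of_pow_eq_one _ hn (hω i hi))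
    obtain ⟨r, hr0, hr⟩ := gmean_mul_conj_nonneg (2 ^ K) σ hxmem
    rw [hmean] at hr
    have h5 : ((∑ x ∈ I ×ˢ I, c x.1 * c x.2 * rootSign (ω x.1 * conj (ω x.2)) : ℤ) : ℝ) = r := by
      exact_mod_cast hr
    have h6 : (0 : ℝ) ≤ ((∑ x ∈ I ×ˢ I, c x.1 * c x.2 * rootSign (ω x.1 * conj (ω x.2)) : ℤ) : ℝ) := by
      rw [h5]; exact hr0
    exact_mod_cast h6
  · intro hx
    have hoddc := odd_sum_of_not_memLocalIdeal hM I c ω hω hx
    have hsym := sum_sym_even I (fun i j => c i * c j * rootSign (ω i * conj (ω j)))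
      (fun i _ j _ => by
        have h7 : ω j * conj (ω i) = conj (ω i * conj (ω j)) := by
          rw [map_mul, Complex.conj_conj, mul_comm]
        rw [h7, rootSign_conj]
        ring)
    have hdiag : ∑ i ∈ I, c i * c i * rootSign (ω i * conj (ω i)) = ∑ i ∈ I, c i * c i := by
      refine Finset.sum_congr rfl fun i hi => ?_
      rw [hnorm i hi, rootSign_one, mul_one]
    rw [hdiag, ← Finset.sum_product'] at hsym
    have hsq : Even (∑ i ∈ I, c i * c i - ∑ i ∈ I, c i) := by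
      rw [← Finset.sum_sub_distrib]
      refine Finset.even_sum _ fun i _ => ?_
      have h8 : c i * c i - c i = c i * (c i - 1) := by ring
      rw [h8]
      exact Int.even_mul_pred_self (c i)
    obtain ⟨r1, hr1⟩ := hsym
    obtain ⟨r2, hr2⟩ := hsq
    obtain ⟨r3, hr3⟩ := hoddc
    exact ⟨r1 + r2 + r3, by linarith⟩

/-- The mean of `x = Σ_{i,j} g(i,j) ε_i conj ε_j` with `g` symmetric is an integer, odd when `x` is
outside the local ideal. -/
theorem gmean_sym_formal {K : ℕ} (σ : (ZMod (2 ^ K))ˣ → (ℂ ≃+* ℂ))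
    (hσ : ∀ (u : (ZMod (2 ^ K))ˣ) (z : ℂ), z ^ 2 ^ K = 1 → σ u z = z ^ (u : ZMod (2 ^ K)).val)
    {M : Ideal Cfsg.AlgInt} (hM : Cfsg.IsPModular 2 M)
    {ι : Type*} (I : Finset ι) (g : ι → ι → ℤ) (hg : ∀ i ∈ I, ∀ j ∈ I, g i j = g j i)
    (ε : ι → ℂ) (hε : ∀ i ∈ I, ε i ^ 2 ^ K = 1) :
    ∃ T : ℤ, gmean (2 ^ K) σ (∑ i ∈ I, ∑ j ∈ I, (g i j : ℂ) * (ε i * conj (ε j))) = (T : ℂ) ∧
      (¬ Cfsg.MemLocalIdeal M (∑ i ∈ I, ∑ j ∈ I, (g i j : ℂ) * (ε i * conj (ε j))) → Odd T) := by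
  classical
  have hn : (2 : ℕ) ^ K ≠ 0 := by positivity
  have hnorm : ∀ i ∈ I, ε i * conj (ε i) = 1 := by
    intro i hi
    rw [Complex.mul_conj, Complex.normSq_eq_norm_sq,
      Complex.norm_eq_one_of_pow_eq_one (hε i hi) hn]
    simp
  have hexp : ∑ i ∈ I, ∑ j ∈ I, (g i j : ℂ) * (ε i * conj (ε j))
      = ∑ x ∈ I ×ˢ I, ((g x.1 x.2 : ℤ) : ℂ) * (ε x.1 * conj (ε x.2)) := by
    rw [Finset.sum_product]
  have hroot : ∀ x ∈ I ×ˢ I, (ε x.1 * conj (ε x.2)) ^ 2 ^ K = 1 := by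
    intro x hx
    rw [Finset.mem_product] at hx
    rw [mul_pow, ← map_pow, hε x.1 hx.1, hε x.2 hx.2, map_one, mul_one]
  have hmean := gmean_formal σ hσ (I ×ˢ I) (fun x => g x.1 x.2)
    (fun x => ε x.1 * conj (ε x.2)) hroot
  rw [← hexp] at hmean
  refine ⟨_, hmean, ?_⟩
  intro hx
  rw [hexp] at hx
  have hoddc := odd_sum_of_not_memLocalIdeal hM (I ×ˢ I) (fun x => g x.1 x.2)
    (fun x => ε x.1 * conj (ε x.2)) hroot hx
  rw [Finset.sum_product] at hoddc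
  have hsym1 := sum_sym_even I (fun i j => g i j * rootSign (ε i * conj (ε j)))
    (fun i hi j hj => by
      have h7 : ε j * conj (ε i) = conj (ε i * conj (ε j)) := by
        rw [map_mul, Complex.conj_conj, mul_comm]
      rw [h7, rootSign_conj, hg i hi j hj])
  have hdiag : ∑ i ∈ I, g i i * rootSign (ε i * conj (ε i)) = ∑ i ∈ I, g i i := by
    refine Finset.sum_congr rfl fun i hi => ?_
    rw [hnorm i hi, rootSign_one, mul_one]
  rw [hdiag, ← Finset.sum_product'] at hsym1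
  have hsym2 := sum_sym_even I g hg
  obtain ⟨r1, hr1⟩ := hsym1
  obtain ⟨r2, hr2⟩ := hsym2
  obtain ⟨r3, hr3⟩ := hoddc
  exact ⟨r1 - r2 + r3, by linarith⟩

end Cfsg.Agent.Helper75
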