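import Cfsg.Agent.Helper75.Contrib3
import Cfsg.Agent.Helper3.BrauerPerm2

/-!
# Contributions and heights: Brauer's (5H) (helper75)

Let `H = C_G(y)` for a `p`-element `y`, `b` a block of `H`, and
`kfac p d χ = |G| / (p^d χ(1))`.  Then for all irreducible `ψ, χ` of `G`

`kfac p d χ * contrib H y b p d ψ χ = Ω_{conj χ}(A_ψ)`,

where `A_ψ` is the class function of `G` induced from the function `y s ↦ F_ψ(s)` (`s`
`p`-regular) on `H`.  Consequences:

* `kfac_mul_contrib_memLocalRing`: the left side is a local integer.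
* `kfac_mul_contrib_sub`: for `χ, χ'` in one block the left sides are congruent modulo the local
  ideal.
* `contrib_div_memLocalRing`, `contrib_div_not_memLocalIdeal`: if `d` is the defect of `B`,
  `contrib ψ χ / p^{h(χ)}` is a local integer for `χ ∈ B`; if moreover `b` induces `B`, has
  defect `d`, and `ψ ∈ B` has height zero, it is a local unit (Brauer).
-/

set_option autoImplicit false
open Cfsg
open scoped ComplexConjugate

namespace Cfsg.Agent.Helper75

universe u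

/-- The function `c ↦ F(z⁻¹ c)` on the elements `c` with `z⁻¹ c` `p`-regular, zero elsewhere. -/
noncomputable def secFun {H : Type u} [Group H] (p : ℕ) (z : H) (F : H → ℂ) : H → ℂ := by
  classical exact fun c => if p ∣ orderOf (z⁻¹ * c) then 0 else F (z⁻¹ * c)

theorem secFun_apply {H : Type u} [Group H] (p : ℕ) (z : H) (F : H → ℂ) (c : H) :
    secFun p z F c = if p ∣ orderOf (z⁻¹ * c) then 0 else F (z⁻¹ * c) := by
  unfold secFun
  congr

theorem secFun_isClassFunction {H : Type u} [Group H] (p : ℕ) (z : H)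
    (hz : ∀ h : H, z * h = h * z) {F : H → ℂ} (hF : Cfsg.IsClassFunction H F) :
    Cfsg.IsClassFunction H (secFun p z F) := by
  intro c t
  rw [secFun_apply, secFun_apply]
  have e : z⁻¹ * (t * c * t⁻¹) = t * (z⁻¹ * c) * t⁻¹ := by
    have h1 : z⁻¹ * t = t * z⁻¹ := by
      have := hz t
      calc z⁻¹ * t = z⁻¹ * (t * z) * z⁻¹ := by group
        _ = z⁻¹ * (z * t) * z⁻¹ := by rw [this]
        _ = t * z⁻¹ := by group
    calc z⁻¹ * (t * c * t⁻¹) = (z⁻¹ * t) * c * t⁻¹ := by group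
      _ = (t * z⁻¹) * c * t⁻¹ := by rw [h1]
      _ = t * (z⁻¹ * c) * t⁻¹ := by group
  have hord : orderOf (t * (z⁻¹ * c) * t⁻¹) = orderOf (z⁻¹ * c) := by
    have := (MulAut.conj t).orderOf_eq (z⁻¹ * c)
    rwa [MulAut.conj_apply] at this
  rw [e, hord, hF (z⁻¹ * c) t]

theorem secFun_mul_left {H : Type u} [Group H] (p : ℕ) (z : H) (F : H → ℂ) (s : H) :
    secFun p z F (z * s) = if p ∣ orderOf s then 0 else F s := by
  rw [secFun_apply, inv_mul_cancel_left]

theorem pregInner_sum_sum' {K : Type u} [Group K] [Fintype K] (p : ℕ) {ι : Type*}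
    (s t : Finset ι) (a a' : ι → ℂ) (f : ι → K → ℂ) :
    Helper77.pregInner p (fun x => ∑ i ∈ s, a i * f i x) (fun x => ∑ j ∈ t, a' j * f j x)
      = ∑ i ∈ s, ∑ j ∈ t, a i * conj (a' j) * Helper77.pregInner p (f i) (f j) := by
  unfold Helper77.pregInner
  have h1 : ∀ x : K, (if ¬ p ∣ orderOf x then
        (∑ i ∈ s, a i * f i x) * conj (∑ j ∈ t, a' j * f j x) else 0)
      = ∑ i ∈ s, ∑ j ∈ t, a i * conj (a' j) *
          (if ¬ p ∣ orderOf x then f i x * conj (f j x) else 0) := by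
    intro x
    by_cases hx : p ∣ orderOf x
    · simp [hx]
    · simp only [hx, not_false_eq_true, if_true]
      rw [map_sum, Finset.sum_mul_sum]
      refine Finset.sum_congr rfl fun i _ => Finset.sum_congr rfl fun j _ => ?_
      rw [map_mul]
      ring
  rw [Finset.sum_congr rfl (fun x _ => h1 x), Finset.sum_comm]
  refine Finset.sum_congr rfl fun i _ => ?_
  rw [Finset.sum_comm]
  refine Finset.sum_congr rfl fun j _ => ?_
  rw [Finset.mul_sum]

/-- The `p`-regular inner product of a block part with a class function only sees the block part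
of the class function. -/
theorem pregInner_blockPart_right {K : Type u} [Group K] [Fintype K] {p : ℕ}
    {M : Ideal Cfsg.AlgInt} (hM : Cfsg.IsPModular p M) {b : Set (Cfsg.IrrCharacter K)}
    (hb : Cfsg.IsPBlock M b) (f₁ : K → ℂ) {f₂ : K → ℂ} (hf₂ : Cfsg.IsClassFunction K f₂) :
    Helper77.pregInner p (Cfsg.blockPart b f₁) f₂
      = Helper77.pregInner p (Cfsg.blockPart b f₁) (Cfsg.blockPart b f₂) := by
  classical
  have := Fintype.ofFinite (Cfsg.IrrCharacter K)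
  have h1 : ∀ φ : K → ℂ, Cfsg.blockPart b φ
      = fun x => ∑ θ ∈ Finset.univ.filter (fun θ : Cfsg.IrrCharacter K => θ ∈ b),
          Cfsg.classInner φ (θ : K → ℂ) * (θ : K → ℂ) x := by
    intro φ
    funext x
    exact blockPart_filter_apply b _ x
  have h2 : f₂ = fun x => ∑ θ ∈ (Finset.univ : Finset (Cfsg.IrrCharacter K)),
      Cfsg.classInner f₂ (θ : K → ℂ) * (θ : K → ℂ) x := by
    conv_lhs => rw [Helper3.classFunction_eq_sum f₂ hf₂]
    funext x
    rw [Finset.sum_apply]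
    rfl
  rw [h1 f₁, h1 f₂]
  conv_lhs => rw [h2]
  rw [pregInner_sum_sum', pregInner_sum_sum']
  refine Finset.sum_congr rfl fun θ hθ => ?_
  rw [Finset.mem_filter] at hθ
  rw [Finset.sum_filter]
  refine Finset.sum_congr rfl fun θ' _ => ?_
  by_cases hθ' : θ' ∈ b
  · rw [if_pos hθ']
  · rw [if_neg hθ', ← Helper77.conj_pregInner, Helper77.pregInner_eq_zero hM hb hθ' hθ.2, map_zero,
      mul_zero]

theorem blockPart_isClassFunction {K : Type u} [Group K] [Fintype K]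
    (b : Set (Cfsg.IrrCharacter K)) (f : K → ℂ) : Cfsg.IsClassFunction K (Cfsg.blockPart b f) := by
  classical
  have := Fintype.ofFinite (Cfsg.IrrCharacter K)
  intro g h
  rw [blockPart_filter_apply, blockPart_filter_apply]
  refine Finset.sum_congr rfl fun θ _ => ?_
  rw [Helper81.irr_conj]

/-- `|G| / (p^d χ(1))`. -/
noncomputable def kfac {G : Type u} [Group G] (p d : ℕ) (χ : G → ℂ) : ℂ :=
  (Nat.card G : ℂ) / ((p : ℂ) ^ d * χ 1)

section main

variable {G : Type u} [Group G] [Fintype G]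

/-- The values of the class function induced from a section function. -/
theorem indFun_secFun_cases (H : Subgroup G) [Fintype H] {p : ℕ} [Fact p.Prime] (y : G)
    (hyH : y ∈ H) (hcent : ∀ h : H, y * (h : G) = (h : G) * y)
    (hHC : ∀ g : G, y * g = g * y → g ∈ H) (hyp : ∃ k : ℕ, orderOf y = p ^ k)
    {F : H → ℂ} (hF : Cfsg.IsClassFunction H F) (g : G) :
    Cfsg.indFun H (secFun p (⟨y, hyH⟩ : H) F) g = 0 ∨
      ∃ c : H, Cfsg.indFun H (secFun p (⟨y, hyH⟩ : H) F) g = secFun p (⟨y, hyH⟩ : H) F c := by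
  classical
  obtain ⟨z, hz⟩ : ∃ z : H, z = (⟨y, hyH⟩ : H) := ⟨_, rfl⟩
  rw [← hz]
  have hzc : ∀ h : H, z * h = h * z := by
    intro h
    apply Subtype.ext
    rw [hz]
    exact hcent h
  have hΦcl := secFun_isClassFunction p z hzc hF
  have hcardH : (Nat.card H : ℂ) ≠ 0 := by
    have : 0 < Nat.card H := Nat.card_pos
    exact_mod_cast this.ne'
  -- p-part of an element `c` of `H` with `z⁻¹ c` `p`-regular
  have hpp : ∀ c : H, ¬ p ∣ orderOf (z⁻¹ * c) → Cfsg.IsPPart p (c : G) y := by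
    intro c hc
    have e : (c : G) = y * ((z⁻¹ * c : H) : G) := by
      rw [hz]
      simp
    rw [e]
    exact Helper16.isPPart_mul (hcent (z⁻¹ * c)) hyp (by rw [Subgroup.orderOf_coe]; exact hc)
  by_cases hex : ∃ x₀ : G, ∃ hm : x₀⁻¹ * g * x₀ ∈ H,
      ¬ p ∣ orderOf (z⁻¹ * (⟨x₀⁻¹ * g * x₀, hm⟩ : H))
  · obtain ⟨x₀, hm, hreg⟩ := hex
    right
    refine ⟨⟨x₀⁻¹ * g * x₀, hm⟩, ?_⟩
    have hterm : ∀ x : G, Cfsg.extendByZero H (secFun p z F) (x⁻¹ * g * x)
        = Cfsg.extendByZero H (fun _ : H => secFun p z F ⟨x₀⁻¹ * g * x₀, hm⟩) (x₀⁻¹ * x) := by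
      intro x
      by_cases ht : x₀⁻¹ * x ∈ H
      · rw [Helper3.extendByZero_of_mem H _ ht]
        have e : x⁻¹ * g * x = (((⟨x₀⁻¹ * x, ht⟩ : H)⁻¹ * (⟨x₀⁻¹ * g * x₀, hm⟩ : H)
            * ((⟨x₀⁻¹ * x, ht⟩ : H)⁻¹)⁻¹ : H) : G) := by
          simp only [Subgroup.coe_mul, Subgroup.coe_inv, inv_inv]
          group
        rw [e, Helper3.extendByZero_coe, hΦcl]
      · rw [Helper3.extendByZero_of_not_mem H _ ht]
        by_cases hmem : x⁻¹ * g * x ∈ H
        · rw [Helper3.extendByZero_of_mem H _ hmem, secFun_apply]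
          by_cases hdiv : p ∣ orderOf (z⁻¹ * (⟨x⁻¹ * g * x, hmem⟩ : H))
          · rw [if_pos hdiv]
          · exfalso
            apply ht
            have hp1 := hpp ⟨x⁻¹ * g * x, hmem⟩ hdiv
            have hp2 := hpp ⟨x₀⁻¹ * g * x₀, hm⟩ hreg
            have hp3 := Helper16.isPPart_conj hp2 (x₀⁻¹ * x)⁻¹
            have e1 : (x₀⁻¹ * x)⁻¹ * (x₀⁻¹ * g * x₀) * (x₀⁻¹ * x)⁻¹⁻¹ = x⁻¹ * g * x := by group
            simp only [e1] at hp3
            have e2 := Helper16.isPPart_unique hp1 hp3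
            apply hHC
            calc y * (x₀⁻¹ * x) = (x₀⁻¹ * x) * ((x₀⁻¹ * x)⁻¹ * y * (x₀⁻¹ * x)⁻¹⁻¹) := by group
              _ = (x₀⁻¹ * x) * y := by rw [← e2]
        · rw [Helper3.extendByZero_of_not_mem H _ hmem]
    unfold Cfsg.indFun
    rw [Finset.sum_congr rfl (fun x _ => hterm x)]
    have hsum : ∑ x : G, Cfsg.extendByZero H
        (fun _ : H => secFun p z F ⟨x₀⁻¹ * g * x₀, hm⟩) (x₀⁻¹ * x)
        = ∑ x : G, Cfsg.extendByZero H
          (fun _ : H => secFun p z F ⟨x₀⁻¹ * g * x₀, hm⟩) x :=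
      Equiv.sum_comp (Equiv.mulLeft x₀⁻¹) _
    rw [hsum, Helper3.sum_extendByZero, Finset.sum_const, Finset.card_univ, nsmul_eq_mul,
      ← Nat.card_eq_fintype_card, ← mul_assoc, inv_mul_cancel₀ hcardH, one_mul]
  · left
    unfold Cfsg.indFun
    rw [Finset.sum_eq_zero, mul_zero]
    intro x _
    by_cases hmem : x⁻¹ * g * x ∈ H
    · rw [Helper3.extendByZero_of_mem H _ hmem, secFun_apply]
      by_cases hdiv : p ∣ orderOf (z⁻¹ * (⟨x⁻¹ * g * x, hmem⟩ : H))
      · rw [if_pos hdiv]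
      · exact absurd ⟨x, hmem, hdiv⟩ hex
    · rw [Helper3.extendByZero_of_not_mem H _ hmem]

/-- Frobenius reciprocity for the class function induced from a section function. -/
theorem sum_indFun_secFun_mul_conj (H : Subgroup G) [Fintype H] (p : ℕ) (y : G) (hyH : y ∈ H)
    (F : H → ℂ) (χ : Cfsg.IrrCharacter G) :
    ∑ g : G, Cfsg.indFun H (secFun p (⟨y, hyH⟩ : H) F) g * conj ((χ : G → ℂ) g)
      = (H.index : ℂ) * Helper77.pregInner p F (fun s : H => (χ : G → ℂ) (y * s)) := by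
  have hcl : Cfsg.IsClassFunction G (fun g => conj ((χ : G → ℂ) g)) := by
    intro g x
    show conj ((χ : G → ℂ) (x * g * x⁻¹)) = conj ((χ : G → ℂ) g)
    rw [Helper81.irr_conj]
  have h1 := Helper73.sum_mul_indFun H hcl (secFun p (⟨y, hyH⟩ : H) F)
  have h2 : ∑ g : G, Cfsg.indFun H (secFun p (⟨y, hyH⟩ : H) F) g * conj ((χ : G → ℂ) g)
      = ∑ g : G, conj ((χ : G → ℂ) g) * Cfsg.indFun H (secFun p (⟨y, hyH⟩ : H) F) g :=
    Finset.sum_congr rfl fun g _ => mul_comm _ _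
  rw [h2, h1]
  congr 1
  rw [← Equiv.sum_comp (Equiv.mulLeft (⟨y, hyH⟩ : H))]
  unfold Helper77.pregInner
  refine Finset.sum_congr rfl fun s _ => ?_
  rw [Equiv.coe_mulLeft, secFun_mul_left]
  by_cases hs : p ∣ orderOf s
  · simp [hs]
  · simp only [hs, if_false, not_false_eq_true, if_true]
    rw [mul_comm]
    rfl

/-- `kfac χ * contrib ψ χ` is the central character of `χ` at an induced class function. -/
theorem kfac_mul_contrib_eq_omega (H : Subgroup G) [Fintype H] {p : ℕ} {M : Ideal Cfsg.AlgInt}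
    (hM : Cfsg.IsPModular p M) (y : G) (hyH : y ∈ H)
    (hcent : ∀ h : H, y * (h : G) = (h : G) * y)
    {b : Set (Cfsg.IrrCharacter H)} (hb : Cfsg.IsPBlock M b) (d : ℕ)
    (ψ χ : Cfsg.IrrCharacter G) :
    kfac p d (χ : G → ℂ) * contrib H y b p d (ψ : G → ℂ) (χ : G → ℂ)
      = Helper81.omega (χ : G → ℂ)
          (fun g => Cfsg.indFun H (secFun p (⟨y, hyH⟩ : H)
            (Cfsg.blockPart b (fun c : H => (ψ : G → ℂ) (y * c)))) g⁻¹) := by
  have hp := hM.1
  have hcardH : (Nat.card H : ℂ) ≠ 0 := by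
    have : 0 < Nat.card H := Nat.card_pos
    exact_mod_cast this.ne'
  have hidx : (H.index : ℂ) ≠ 0 := by
    have : H.index ≠ 0 := Subgroup.index_ne_zero_of_finite
    exact_mod_cast this
  have hpc : (p : ℂ) ^ d ≠ 0 := pow_ne_zero _ (by exact_mod_cast hp.ne_zero)
  have hχ1 := Helper81.irr_one_ne_zero χ
  have hcl2 : Cfsg.IsClassFunction H (fun s : H => (χ : G → ℂ) (y * s)) := by
    intro s t
    show (χ : G → ℂ) (y * ((t * s * t⁻¹ : H) : G)) = (χ : G → ℂ) (y * (s : G))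
    have e : y * ((t * s * t⁻¹ : H) : G) = (t : G) * (y * (s : G)) * (t : G)⁻¹ := by
      simp only [Subgroup.coe_mul, Subgroup.coe_inv]
      have := hcent t
      calc y * ((t : G) * (s : G) * (t : G)⁻¹) = (y * (t : G)) * (s : G) * (t : G)⁻¹ := by
            group
        _ = ((t : G) * y) * (s : G) * (t : G)⁻¹ := by rw [this]
        _ = (t : G) * (y * (s : G)) * (t : G)⁻¹ := by group
    rw [e, Helper81.irr_conj]
  obtain ⟨A, hA⟩ : ∃ A : G → ℂ, A = Cfsg.indFun H (secFun p (⟨y, hyH⟩ : H)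
      (Cfsg.blockPart b (fun c : H => (ψ : G → ℂ) (y * c)))) := ⟨_, rfl⟩
  have h1 : ∑ g : G, A g⁻¹ * (χ : G → ℂ) g = ∑ g : G, A g * conj ((χ : G → ℂ) g) := by
    rw [← Equiv.sum_comp (Equiv.inv G) (fun g => A g * conj ((χ : G → ℂ) g))]
    refine Finset.sum_congr rfl fun g _ => ?_
    rw [Equiv.inv_apply, Helper77.irr_inv, Complex.conj_conj]
  unfold Helper81.omega
  rw [← hA, h1, hA, sum_indFun_secFun_mul_conj, pregInner_blockPart_right hM hb _ hcl2]
  unfold kfac contrib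
  rw [← Subgroup.card_mul_index H]
  push_cast
  field_simp

theorem indFun_inv_isClassFunction (H : Subgroup G) (Φ : H → ℂ) :
    Cfsg.IsClassFunction G (fun g => Cfsg.indFun H Φ g⁻¹) := by
  intro g x
  show Cfsg.indFun H Φ (x * g * x⁻¹)⁻¹ = Cfsg.indFun H Φ g⁻¹
  have e : (x * g * x⁻¹)⁻¹ = x * g⁻¹ * x⁻¹ := by group
  rw [e]
  exact Helper3.indFun_isClassFunction H Φ g⁻¹ x

theorem blockPart_section_isIntegral (H : Subgroup G) [Fintype H] {p : ℕ} (hp : p.Prime) (y : G)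
    (hyH : y ∈ H) (hcent : ∀ h : H, y * (h : G) = (h : G) * y)
    (hyp : ∃ k : ℕ, orderOf y = p ^ k) (b : Set (Cfsg.IrrCharacter H))
    (ψ : Cfsg.IrrCharacter G) (x : H) :
    IsIntegral ℤ (Cfsg.blockPart b (fun c : H => (ψ : G → ℂ) (y * c)) x) := by
  classical
  have := Fintype.ofFinite (Cfsg.IrrCharacter H)
  rw [blockPart_filter_apply]
  exact IsIntegral.sum _ fun θ _ =>
    IsIntegral.mul (secCoeff_isIntegral H p hp y hyH hcent hyp ψ θ) (Helper81.irr_isIntegral θ x)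

/-- **Brauer (5H), integrality**: `kfac χ * contrib ψ χ` is a local integer. -/
theorem kfac_mul_contrib_memLocalRing (H : Subgroup G) [Fintype H] {p : ℕ}
    {M : Ideal Cfsg.AlgInt} (hM : Cfsg.IsPModular p M) (y : G) (hyH : y ∈ H)
    (hcent : ∀ h : H, y * (h : G) = (h : G) * y)
    (hHC : ∀ g : G, y * g = g * y → g ∈ H) (hyp : ∃ k : ℕ, orderOf y = p ^ k)
    {b : Set (Cfsg.IrrCharacter H)} (hb : Cfsg.IsPBlock M b) (d : ℕ)
    (ψ χ : Cfsg.IrrCharacter G) :
    Cfsg.MemLocalRing M (kfac p d (χ : G → ℂ) * contrib H y b p d (ψ : G → ℂ) (χ : G → ℂ)) := by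
  have hMm := hM.2.1
  have : Fact p.Prime := ⟨hM.1⟩
  rw [kfac_mul_contrib_eq_omega H hM y hyH hcent hb d ψ χ]
  refine Helper16.omega_memLocalRing hMm χ (indFun_inv_isClassFunction H _) fun g => ?_
  rcases indFun_secFun_cases H y hyH hcent hHC hyp
    (blockPart_isClassFunction b (fun c : H => (ψ : G → ℂ) (y * c))) g⁻¹ with h0 | ⟨c, hc⟩
  · rw [h0]
    exact Helper77.memLocalRing_zero hMm
  · rw [hc, secFun_apply]
    split_ifs
    · exact Helper77.memLocalRing_zero hMm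
    · exact Helper77.memLocalRing_of_isIntegral hMm
        (blockPart_section_isIntegral H hM.1 y hyH hcent hyp b ψ _)

/-- **Brauer (5H), congruence**: for `χ, χ'` in one block, `kfac χ * contrib ψ χ` and
`kfac χ' * contrib ψ χ'` are congruent modulo the local ideal. -/
theorem kfac_mul_contrib_sub (H : Subgroup G) [Fintype H] {p : ℕ}
    {M : Ideal Cfsg.AlgInt} (hM : Cfsg.IsPModular p M) (y : G) (hyH : y ∈ H)
    (hcent : ∀ h : H, y * (h : G) = (h : G) * y)
    (hHC : ∀ g : G, y * g = g * y → g ∈ H) (hyp : ∃ k : ℕ, orderOf y = p ^ k)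
    {b : Set (Cfsg.IrrCharacter H)} (hb : Cfsg.IsPBlock M b) (d : ℕ)
    {B : Set (Cfsg.IrrCharacter G)} (hB : Cfsg.IsPBlock M B)
    (ψ : Cfsg.IrrCharacter G) {χ χ' : Cfsg.IrrCharacter G} (hχ : χ ∈ B) (hχ' : χ' ∈ B) :
    Cfsg.MemLocalIdeal M (kfac p d (χ : G → ℂ) * contrib H y b p d (ψ : G → ℂ) (χ : G → ℂ)
      - kfac p d (χ' : G → ℂ) * contrib H y b p d (ψ : G → ℂ) (χ' : G → ℂ)) := by
  have hMm := hM.2.1
  have : Fact p.Prime := ⟨hM.1⟩
  rw [kfac_mul_contrib_eq_omega H hM y hyH hcent hb d ψ χ,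
    kfac_mul_contrib_eq_omega H hM y hyH hcent hb d ψ χ']
  refine Helper16.omega_sub_memLocalIdeal hMm χ χ' (Helper16.sameBlock_of_mem hMm hB hχ hχ')
    (indFun_inv_isClassFunction H _) fun g => ?_
  rcases indFun_secFun_cases H y hyH hcent hHC hyp
    (blockPart_isClassFunction b (fun c : H => (ψ : G → ℂ) (y * c))) g⁻¹ with h0 | ⟨c, hc⟩
  · rw [h0]
    exact Helper77.memLocalRing_zero hMm
  · rw [hc, secFun_apply]
    split_ifs
    · exact Helper77.memLocalRing_zero hMm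
    · exact Helper77.memLocalRing_of_isIntegral hMm
        (blockPart_section_isIntegral H hM.1 y hyH hcent hyp b ψ _)

/-- For `χ` in a block `B` of defect `d`, `kfac χ * p^{h(χ)}` is a quotient of two integers
prime to `p`. -/
theorem kfac_mul_pow_height {p : ℕ} (hp : p.Prime) {B : Set (Cfsg.IrrCharacter G)} {d : ℕ}
    (hd : Cfsg.blockDefect p B = d) {χ : Cfsg.IrrCharacter G} (hχ : χ ∈ B) :
    ∃ n c : ℕ, ¬ p ∣ n ∧ ¬ p ∣ c ∧
      kfac p d (χ : G → ℂ) * (p : ℂ) ^ Cfsg.blockHeight p B (χ : G → ℂ) = (n : ℂ) / (c : ℂ) := by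
  have hGpos : 0 < Nat.card G := Nat.card_pos
  have hcpos := Helper81.charDegree_pos χ
  have hdvd := Helper81.charDegree_dvd_card χ
  have h1 : sInf ((fun χ : Cfsg.IrrCharacter G =>
      (Cfsg.charDegree (χ : G → ℂ)).factorization p) '' B)
      ≤ (Cfsg.charDegree (χ : G → ℂ)).factorization p := Nat.sInf_le ⟨χ, hχ, rfl⟩
  have h2 : (Cfsg.charDegree (χ : G → ℂ)).factorization p ≤ (Nat.card G).factorization p :=
    (Nat.factorization_le_iff_dvd hcpos.ne' hGpos.ne').mpr hdvd p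
  have h3 : (Cfsg.charDegree (χ : G → ℂ)).factorization p + d
      = (Nat.card G).factorization p + Cfsg.blockHeight p B (χ : G → ℂ) := by
    rw [← hd]
    unfold Cfsg.blockDefect Cfsg.blockHeight
    omega
  refine ⟨Nat.card G / p ^ (Nat.card G).factorization p,
    Cfsg.charDegree (χ : G → ℂ) / p ^ (Cfsg.charDegree (χ : G → ℂ)).factorization p,
    Nat.not_dvd_ordCompl hp hGpos.ne', Nat.not_dvd_ordCompl hp hcpos.ne', ?_⟩
  have e1 : (Nat.card G : ℂ) = (p : ℂ) ^ (Nat.card G).factorization p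
      * ((Nat.card G / p ^ (Nat.card G).factorization p : ℕ) : ℂ) := by
    have := Nat.ordProj_mul_ordCompl_eq_self (Nat.card G) p
    exact_mod_cast this.symm
  have e2 : (Cfsg.charDegree (χ : G → ℂ) : ℂ)
      = (p : ℂ) ^ (Cfsg.charDegree (χ : G → ℂ)).factorization p
      * ((Cfsg.charDegree (χ : G → ℂ) / p ^ (Cfsg.charDegree (χ : G → ℂ)).factorization p : ℕ)
        : ℂ) := by
    have := Nat.ordProj_mul_ordCompl_eq_self (Cfsg.charDegree (χ : G → ℂ)) p
    exact_mod_cast this.symm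
  have hpc : (p : ℂ) ≠ 0 := by exact_mod_cast hp.ne_zero
  have hc0 : ((Cfsg.charDegree (χ : G → ℂ) / p ^ (Cfsg.charDegree (χ : G → ℂ)).factorization p
      : ℕ) : ℂ) ≠ 0 := by
    have := Nat.ordCompl_pos p hcpos.ne'
    exact_mod_cast this.ne'
  unfold kfac
  rw [Helper81.irr_one_eq_charDegree]
  conv_lhs => rw [e1, e2]
  have e3 : (p : ℂ) ^ (Nat.card G).factorization p * (p : ℂ) ^ Cfsg.blockHeight p B (χ : G → ℂ)
      = (p : ℂ) ^ d * (p : ℂ) ^ (Cfsg.charDegree (χ : G → ℂ)).factorization p := by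
    rw [← pow_add, ← pow_add, add_comm d, h3]
  have hpd : (p : ℂ) ^ d ≠ 0 := pow_ne_zero _ hpc
  have hpe : (p : ℂ) ^ (Cfsg.charDegree (χ : G → ℂ)).factorization p ≠ 0 := pow_ne_zero _ hpc
  rw [div_mul_eq_mul_div, div_eq_div_iff (mul_ne_zero hpd (mul_ne_zero hpe hc0)) hc0]
  linear_combination ((Nat.card G / p ^ (Nat.card G).factorization p : ℕ) : ℂ)
    * ((Cfsg.charDegree (χ : G → ℂ) / p ^ (Cfsg.charDegree (χ : G → ℂ)).factorization p : ℕ) : ℂ)
    * e3

/-- **Brauer (5H)**: for `χ` in a block `B` of defect `d`, the contribution `contrib ψ χ` is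
divisible by `p^{h(χ)}` in the local ring. -/
theorem contrib_div_memLocalRing (H : Subgroup G) [Fintype H] {p : ℕ}
    {M : Ideal Cfsg.AlgInt} (hM : Cfsg.IsPModular p M) (y : G) (hyH : y ∈ H)
    (hcent : ∀ h : H, y * (h : G) = (h : G) * y)
    (hHC : ∀ g : G, y * g = g * y → g ∈ H) (hyp : ∃ k : ℕ, orderOf y = p ^ k)
    {b : Set (Cfsg.IrrCharacter H)} (hb : Cfsg.IsPBlock M b) {d : ℕ}
    {B : Set (Cfsg.IrrCharacter G)} (hd : Cfsg.blockDefect p B = d)
    (ψ : Cfsg.IrrCharacter G) {χ : Cfsg.IrrCharacter G} (hχ : χ ∈ B) :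
    Cfsg.MemLocalRing M (contrib H y b p d (ψ : G → ℂ) (χ : G → ℂ)
      / (p : ℂ) ^ Cfsg.blockHeight p B (χ : G → ℂ)) := by
  have hMm := hM.2.1
  have hp := hM.1
  obtain ⟨n, c, hn, hc, e⟩ := kfac_mul_pow_height hp hd hχ
  have h1 := kfac_mul_contrib_memLocalRing H hM y hyH hcent hHC hyp hb d ψ χ
  have hpc : (p : ℂ) ^ Cfsg.blockHeight p B (χ : G → ℂ) ≠ 0 :=
    pow_ne_zero _ (by exact_mod_cast hp.ne_zero)
  have hn0 : (n : ℂ) ≠ 0 := by
    intro h0
    apply hn
    have : n = 0 := by exact_mod_cast h0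
    rw [this]
    exact dvd_zero p
  have hc0 : (c : ℂ) ≠ 0 := by
    intro h0
    apply hc
    have : c = 0 := by exact_mod_cast h0
    rw [this]
    exact dvd_zero p
  have e2 : contrib H y b p d (ψ : G → ℂ) (χ : G → ℂ) / (p : ℂ) ^ Cfsg.blockHeight p B (χ : G → ℂ)
      = (kfac p d (χ : G → ℂ) * contrib H y b p d (ψ : G → ℂ) (χ : G → ℂ))
        * ((c : ℂ) * (n : ℂ)⁻¹) := by
    have e' : kfac p d (χ : G → ℂ) = (n : ℂ) / (c : ℂ)
        / (p : ℂ) ^ Cfsg.blockHeight p B (χ : G → ℂ) := by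
      rw [← e]
      field_simp
    rw [e']
    field_simp
  rw [e2]
  exact Helper77.memLocalRing_mul hMm h1 (Helper77.memLocalRing_mul hMm
    (Helper81.memLocalRing_natCast hMm.ne_top c) (Helper77.memLocalRing_natCast_inv hM hn))

/-- **Brauer (5H)**: for `χ, χ'` in a block `B` of defect `d`, if `contrib ψ χ' / p^{h(χ')}` is in
the local ideal then so is `contrib ψ χ / p^{h(χ)}`. -/
theorem contrib_div_memLocalIdeal (H : Subgroup G) [Fintype H] {p : ℕ}
    {M : Ideal Cfsg.AlgInt} (hM : Cfsg.IsPModular p M) (y : G) (hyH : y ∈ H)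
    (hcent : ∀ h : H, y * (h : G) = (h : G) * y)
    (hHC : ∀ g : G, y * g = g * y → g ∈ H) (hyp : ∃ k : ℕ, orderOf y = p ^ k)
    {b : Set (Cfsg.IrrCharacter H)} (hb : Cfsg.IsPBlock M b) {d : ℕ}
    {B : Set (Cfsg.IrrCharacter G)} (hB : Cfsg.IsPBlock M B) (hd : Cfsg.blockDefect p B = d)
    (ψ : Cfsg.IrrCharacter G) {χ χ' : Cfsg.IrrCharacter G} (hχ : χ ∈ B) (hχ' : χ' ∈ B)
    (h : Cfsg.MemLocalIdeal M (contrib H y b p d (ψ : G → ℂ) (χ' : G → ℂ)
      / (p : ℂ) ^ Cfsg.blockHeight p B (χ' : G → ℂ))) :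
    Cfsg.MemLocalIdeal M (contrib H y b p d (ψ : G → ℂ) (χ : G → ℂ)
      / (p : ℂ) ^ Cfsg.blockHeight p B (χ : G → ℂ)) := by
  have hMm := hM.2.1
  have hp := hM.1
  obtain ⟨n, c, hn, hc, e⟩ := kfac_mul_pow_height hp hd hχ
  obtain ⟨n', c', hn', hc', e'⟩ := kfac_mul_pow_height hp hd hχ'
  have h1 := kfac_mul_contrib_sub H hM y hyH hcent hHC hyp hb d hB ψ hχ hχ'
  have hpc : ∀ j : ℕ, (p : ℂ) ^ j ≠ 0 := fun j => pow_ne_zero _ (by exact_mod_cast hp.ne_zero)
  have hne : ∀ {m : ℕ}, ¬ p ∣ m → (m : ℂ) ≠ 0 := by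
    intro m hm h0
    apply hm
    have : m = 0 := by exact_mod_cast h0
    rw [this]
    exact dvd_zero p
  have hn0 := hne hn
  have hc0 := hne hc
  have hn0' := hne hn'
  have hc0' := hne hc'
  -- the `χ'` side is in the local ideal
  have h2 : Cfsg.MemLocalIdeal M
      (kfac p d (χ' : G → ℂ) * contrib H y b p d (ψ : G → ℂ) (χ' : G → ℂ)) := by
    have e2 : kfac p d (χ' : G → ℂ) * contrib H y b p d (ψ : G → ℂ) (χ' : G → ℂ)
        = ((n' : ℂ) * (c' : ℂ)⁻¹) * (contrib H y b p d (ψ : G → ℂ) (χ' : G → ℂ)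
          / (p : ℂ) ^ Cfsg.blockHeight p B (χ' : G → ℂ)) := by
      have e'' : kfac p d (χ' : G → ℂ) = (n' : ℂ) / (c' : ℂ)
          / (p : ℂ) ^ Cfsg.blockHeight p B (χ' : G → ℂ) := by
        rw [← e']
        field_simp [hpc]
      rw [e'']
      field_simp
    rw [e2]
    exact Helper77.memLocalIdeal_mul hMm (Helper77.memLocalRing_mul hMm
      (Helper81.memLocalRing_natCast hMm.ne_top n') (Helper77.memLocalRing_natCast_inv hM hc')) h
  have h3 : Cfsg.MemLocalIdeal M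
      (kfac p d (χ : G → ℂ) * contrib H y b p d (ψ : G → ℂ) (χ : G → ℂ)) := by
    have := Helper77.memLocalIdeal_add hMm h1 h2
    rwa [sub_add_cancel] at this
  have e3 : contrib H y b p d (ψ : G → ℂ) (χ : G → ℂ) / (p : ℂ) ^ Cfsg.blockHeight p B (χ : G → ℂ)
      = (kfac p d (χ : G → ℂ) * contrib H y b p d (ψ : G → ℂ) (χ : G → ℂ))
        * ((c : ℂ) * (n : ℂ)⁻¹) := by
    have e'' : kfac p d (χ : G → ℂ) = (n : ℂ) / (c : ℂ)
        / (p : ℂ) ^ Cfsg.blockHeight p B (χ : G → ℂ) := by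
      rw [← e]
      field_simp [hpc]
    rw [e'']
    field_simp
  rw [e3]
  exact Helper77.memLocalIdeal_mul' hMm h3 (Helper77.memLocalRing_mul hMm
    (Helper81.memLocalRing_natCast hMm.ne_top c) (Helper77.memLocalRing_natCast_inv hM hn))

end main

end Cfsg.Agent.Helper75
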