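import Cfsg.Agent.Helper75.ThirdMain
import Cfsg.Agent.Helper16.BrauerCorr
import Cfsg.Agent.Helper16.DefectGroup
import Cfsg.Agent.Helper77.Defect
import Cfsg.Agent.Helper77.StablePair
import Cfsg.Agent.Helper16.ConvAlg

/-!
# Induced blocks: uniqueness, defects, and a block below with a prescribed non-vanishing
coefficient

* `isInducedBlock_unique`: a block induces at most one block.
* `blockDefect_le_of_isInducedBlock`: `d(b) ≤ d(b^G)`.
* `exists_isInducedBlock_blockCoeff`: for `P C_G(P) ≤ H ≤ N_G(P)`, a block `B` of `G` and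
  `g ∈ C_G(P)` with `e_B(g)` a local unit, some block `b` of `H` induces `B` and has
  `e_b(g)` a local unit.
-/

set_option autoImplicit false
open Cfsg

namespace Cfsg.Agent.Helper75

universe u

variable {G : Type u} [Group G] [Fintype G]

omit [Fintype G] in
theorem isInducedBlock_unique {M : Ideal Cfsg.AlgInt} (hM : M.IsMaximal) (H : Subgroup G)
    {b : Set (Cfsg.IrrCharacter H)} {B B' : Set (Cfsg.IrrCharacter G)}
    (h : Cfsg.IsInducedBlock M H b B) (h' : Cfsg.IsInducedBlock M H b B') : B = B' := by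
  obtain ⟨ξ, hξ⟩ := Helper16.exists_mem_of_isPBlock hM h.1
  obtain ⟨χ, hχ⟩ := Helper16.exists_mem_of_isPBlock hM h.2.1
  obtain ⟨χ', hχ'⟩ := Helper16.exists_mem_of_isPBlock hM h'.2.1
  have hs : Cfsg.SameBlock M (χ : G → ℂ) (χ' : G → ℂ) := by
    intro g
    have h1 := h.2.2 ξ hξ χ hχ g
    have h2 := h'.2.2 ξ hξ χ' hχ' g
    have h3 := Helper77.memLocalIdeal_sub hM h2 h1
    rwa [sub_sub_sub_cancel_left] at h3
  have e1 := Helper16.eq_blockOf_of_mem hM h.2.1 hχ
  have hmem : χ' ∈ B := by
    rw [e1]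
    exact hs
  exact (Helper16.eq_blockOf_of_mem hM h.2.1 hmem).trans
    (Helper16.eq_blockOf_of_mem hM h'.2.1 hχ').symm

theorem blockDefect_le_of_isInducedBlock {p : ℕ} [Fact p.Prime] {M : Ideal Cfsg.AlgInt}
    (hM : Cfsg.IsPModular p M) (H : Subgroup G) [Fintype H] {b : Set (Cfsg.IrrCharacter H)}
    {B : Set (Cfsg.IrrCharacter G)} (hind : Cfsg.IsInducedBlock M H b B) :
    Cfsg.blockDefect p b ≤ Cfsg.blockDefect p B := by
  have hp : p.Prime := Fact.out
  have hMm := hM.2.1
  obtain ⟨Db, hDb⟩ := Helper16.exists_isDefectGroup (p := p) hMm hind.1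
  obtain ⟨D, hD⟩ := Helper16.exists_isDefectGroup (p := p) hMm hind.2.1
  have h1 := (Helper16.induced_defect_conjLE hM H hind hDb hD).card_le
  rw [Subgroup.card_map_of_injective (Subgroup.subtype_injective _),
    Helper77.card_of_isDefectGroup hM hind.1 hDb, Helper77.card_of_isDefectGroup hM hind.2.1 hD]
    at h1
  exact (Nat.pow_le_pow_iff_right hp.one_lt).mp h1

/-- For `P C_G(P) ≤ H ≤ N_G(P)`, a block `B` of `G` and `g ∈ C_G(P)` at which the idempotent of `B`
has a unit coefficient, some block of `H` inducing `B` has a unit coefficient at `g`. -/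
theorem exists_isInducedBlock_blockCoeff {p : ℕ} [Fact p.Prime] {M : Ideal Cfsg.AlgInt}
    (hM : Cfsg.IsPModular p M) (P H : Subgroup G) [Fintype H] (hP : IsPGroup p P) (hPH : P ≤ H)
    (hCH : Subgroup.centralizer (P : Set G) ≤ H) (hHN : H ≤ Subgroup.normalizer (P : Set G))
    {B : Set (Cfsg.IrrCharacter G)} (hB : Cfsg.IsPBlock M B) (g : G)
    (hg : g ∈ Subgroup.centralizer (P : Set G))
    (hne : ¬ Cfsg.MemLocalIdeal M (Cfsg.blockCoeff B g)) :
    ∃ b : Set (Cfsg.IrrCharacter H), Cfsg.IsInducedBlock M H b B ∧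
      ¬ Cfsg.MemLocalIdeal M (Cfsg.blockCoeff b ⟨g, hCH hg⟩) := by
  classical
  have hMm := hM.2.1
  haveI : Fintype (Cfsg.IrrCharacter H) := Fintype.ofFinite _
  have hBS := Helper77.blockCoeff_memLocalRing hMm hB
  have hBc := Helper77.blockCoeff_isClassFunction B
  set e : H → ℂ := Helper16.brRes P H (Cfsg.blockCoeff B) with he
  have he1 : Cfsg.IsClassFunction H e := Helper16.isClassFunction_brRes hHN hBc
  have he2 : ∀ h, Cfsg.MemLocalRing M (e h) := by
    intro h
    simp only [he, Helper16.brRes]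
    split_ifs
    · exact hBS _
    · exact Helper77.memLocalRing_zero hMm
  have he3 : ∀ h, Cfsg.MemLocalIdeal M (Helper81.conv e e h - e h) := by
    intro h
    have h1 := Helper16.brRes_conv_sub_memLocalIdeal hM P H hP hCH hBc hBS hBc hBS h
    rw [Helper77.conv_blockCoeff] at h1
    have h2 := Helper77.memLocalIdeal_neg h1
    rwa [neg_sub] at h2
  have he4 : ¬ Cfsg.MemLocalIdeal M (e ⟨g, hCH hg⟩) := by
    rw [he, Helper16.brRes_apply_of_mem _ hg]
    exact hne
  -- expand `e` over the blocks of `H`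
  have hexp : e ⟨g, hCH hg⟩ = ∑ f ∈ Finset.univ.filter
      (fun f : Set (Cfsg.IrrCharacter H) => Cfsg.IsPBlock M f),
      Helper81.conv e (Cfsg.blockCoeff f) ⟨g, hCH hg⟩ := by
    have h1 : e = Helper81.conv e (Helper81.deltaOne 1) := (Helper16.conv_deltaOne_right e).symm
    conv_lhs => rw [h1]
    simp only [Helper81.conv]
    rw [Finset.sum_comm]
    refine Finset.sum_congr rfl fun x _ => ?_
    rw [← Finset.mul_sum, Helper77.sum_blocks_blockCoeff hMm]
  have hex : ∃ f : Set (Cfsg.IrrCharacter H), Cfsg.IsPBlock M f ∧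
      ¬ Cfsg.MemLocalIdeal M (Helper81.conv e (Cfsg.blockCoeff f) ⟨g, hCH hg⟩) := by
    by_contra hcon
    apply he4
    rw [hexp]
    refine Helper77.memLocalIdeal_sum hMm _ _ fun f hf => ?_
    rw [Finset.mem_filter] at hf
    by_contra h
    exact hcon ⟨f, hf.2, h⟩
  obtain ⟨f, hf, hfne⟩ := hex
  have hfc := Helper77.blockCoeff_isClassFunction f
  have hfS := Helper77.blockCoeff_memLocalRing hMm hf
  -- `u = e * e_f` is idempotent modulo the local ideal
  have huc : Cfsg.IsClassFunction H (Helper81.conv e (Cfsg.blockCoeff f)) :=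
    Helper81.conv_isClassFunction he1 hfc
  have huS : ∀ h, Cfsg.MemLocalRing M (Helper81.conv e (Cfsg.blockCoeff f) h) :=
    Helper16.conv_memLocalRing hMm he2 hfS
  have hfu : Helper81.conv (Cfsg.blockCoeff f) (Helper81.conv e (Cfsg.blockCoeff f))
      = Helper81.conv e (Cfsg.blockCoeff f) := by
    rw [← Helper16.conv_assoc, Helper16.conv_comm_of_isClassFunction (Cfsg.blockCoeff f) he1,
      Helper16.conv_assoc, Helper77.conv_blockCoeff]
  have huu : Helper81.conv (Helper81.conv e (Cfsg.blockCoeff f))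
      (Helper81.conv e (Cfsg.blockCoeff f))
      = Helper81.conv (Helper81.conv e e) (Cfsg.blockCoeff f) := by
    rw [Helper16.conv_assoc e (Cfsg.blockCoeff f), hfu, Helper16.conv_assoc]
  have huidem : ∀ h, Cfsg.MemLocalIdeal M
      (Helper81.conv (Helper81.conv e (Cfsg.blockCoeff f)) (Helper81.conv e (Cfsg.blockCoeff f)) h
        - Helper81.conv e (Cfsg.blockCoeff f) h) := by
    intro h
    rw [huu]
    have h1 : Helper81.conv (Helper81.conv e e) (Cfsg.blockCoeff f) h
        - Helper81.conv e (Cfsg.blockCoeff f) h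
        = Helper81.conv (Helper81.conv e e - e) (Cfsg.blockCoeff f) h := by
      rw [Helper16.conv_sub_left]
      rfl
    rw [h1]
    exact Helper16.conv_memLocalIdeal_left hMm (fun x => he3 x) hfS h
  obtain ⟨ξ, hξ⟩ := Helper16.exists_irr_omega_sub_one_memLocalIdeal hMm huc huS huidem
    ⟨_, hfne⟩
  rw [Helper81.omega_conv ξ he1 hfc] at hξ
  have hξf : ξ ∈ f := by
    by_contra hξf
    rw [Helper77.omega_blockCoeff_of_not_mem hξf, mul_zero, zero_sub] at hξ
    have := Helper77.memLocalIdeal_neg hξ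
    rw [neg_neg] at this
    exact Helper77.not_memLocalIdeal_one hMm this
  rw [Helper77.omega_blockCoeff_of_mem hξf, mul_one] at hξ
  obtain ⟨χ, hχ⟩ := Helper16.exists_irr_brauer hM P H hP hCH hHN ξ
  have hχB : χ ∈ B := by
    by_contra hχB
    have h1 := hχ _ hBc hBS
    rw [Helper77.omega_blockCoeff_of_not_mem hχB, sub_zero] at h1
    have h2 := Helper77.memLocalIdeal_sub hMm h1 hξ
    rw [sub_sub_cancel] at h2
    exact Helper77.not_memLocalIdeal_one hMm h2
  have hind := Helper16.isInducedBlock_of_brauer hM P H hP hPH hHN hf hξf χ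
    (fun g => hχ _ (Helper81.classInd_isClassFunction g) (Helper16.classInd_memLocalRing hMm g))
  rw [← Helper16.eq_blockOf_of_mem hMm hB hχB] at hind
  refine ⟨f, hind, ?_⟩
  -- `e_f - e * e_f` has all its coefficients in the local ideal
  have hwc : Cfsg.IsClassFunction H (Cfsg.blockCoeff f - Helper81.conv e (Cfsg.blockCoeff f)) :=
    Helper81.isClassFunction_sub hfc huc
  have hwS : ∀ h, Cfsg.MemLocalRing M
      ((Cfsg.blockCoeff f - Helper81.conv e (Cfsg.blockCoeff f)) h) := fun h => by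
    rw [Pi.sub_apply]
    exact Helper77.memLocalRing_sub hMm (hfS h) (huS h)
  have huf : Helper81.conv (Helper81.conv e (Cfsg.blockCoeff f)) (Cfsg.blockCoeff f)
      = Helper81.conv e (Cfsg.blockCoeff f) := by
    rw [Helper16.conv_assoc, Helper77.conv_blockCoeff]
  have hww : ∀ h, Cfsg.MemLocalIdeal M
      (Helper81.conv (Cfsg.blockCoeff f - Helper81.conv e (Cfsg.blockCoeff f))
        (Cfsg.blockCoeff f - Helper81.conv e (Cfsg.blockCoeff f)) h
        - (Cfsg.blockCoeff f - Helper81.conv e (Cfsg.blockCoeff f)) h) := by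
    intro h
    have h1 : Helper81.conv (Cfsg.blockCoeff f - Helper81.conv e (Cfsg.blockCoeff f))
        (Cfsg.blockCoeff f - Helper81.conv e (Cfsg.blockCoeff f)) h
        - (Cfsg.blockCoeff f - Helper81.conv e (Cfsg.blockCoeff f)) h
        = Helper81.conv (Helper81.conv e (Cfsg.blockCoeff f))
            (Helper81.conv e (Cfsg.blockCoeff f)) h
          - Helper81.conv e (Cfsg.blockCoeff f) h := by
      rw [Helper16.conv_sub_left, Helper16.conv_sub_right, Helper16.conv_sub_right,
        Helper77.conv_blockCoeff, hfu, huf]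
      simp only [Pi.sub_apply]
      ring
    rw [h1]
    exact huidem h
  have hwom : ∀ ξ' : Cfsg.IrrCharacter H, Cfsg.MemLocalIdeal M (Helper81.omega (ξ' : H → ℂ)
      (Cfsg.blockCoeff f - Helper81.conv e (Cfsg.blockCoeff f))) := by
    intro ξ'
    rw [Helper81.omega_sub, Helper81.omega_conv ξ' he1 hfc]
    by_cases hξ' : ξ' ∈ f
    · rw [Helper77.omega_blockCoeff_of_mem hξ', mul_one]
      have hs : Cfsg.SameBlock M (ξ : H → ℂ) (ξ' : H → ℂ) := by
        have := Helper16.eq_blockOf_of_mem hMm hf hξf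
        rw [this] at hξ'
        exact hξ'
      have h1 := Helper16.omega_sub_memLocalIdeal hMm ξ ξ' hs he1 he2
      have h2 := Helper77.memLocalIdeal_sub hMm h1 hξ
      rw [sub_sub_sub_cancel_left] at h2
      exact h2
    · rw [Helper77.omega_blockCoeff_of_not_mem hξ', mul_zero, sub_zero]
      exact Helper77.memLocalIdeal_zero hMm
  have hw := Helper16.memLocalIdeal_of_idem_of_omega hMm hwc hwS hww hwom ⟨g, hCH hg⟩
  intro hcon
  apply hfne
  have h1 := Helper77.memLocalIdeal_sub hMm hcon hw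
  rw [Pi.sub_apply, sub_sub_cancel] at h1
  exact h1

end Cfsg.Agent.Helper75
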