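import Cfsg.Agent.Helper75.CanonForm2
import Cfsg.Agent.Helper75.Ito
import Cfsg.Agent.Helper75.DefClass
import Cfsg.Agent.Helper73.HeightZeroInd
import Cfsg.Agent.Helper16.ExtFMT
import Cfsg.Agent.S0971

/-!
# Blocks with a normal defect group: abelian defect group ⟺ all heights zero (Reynolds)

* `exists_nonlinear_of_not_comm`: a finite nonabelian group has a nonlinear irreducible character.
* `height_zero_of_normal_abelian_defect`: Ito.
* `abelian_of_height_zero_of_normal_defect`: via the block `b` of `N = P C_G(P)` with `b^G = B`,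
  its characters `θ_ζ`, and Brauer's height zero criterion for induced blocks (helper73).
-/

set_option autoImplicit false
set_option linter.style.haveILetI false
open Cfsg

namespace Cfsg.Agent.Helper75

open scoped ComplexConjugate

universe u

/-- A finite group all of whose irreducible characters are linear is abelian. -/
theorem exists_nonlinear_of_not_comm {H : Type u} [Group H] [Finite H]
    (h : ¬ ∀ a b : H, a * b = b * a) :
    ∃ ζ : Cfsg.IrrCharacter H, Cfsg.charDegree (ζ : H → ℂ) ≠ 1 := by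
  classical
  by_contra hcon
  have hall : ∀ ζ : Cfsg.IrrCharacter H, Cfsg.charDegree (ζ : H → ℂ) = 1 := by
    intro ζ
    by_contra h1
    exact hcon ⟨ζ, h1⟩
  haveI : Fintype H := Fintype.ofFinite H
  haveI : Fintype (Cfsg.IrrCharacter H) := Fintype.ofFinite _
  have h1 := Helper80.irr_sum_charDegree_sq (G := H)
  have h2 := Helper80.card_irr_eq_card_conjClasses (G := H)
  have h3 : Nat.card (ConjClasses H) = Nat.card H := by
    rw [Nat.card_eq_fintype_card (α := H)]
    rw [← h1, ← h2]
    rw [Finset.sum_congr rfl (fun ζ _ => by rw [hall ζ, one_pow])]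
    simp
  have hbij : Function.Bijective (ConjClasses.mk : H → ConjClasses H) :=
    (ConjClasses.mk_surjective).bijective_of_nat_card_le (le_of_eq h3.symm)
  apply h
  intro a b
  have h4 : ConjClasses.mk (a * b * a⁻¹) = ConjClasses.mk b :=
    ConjClasses.mk_eq_mk_iff_isConj.mpr (isConj_iff.mpr ⟨a⁻¹, by group⟩)
  have h5 := hbij.1 h4
  calc a * b = a * b * a⁻¹ * a := by group
    _ = b * a := by rw [h5]

section normalDefect

variable {G : Type u} [Group G] [Fintype G] {p : ℕ} [Fact p.Prime] {M : Ideal Cfsg.AlgInt}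

/-- A block with an abelian normal defect group has all heights zero (Ito). -/
theorem height_zero_of_normal_abelian_defect (hM : Cfsg.IsPModular p M)
    {B : Set (Cfsg.IrrCharacter G)} (hB : Cfsg.IsPBlock M B) (P : Subgroup G) [P.Normal]
    (hP : Cfsg.IsDefectGroup p M B P) (hab : ∀ a ∈ P, ∀ c ∈ P, a * c = c * a) :
    ∀ χ ∈ B, Cfsg.blockHeight p B (χ : G → ℂ) = 0 := by
  intro χ hχ
  have hp : p.Prime := Fact.out
  have hcard := Helper77.card_of_isDefectGroup hM hB hP
  have h1 : Cfsg.charDegree (χ : G → ℂ) ∣ P.index := ito_character χ.2 P hab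
  have hd0 : Cfsg.charDegree (χ : G → ℂ) ≠ 0 := (Helper81.charDegree_pos χ).ne'
  have hi0 : P.index ≠ 0 := Subgroup.index_ne_zero_of_finite
  have h2 : (Cfsg.charDegree (χ : G → ℂ)).factorization p ≤ P.index.factorization p :=
    (Nat.factorization_le_iff_dvd hd0 hi0).mpr h1 p
  have h3 : Nat.card G = Nat.card P * P.index := (Subgroup.card_mul_index P).symm
  have h4 : (Nat.card G).factorization p = Cfsg.blockDefect p B + P.index.factorization p := by
    rw [h3, Nat.factorization_mul Nat.card_pos.ne' hi0, hcard, Finsupp.add_apply,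
      Nat.Prime.factorization_pow hp, Finsupp.single_eq_same]
  have h5 : sInf ((fun ψ : Cfsg.IrrCharacter G =>
      (Cfsg.charDegree (ψ : G → ℂ)).factorization p) '' B)
      ≤ (Cfsg.charDegree (χ : G → ℂ)).factorization p := Nat.sInf_le ⟨χ, hχ, rfl⟩
  have h6 : Cfsg.blockDefect p B = (Nat.card G).factorization p -
      sInf ((fun ψ : Cfsg.IrrCharacter G =>
        (Cfsg.charDegree (ψ : G → ℂ)).factorization p) '' B) := rfl
  have h7 : Cfsg.blockHeight p B (χ : G → ℂ) = (Cfsg.charDegree (χ : G → ℂ)).factorization p -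
      sInf ((fun ψ : Cfsg.IrrCharacter G =>
        (Cfsg.charDegree (ψ : G → ℂ)).factorization p) '' B) := rfl
  omega

/-- If every character of a block with normal defect group `P` has height zero, `P` is
abelian. -/
theorem abelian_of_height_zero_of_normal_defect (hM : Cfsg.IsPModular p M)
    {B : Set (Cfsg.IrrCharacter G)} (hB : Cfsg.IsPBlock M B) (P : Subgroup G) [hPn : P.Normal]
    (hP : Cfsg.IsDefectGroup p M B P)
    (h0 : ∀ χ ∈ B, Cfsg.blockHeight p B (χ : G → ℂ) = 0) :
    ∀ a ∈ P, ∀ c ∈ P, a * c = c * a := by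
  classical
  have hp : p.Prime := Fact.out
  have hMm := hM.2.1
  by_contra hnab
  obtain ⟨-, -, -, -, hPp⟩ := Helper16.isDefectGroup_exists_data hP
  haveI : Fintype (P ⊔ Subgroup.centralizer (P : Set G) : Subgroup G) := Fintype.ofFinite _
  have hPN : P ≤ P ⊔ Subgroup.centralizer (P : Set G) := le_sup_left
  have hCN : Subgroup.centralizer (P : Set G) ≤ P ⊔ Subgroup.centralizer (P : Set G) :=
    le_sup_right
  have hNN : P ⊔ Subgroup.centralizer (P : Set G) ≤ Subgroup.normalizer (P : Set G) := by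
    rw [Subgroup.normalizer_eq_top]
    exact le_top
  haveI hNn : (P ⊔ Subgroup.centralizer (P : Set G)).Normal := Subgroup.sup_normal _ _
  obtain ⟨b, hDb, hind⟩ := Helper16.extfmt_exists hM hB hP
    (P ⊔ Subgroup.centralizer (P : Set G)) hPN hCN hNN
  have hb := hind.1
  have hP'p : IsPGroup p (P.subgroupOf (P ⊔ Subgroup.centralizer (P : Set G))) :=
    hPp.comap_subtype
  have hsup' : P.subgroupOf (P ⊔ Subgroup.centralizer (P : Set G)) ⊔
      Subgroup.centralizer ((P.subgroupOf (P ⊔ Subgroup.centralizer (P : Set G)) :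
        Subgroup (P ⊔ Subgroup.centralizer (P : Set G) : Subgroup G)) :
        Set (P ⊔ Subgroup.centralizer (P : Set G) : Subgroup G)) = ⊤ := by
    rw [eq_top_iff]
    intro n _
    have hn : (n : G) ∈ ((P ⊔ Subgroup.centralizer (P : Set G) : Subgroup G) : Set G) := n.2
    rw [Subgroup.normal_mul] at hn
    obtain ⟨a, ha, c, hc, hac⟩ := Set.mem_mul.mp hn
    have e : n = (⟨a, hPN ha⟩ : (P ⊔ Subgroup.centralizer (P : Set G) : Subgroup G))
        * ⟨c, hCN hc⟩ := Subtype.ext hac.symm
    rw [e]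
    refine Subgroup.mul_mem_sup ?_ ?_
    · rw [Subgroup.mem_subgroupOf]
      exact ha
    · rw [Subgroup.mem_centralizer_iff]
      intro y hy
      apply Subtype.ext
      exact Subgroup.mem_centralizer_iff.mp hc (y : G) (Subgroup.mem_subgroupOf.mp hy)
  -- the canonical character and a nonlinear `ζ`
  obtain ⟨⟨φ, ⟨hφb, hφP⟩, -⟩, hdeg, -⟩ := canonical_character hM _ hP'p hsup' hb hDb
  have hnab' : ¬ ∀ x y : P.subgroupOf (P ⊔ Subgroup.centralizer (P : Set G)), x * y = y * x := by
    intro hc
    apply hnab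
    intro a ha c hc'
    have h1 := hc ⟨⟨a, hPN ha⟩, by rw [Subgroup.mem_subgroupOf]; exact ha⟩
      ⟨⟨c, hPN hc'⟩, by rw [Subgroup.mem_subgroupOf]; exact hc'⟩
    exact congrArg (fun z : P.subgroupOf (P ⊔ Subgroup.centralizer (P : Set G)) =>
      ((z : (P ⊔ Subgroup.centralizer (P : Set G) : Subgroup G)) : G)) h1
  obtain ⟨ζ, hζ⟩ := exists_nonlinear_of_not_comm hnab'
  have hpζ : p ∣ Cfsg.charDegree (ζ : P.subgroupOf (P ⊔ Subgroup.centralizer (P : Set G)) → ℂ) := by
    have h1 := Helper81.charDegree_dvd_card ζ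
    obtain ⟨n, hn⟩ := IsPGroup.exists_card_eq hP'p
    rw [hn] at h1
    obtain ⟨j, -, hj⟩ := (Nat.dvd_prime_pow hp).mp h1
    rw [hj]
    have hj0 : j ≠ 0 := by
      intro h
      rw [h, pow_zero] at hj
      exact hζ hj
    exact dvd_pow_self p hj0
  obtain ⟨θ, hθb, hθform⟩ := exists_mem_block_form hM _ hP'p hsup' hb hDb φ hφb hφP ζ
  have hone : ¬ p ∣ orderOf (1 : (P ⊔ Subgroup.centralizer (P : Set G) : Subgroup G)) := by
    rw [orderOf_one, Nat.dvd_one]
    exact hp.one_lt.ne'
  have hθ1 : (θ : (P ⊔ Subgroup.centralizer (P : Set G) : Subgroup G) → ℂ) 1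
      = (ζ : P.subgroupOf (P ⊔ Subgroup.centralizer (P : Set G)) → ℂ) 1
        * (φ : (P ⊔ Subgroup.centralizer (P : Set G) : Subgroup G) → ℂ) 1 := by
    have h1 := hθform 1 1 hone
    rw [Subgroup.coe_one, one_mul] at h1
    exact h1
  -- a character of `G` over `θ`, which lies in `B`
  obtain ⟨χ, hχθ⟩ := Helper76.exists_irr_over (P ⊔ Subgroup.centralizer (P : Set G)) θ
  have hχB : χ ∈ B := by
    have h1 := (Cfsg.Agent.S0971.result p M hM P hPp b hb).2 (Cfsg.blockOf M (χ : G → ℂ))
      ⟨χ, rfl⟩ ⟨χ, Helper16.sameBlock_refl hMm _, θ, hθb, hχθ⟩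
    rw [← isInducedBlock_unique hMm _ h1 hind]
    exact Helper16.sameBlock_refl hMm _
  have hnot := Helper73.hzc_res_not_memLocalIdeal hM _ hind hχB (h0 χ hχB) hφb
  apply hnot
  haveI : Fintype (Cfsg.IrrCharacter (P ⊔ Subgroup.centralizer (P : Set G) : Subgroup G)) :=
    Fintype.ofFinite _
  have hcl : Cfsg.IsClassFunction (P ⊔ Subgroup.centralizer (P : Set G) : Subgroup G)
      (fun h : (P ⊔ Subgroup.centralizer (P : Set G) : Subgroup G) => (χ : G → ℂ) h) := by
    intro y h
    exact Helper81.irr_conj χ (y : G) (h : G)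
  rw [Helper73.hzc_eq_sum_irr p hcl]
  refine Helper77.memLocalIdeal_sum hMm _ _ (fun η _ => ?_)
  have hφ1 : (φ : (P ⊔ Subgroup.centralizer (P : Set G) : Subgroup G) → ℂ) 1 ≠ 0 :=
    Helper81.irr_one_ne_zero φ
  by_cases hη0 : Cfsg.classInner
      (fun h : (P ⊔ Subgroup.centralizer (P : Set G) : Subgroup G) => (χ : G → ℂ) h)
      (η : (P ⊔ Subgroup.centralizer (P : Set G) : Subgroup G) → ℂ) = 0
  · rw [hη0, map_zero, zero_mul]
    exact Helper77.memLocalIdeal_zero hMm
  by_cases hηb : η ∈ b
  · -- `η` is conjugate to `θ`, so has the same degree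
    obtain ⟨g, hg⟩ := clifford_irrCharacter (P ⊔ Subgroup.centralizer (P : Set G))
      (χ : G → ℂ) χ.2 (η : (P ⊔ Subgroup.centralizer (P : Set G) : Subgroup G) → ℂ)
      (θ : (P ⊔ Subgroup.centralizer (P : Set G) : Subgroup G) → ℂ) η.2 θ.2 hη0 hχθ
    have hη1 : (η : (P ⊔ Subgroup.centralizer (P : Set G) : Subgroup G) → ℂ) 1
        = (θ : (P ⊔ Subgroup.centralizer (P : Set G) : Subgroup G) → ℂ) 1 := by
      rw [hg 1, map_one]
    obtain ⟨ζ', hζ'⟩ := exists_irr_form hM _ hP'p hsup' hb hDb φ hφb hφP η hηb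
    have hη1' : (η : (P ⊔ Subgroup.centralizer (P : Set G) : Subgroup G) → ℂ) 1
        = (ζ' : P.subgroupOf (P ⊔ Subgroup.centralizer (P : Set G)) → ℂ) 1
          * (φ : (P ⊔ Subgroup.centralizer (P : Set G) : Subgroup G) → ℂ) 1 := by
      have h1 := hζ' 1 1 hone
      rw [Subgroup.coe_one, one_mul] at h1
      exact h1
    have hζζ : (ζ' : P.subgroupOf (P ⊔ Subgroup.centralizer (P : Set G)) → ℂ) 1
        = (ζ : P.subgroupOf (P ⊔ Subgroup.centralizer (P : Set G)) → ℂ) 1 := by
      have h1 : (ζ' : P.subgroupOf (P ⊔ Subgroup.centralizer (P : Set G)) → ℂ) 1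
          * (φ : (P ⊔ Subgroup.centralizer (P : Set G) : Subgroup G) → ℂ) 1
          = (ζ : P.subgroupOf (P ⊔ Subgroup.centralizer (P : Set G)) → ℂ) 1
            * (φ : (P ⊔ Subgroup.centralizer (P : Set G) : Subgroup G) → ℂ) 1 := by
        rw [← hη1', hη1, hθ1]
      exact mul_right_cancel₀ hφ1 h1
    -- compute `hzc p η φ`
    have hR := card_mul_sum_pRegular_canonical hM _ hP'p hsup' hb hDb φ hφb hφP
    have hpre : Helper77.pregInner p
        (φ : (P ⊔ Subgroup.centralizer (P : Set G) : Subgroup G) → ℂ)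
        (η : (P ⊔ Subgroup.centralizer (P : Set G) : Subgroup G) → ℂ)
        = (ζ : P.subgroupOf (P ⊔ Subgroup.centralizer (P : Set G)) → ℂ) 1 *
          ∑ s : (P ⊔ Subgroup.centralizer (P : Set G) : Subgroup G),
            (if ¬ p ∣ orderOf s then
              (φ : (P ⊔ Subgroup.centralizer (P : Set G) : Subgroup G) → ℂ) s
              * conj ((φ : (P ⊔ Subgroup.centralizer (P : Set G) : Subgroup G) → ℂ) s)
            else 0) := by
      unfold Helper77.pregInner
      rw [Finset.mul_sum]
      refine Finset.sum_congr rfl (fun s _ => ?_)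
      by_cases hs : ¬ p ∣ orderOf s
      · rw [if_pos hs, if_pos hs]
        have h1 := hζ' 1 s hs
        rw [Subgroup.coe_one, one_mul] at h1
        rw [h1, map_mul, hζζ, Helper81.irr_one_eq_charDegree ζ, Complex.conj_natCast]
        ring
      · rw [if_neg hs, if_neg hs, mul_zero]
    have hi0 : (P.subgroupOf (P ⊔ Subgroup.centralizer (P : Set G))).index ≠ 0 :=
      Subgroup.index_ne_zero_of_finite
    have hf0 : Cfsg.charDegree
        (φ : (P ⊔ Subgroup.centralizer (P : Set G) : Subgroup G) → ℂ) ≠ 0 :=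
      (Helper81.charDegree_pos φ).ne'
    have hcardN : (Nat.card (P ⊔ Subgroup.centralizer (P : Set G) : Subgroup G) : ℂ)
        = (Nat.card (P.subgroupOf (P ⊔ Subgroup.centralizer (P : Set G))) : ℂ)
          * ((P.subgroupOf (P ⊔ Subgroup.centralizer (P : Set G))).index : ℂ) := by
      rw [← Nat.cast_mul, Subgroup.card_mul_index]
    have hP'0 : (Nat.card (P.subgroupOf (P ⊔ Subgroup.centralizer (P : Set G))) : ℂ) ≠ 0 := by
      exact_mod_cast Nat.card_pos.ne'
    have hRval : ∑ s : (P ⊔ Subgroup.centralizer (P : Set G) : Subgroup G),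
        (if ¬ p ∣ orderOf s then
          (φ : (P ⊔ Subgroup.centralizer (P : Set G) : Subgroup G) → ℂ) s
          * conj ((φ : (P ⊔ Subgroup.centralizer (P : Set G) : Subgroup G) → ℂ) s)
        else 0) = ((P.subgroupOf (P ⊔ Subgroup.centralizer (P : Set G))).index : ℂ) := by
      rw [hcardN] at hR
      exact mul_left_cancel₀ hP'0 hR
    have hval : Helper73.hzc p (η : (P ⊔ Subgroup.centralizer (P : Set G) : Subgroup G) → ℂ)
        (φ : (P ⊔ Subgroup.centralizer (P : Set G) : Subgroup G) → ℂ)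
        = (Cfsg.charDegree (ζ : P.subgroupOf (P ⊔ Subgroup.centralizer (P : Set G)) → ℂ) : ℂ)
          * (((P.subgroupOf (P ⊔ Subgroup.centralizer (P : Set G))).index : ℂ)
            / (Cfsg.charDegree
              (φ : (P ⊔ Subgroup.centralizer (P : Set G) : Subgroup G) → ℂ) : ℂ)) := by
      rw [Helper73.hzc_eq, hpre, hRval, Helper81.irr_one_eq_charDegree ζ,
        Helper81.irr_one_eq_charDegree φ]
      ring
    -- the ratio is local, and `p ∣ ζ 1`
    have hv := hdeg φ hφb hφP
    have hratio : Cfsg.MemLocalRing M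
        (((P.subgroupOf (P ⊔ Subgroup.centralizer (P : Set G))).index : ℂ)
          / (Cfsg.charDegree
            (φ : (P ⊔ Subgroup.centralizer (P : Set G) : Subgroup G) → ℂ) : ℂ)) := by
      have e1 := Nat.ordProj_mul_ordCompl_eq_self
        (P.subgroupOf (P ⊔ Subgroup.centralizer (P : Set G))).index p
      have e2 := Nat.ordProj_mul_ordCompl_eq_self (Cfsg.charDegree
        (φ : (P ⊔ Subgroup.centralizer (P : Set G) : Subgroup G) → ℂ)) p
      rw [hv] at e2
      have hpv : ((p ^ (P.subgroupOf (P ⊔ Subgroup.centralizer (P : Set G))).index.factorization p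
          : ℕ) : ℂ) ≠ 0 := by
        exact_mod_cast (pow_pos hp.pos _).ne'
      have hm' : ¬ p ∣ Cfsg.charDegree
          (φ : (P ⊔ Subgroup.centralizer (P : Set G) : Subgroup G) → ℂ)
          / p ^ (P.subgroupOf (P ⊔ Subgroup.centralizer (P : Set G))).index.factorization p := by
        rw [← hv]
        exact Nat.not_dvd_ordCompl hp hf0
      have hm'0 : ((Cfsg.charDegree
          (φ : (P ⊔ Subgroup.centralizer (P : Set G) : Subgroup G) → ℂ)
          / p ^ (P.subgroupOf (P ⊔ Subgroup.centralizer (P : Set G))).index.factorization p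
          : ℕ) : ℂ) ≠ 0 := by
        have : Cfsg.charDegree
          (φ : (P ⊔ Subgroup.centralizer (P : Set G) : Subgroup G) → ℂ)
          / p ^ (P.subgroupOf (P ⊔ Subgroup.centralizer (P : Set G))).index.factorization p
            ≠ 0 := fun h => hm' (by rw [h]; exact dvd_zero p)
        exact_mod_cast this
      have e3 : ((P.subgroupOf (P ⊔ Subgroup.centralizer (P : Set G))).index : ℂ)
          / (Cfsg.charDegree
            (φ : (P ⊔ Subgroup.centralizer (P : Set G) : Subgroup G) → ℂ) : ℂ)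
          = (((P.subgroupOf (P ⊔ Subgroup.centralizer (P : Set G))).index
              / p ^ (P.subgroupOf (P ⊔ Subgroup.centralizer (P : Set G))).index.factorization p
              : ℕ) : ℂ)
            * ((Cfsg.charDegree
              (φ : (P ⊔ Subgroup.centralizer (P : Set G) : Subgroup G) → ℂ)
              / p ^ (P.subgroupOf (P ⊔ Subgroup.centralizer (P : Set G))).index.factorization p
              : ℕ) : ℂ)⁻¹ := by
        conv_lhs => rw [← e1, ← e2]
        push_cast
        field_simp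
      rw [e3]
      exact Helper77.memLocalRing_mul hMm (Helper81.memLocalRing_natCast hMm.ne_top _)
        (Helper77.memLocalRing_natCast_inv hM hm')
    have hζI : Cfsg.MemLocalIdeal M
        ((Cfsg.charDegree (ζ : P.subgroupOf (P ⊔ Subgroup.centralizer (P : Set G)) → ℂ) : ℂ)) := by
      have h1 : ((p : ℤ)) ∣ ((Cfsg.charDegree
          (ζ : P.subgroupOf (P ⊔ Subgroup.centralizer (P : Set G)) → ℂ) : ℕ) : ℤ) :=
        Int.natCast_dvd_natCast.mpr hpζ
      have h2 := Helper16.memLocalIdeal_intCast_of_dvd hM h1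
      simpa using h2
    obtain ⟨n, hn⟩ := Helper3.classInner_isCharacter_nat
      (Helper79.isCharacter_restrict (Helper79.isCharacter_of_irr χ.2)
        (P ⊔ Subgroup.centralizer (P : Set G)))
      (Helper79.isCharacter_of_irr η.2)
    rw [hval]
    refine Helper77.memLocalIdeal_mul hMm ?_ (Helper77.memLocalIdeal_mul' hMm hζI hratio)
    have h3 : Cfsg.classInner
        (fun h : (P ⊔ Subgroup.centralizer (P : Set G) : Subgroup G) => (χ : G → ℂ) h)
        (η : (P ⊔ Subgroup.centralizer (P : Set G) : Subgroup G) → ℂ) = (n : ℂ) := hn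
    rw [h3, Complex.conj_natCast]
    exact Helper81.memLocalRing_natCast hMm.ne_top n
  · rw [Helper73.hzc_eq_zero_of_not_mem hM hb hηb hφb, mul_zero]
    exact Helper77.memLocalIdeal_zero hMm

end normalDefect

end Cfsg.Agent.Helper75
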