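import Cfsg.Agent.Helper9.BRDefs

/-!
# Brauer–Reynolds (CALL S0999), piece NF, auxiliary constructor of a `BRTab` (helper75)
-/

set_option autoImplicit false
open Cfsg
open scoped ComplexConjugate

namespace Cfsg.Agent.Helper75

universe u

/-- A `BRTab` from a signed decomposition of the principal block in which the trivial character
is non-exceptional. -/
theorem br_tab_of {G : Type u} [Group G] [Fintype G] (p : ℕ) [Fact p.Prime]
    (M : Ideal Cfsg.AlgInt) (P : Sylow p G) (q : ℕ)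
    (Xf Yf : Finset (Cfsg.IrrCharacter G)) (εX : Cfsg.IrrCharacter G → ℤ) (ε : ℤ)
    (hB : ∀ χ : Cfsg.IrrCharacter G, χ ∈ Cfsg.principalBlock M G ↔ (χ ∈ Xf ∨ χ ∈ Yf))
    (hdisj : Disjoint Xf Yf) (htriv : Helper81.trivIrr G ∈ Xf)
    (hεtriv : εX (Helper81.trivIrr G) = 1)
    (hXcard : Xf.card = q) (hYcard : Yf.card = (p - 1) / q)
    (hX : ∀ χ ∈ Xf, (εX χ = 1 ∨ εX χ = -1) ∧
      ((Cfsg.charDegree (χ : G → ℂ) : ℤ) ≡ εX χ [ZMOD p]) ∧
      ∀ x : G, x ∈ (P : Subgroup G) → x ≠ 1 → ∀ y : G,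
        y ∈ Subgroup.centralizer ((P : Subgroup G) : Set G) → ¬ p ∣ orderOf y →
        (χ : G → ℂ) (x * y) = (εX χ : ℂ))
    (hε : ε = 1 ∨ ε = -1)
    (hYdeg : ∀ θ ∈ Yf, (Cfsg.charDegree (θ : G → ℂ) : ℤ) ≡ ε * (q : ℤ) [ZMOD p])
    (hYreg : ∀ θ ∈ Yf, ∀ θ' ∈ Yf, ∀ g : G, ¬ p ∣ orderOf g → (θ : G → ℂ) g = (θ' : G → ℂ) g)
    (hrel : ∀ θ ∈ Yf, ∀ g : G, ¬ p ∣ orderOf g →
      (ε : ℂ) * (θ : G → ℂ) g = ∑ χ ∈ Xf, (εX χ : ℂ) * (χ : G → ℂ) g) :
    Nonempty (Cfsg.Agent.Helper9.BRTab p M P q) := by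
  classical
  have hm1 : ∀ χ : Cfsg.IrrCharacter G, χ ∈ Xf.filter
      (fun χ => χ ≠ Helper81.trivIrr G ∧ εX χ = 1) ↔
      (χ ∈ Xf ∧ χ ≠ Helper81.trivIrr G ∧ εX χ = 1) := fun χ => Finset.mem_filter
  have hm2 : ∀ χ : Cfsg.IrrCharacter G, χ ∈ Xf.filter (fun χ => εX χ = -1) ↔
      (χ ∈ Xf ∧ εX χ = -1) := fun χ => Finset.mem_filter
  have hXf : Xf = insert (Helper81.trivIrr G)
      (Xf.filter (fun χ => χ ≠ Helper81.trivIrr G ∧ εX χ = 1) ∪
        Xf.filter (fun χ => εX χ = -1)) := by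
    ext χ
    rw [Finset.mem_insert, Finset.mem_union, hm1, hm2]
    constructor
    · intro h
      by_cases h1 : χ = Helper81.trivIrr G
      · exact Or.inl h1
      · rcases (hX χ h).1 with h2 | h2
        · exact Or.inr (Or.inl ⟨h, h1, h2⟩)
        · exact Or.inr (Or.inr ⟨h, h2⟩)
    · rintro (h | ⟨h, -⟩ | ⟨h, -⟩)
      · rw [h]; exact htriv
      · exact h
      · exact h
  have h1X1 : Helper81.trivIrr G ∉ Xf.filter (fun χ => χ ≠ Helper81.trivIrr G ∧ εX χ = 1) := by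
    rw [hm1]
    exact fun h => h.2.1 rfl
  have h1X2 : Helper81.trivIrr G ∉ Xf.filter (fun χ => εX χ = -1) := by
    rw [hm2]
    intro h
    have := h.2
    rw [hεtriv] at this
    omega
  have h12 : Disjoint (Xf.filter (fun χ => χ ≠ Helper81.trivIrr G ∧ εX χ = 1))
      (Xf.filter (fun χ => εX χ = -1)) := by
    rw [Finset.disjoint_left]
    intro χ h1 h2
    rw [hm1] at h1
    rw [hm2] at h2
    have := h1.2.2
    have := h2.2
    omega
  have h1U : Helper81.trivIrr G ∉ Xf.filter (fun χ => χ ≠ Helper81.trivIrr G ∧ εX χ = 1) ∪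
      Xf.filter (fun χ => εX χ = -1) := by
    rw [Finset.mem_union]
    exact fun h => h.elim h1X1 h1X2
  refine ⟨{
    X1 := Xf.filter (fun χ => χ ≠ Helper81.trivIrr G ∧ εX χ = 1)
    X2 := Xf.filter (fun χ => εX χ = -1)
    Y := Yf
    ε := ε
    hε := hε
    hB := ?_
    h1X1 := h1X1
    h1X2 := h1X2
    h1Y := ?_
    hX12 := h12
    hX1Y := ?_
    hX2Y := ?_
    hcard := ?_
    hcardY := hYcard
    hX1 := ?_
    hX2 := ?_
    hYdeg := hYdeg
    hYreg := hYreg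
    hrel := ?_ }⟩
  · intro χ
    rw [hB χ]
    constructor
    · rintro (h | h)
      · rw [hXf, Finset.mem_insert, Finset.mem_union] at h
        rcases h with h | h | h
        · exact Or.inl h
        · exact Or.inr (Or.inl h)
        · exact Or.inr (Or.inr (Or.inl h))
      · exact Or.inr (Or.inr (Or.inr h))
    · rintro (h | h | h | h)
      · rw [h]; exact Or.inl htriv
      · exact Or.inl ((hm1 χ).mp h).1
      · exact Or.inl ((hm2 χ).mp h).1
      · exact Or.inr h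
  · exact Finset.disjoint_left.mp hdisj htriv
  · rw [Finset.disjoint_left]
    intro χ h1 h2
    exact Finset.disjoint_left.mp hdisj ((hm1 χ).mp h1).1 h2
  · rw [Finset.disjoint_left]
    intro χ h1 h2
    exact Finset.disjoint_left.mp hdisj ((hm2 χ).mp h1).1 h2
  · have h := congrArg Finset.card hXf
    rw [Finset.card_insert_of_notMem h1U, Finset.card_union_of_disjoint h12, hXcard] at h
    omega
  · intro χ hχ
    rw [hm1] at hχ
    obtain ⟨h1, h2, h3⟩ := hX χ hχ.1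
    rw [hχ.2.2] at h2 h3
    refine ⟨h2, ?_⟩
    intro x hx hx1 y hy hyp
    rw [h3 x hx hx1 y hy hyp, Int.cast_one]
  · intro χ hχ
    rw [hm2] at hχ
    obtain ⟨h1, h2, h3⟩ := hX χ hχ.1
    rw [hχ.2] at h2 h3
    refine ⟨h2, ?_⟩
    intro x hx hx1 y hy hyp
    rw [h3 x hx hx1 y hy hyp, Int.cast_neg, Int.cast_one]
  · intro θ hθ g hg
    rw [hrel θ hθ g hg]
    have hs : ∑ χ ∈ Xf, (εX χ : ℂ) * (χ : G → ℂ) g
        = ∑ χ ∈ insert (Helper81.trivIrr G)
          (Xf.filter (fun χ => χ ≠ Helper81.trivIrr G ∧ εX χ = 1) ∪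
            Xf.filter (fun χ => εX χ = -1)), (εX χ : ℂ) * (χ : G → ℂ) g := by
      rw [← hXf]
    rw [hs, Finset.sum_insert h1U, Finset.sum_union h12, hεtriv, Helper81.trivIrr_apply]
    have e1 : ∑ χ ∈ Xf.filter (fun χ => χ ≠ Helper81.trivIrr G ∧ εX χ = 1),
        (εX χ : ℂ) * (χ : G → ℂ) g
        = ∑ χ ∈ Xf.filter (fun χ => χ ≠ Helper81.trivIrr G ∧ εX χ = 1), (χ : G → ℂ) g := by
      apply Finset.sum_congr rfl
      intro χ hχ
      rw [((hm1 χ).mp hχ).2.2, Int.cast_one, one_mul]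
    have e2 : ∑ χ ∈ Xf.filter (fun χ => εX χ = -1), (εX χ : ℂ) * (χ : G → ℂ) g
        = -∑ χ ∈ Xf.filter (fun χ => εX χ = -1), (χ : G → ℂ) g := by
      rw [← Finset.sum_neg_distrib]
      apply Finset.sum_congr rfl
      intro χ hχ
      rw [((hm2 χ).mp hχ).2, Int.cast_neg, Int.cast_one, neg_one_mul]
    rw [e1, e2]
    push_cast
    ring

end Cfsg.Agent.Helper75
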