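import Cfsg.Agent.Helper75.PrincipalTransport
import Cfsg.Agent.Helper16.DefectGroup

/-!
# Transport of blocks, block idempotents and defect groups along a group isomorphism

For `σ : H ≃* K`, a set `b` of irreducible characters of `K` is transported to
`irrComp σ '' b`, a set of irreducible characters of `H`.

* `isPBlock_image_irrComp`, `blockCoeff_image_irrComp`, `image_irrComp_image_symm`.
* `isDefectClass_image_irrComp`, `isDefectGroup_image_irrComp`.
-/

set_option autoImplicit false
open Cfsg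
open scoped ComplexConjugate

namespace Cfsg.Agent.Helper75

universe u v

section transportGen
variable {H : Type u} {K : Type v} [Group H] [Group K]

theorem irrComp_irrComp_symm_gen (σ : H ≃* K) (χ : Cfsg.IrrCharacter H) :
    irrComp σ (irrComp σ.symm χ) = χ := by
  apply Subtype.ext
  funext y
  show χ.1 (σ.symm (σ y)) = χ.1 y
  rw [MulEquiv.symm_apply_apply]

theorem irrComp_symm_irrComp_gen (σ : H ≃* K) (χ : Cfsg.IrrCharacter K) :
    irrComp σ.symm (irrComp σ χ) = χ := by
  apply Subtype.ext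
  funext y
  show χ.1 (σ (σ.symm y)) = χ.1 y
  rw [MulEquiv.apply_symm_apply]

theorem irrComp_injective (σ : H ≃* K) : Function.Injective (irrComp σ) := by
  intro χ₁ χ₂ h
  have := congrArg (irrComp σ.symm) h
  rwa [irrComp_symm_irrComp_gen, irrComp_symm_irrComp_gen] at this

theorem image_irrComp_image_symm (σ : H ≃* K) (b : Set (Cfsg.IrrCharacter H)) :
    irrComp σ '' (irrComp σ.symm '' b) = b := by
  rw [Set.image_image]
  have : (fun χ => irrComp σ (irrComp σ.symm χ)) = id := funext (irrComp_irrComp_symm_gen σ)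
  rw [this, Set.image_id]

theorem image_irrComp_symm_image (σ : H ≃* K) (b : Set (Cfsg.IrrCharacter K)) :
    irrComp σ.symm '' (irrComp σ '' b) = b := by
  rw [Set.image_image]
  have : (fun χ => irrComp σ.symm (irrComp σ χ)) = id := funext (irrComp_symm_irrComp_gen σ)
  rw [this, Set.image_id]

theorem isPBlock_image_irrComp {M : Ideal Cfsg.AlgInt} (σ : H ≃* K)
    {b : Set (Cfsg.IrrCharacter K)} (hb : Cfsg.IsPBlock M b) :
    Cfsg.IsPBlock M (irrComp σ '' b) := by
  obtain ⟨χ₀, rfl⟩ := hb
  refine ⟨irrComp σ χ₀, ?_⟩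
  ext ψ'
  constructor
  · rintro ⟨ψ, hψ, rfl⟩
    exact sameBlock_comp_mulEquiv σ hψ
  · intro hψ'
    refine ⟨irrComp σ.symm ψ', ?_, irrComp_irrComp_symm_gen σ ψ'⟩
    have h1 : Cfsg.SameBlock M (fun x : H => (χ₀ : K → ℂ) (σ x)) (ψ' : H → ℂ) := hψ'
    have h2 := sameBlock_comp_mulEquiv σ.symm h1
    have h3 : (fun x : K => (fun x : H => (χ₀ : K → ℂ) (σ x)) (σ.symm x)) = (χ₀ : K → ℂ) := by
      funext x
      show (χ₀ : K → ℂ) (σ (σ.symm x)) = _
      rw [MulEquiv.apply_symm_apply]
    rw [h3] at h2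
    exact h2

theorem blockCoeff_image_irrComp (σ : H ≃* K) (b : Set (Cfsg.IrrCharacter K)) (h : H) :
    Cfsg.blockCoeff (irrComp σ '' b) h = Cfsg.blockCoeff b (σ h) := by
  unfold Cfsg.blockCoeff
  rw [Nat.card_congr σ.toEquiv, finsum_mem_image (fun χ₁ _ χ₂ _ hh => irrComp_injective σ hh)]
  congr 1
  refine finsum_congr fun χ => ?_
  refine finsum_congr fun _ => ?_
  show (χ : K → ℂ) (σ 1) * conj ((χ : K → ℂ) (σ h)) = _
  rw [map_one]

theorem isDefectClass_image_irrComp {M : Ideal Cfsg.AlgInt} (σ : H ≃* K)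
    {b : Set (Cfsg.IrrCharacter K)} {g : K} (hg : Cfsg.IsDefectClass M b g) :
    Cfsg.IsDefectClass M (irrComp σ '' b) (σ.symm g) := by
  have e1 : Cfsg.blockCoeff (irrComp σ '' b) (σ.symm g) = Cfsg.blockCoeff b g := by
    rw [blockCoeff_image_irrComp, MulEquiv.apply_symm_apply]
  refine ⟨?_, ?_, ?_⟩
  · rw [e1]; exact hg.1
  · rw [e1]; exact hg.2.1
  · rintro χ' ⟨χ, hχ, rfl⟩
    have e2 : Cfsg.centralChar (irrComp σ χ : H → ℂ) (σ.symm g) = Cfsg.centralChar (χ : K → ℂ) g := by
      have := centralChar_comp_mulEquiv σ (χ : K → ℂ) (σ.symm g)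
      rw [MulEquiv.apply_symm_apply] at this
      exact this
    rw [e2]
    exact hg.2.2 χ hχ

theorem card_centralizer_mulEquiv [Finite H] (σ : H ≃* K) (h : H) :
    Nat.card (Subgroup.centralizer ({σ h} : Set K))
      = Nat.card (Subgroup.centralizer ({h} : Set H)) := by
  haveI : Finite K := Finite.of_equiv H σ.toEquiv
  have h1 := Subgroup.card_mul_index (Subgroup.centralizer ({σ h} : Set K))
  have h2 := Subgroup.card_mul_index (Subgroup.centralizer ({h} : Set H))
  rw [index_centralizer_mulEquiv σ h, ← Nat.card_congr σ.toEquiv, ← h2] at h1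
  have hpos : 0 < (Subgroup.centralizer ({h} : Set H)).index :=
    Nat.pos_of_ne_zero (Subgroup.index_ne_zero_of_finite)
  exact Nat.eq_of_mul_eq_mul_right hpos h1

theorem isDefectGroup_image_irrComp [Fintype H] [Fintype K] {p : ℕ} [Fact p.Prime]
    {M : Ideal Cfsg.AlgInt} (σ : H ≃* K) {b : Set (Cfsg.IrrCharacter K)} {D : Subgroup K}
    (hD : Cfsg.IsDefectGroup p M b D) :
    Cfsg.IsDefectGroup p M (irrComp σ '' b) (D.comap σ.toMonoidHom) := by
  obtain ⟨g, hg, hDC, hcard, -⟩ := Helper16.isDefectGroup_exists_data hD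
  have hg' := isDefectClass_image_irrComp σ hg
  refine Helper16.isDefectGroup_of_card hg' ?_ ?_
  · intro x hx
    rw [Subgroup.mem_comap] at hx
    rw [Subgroup.mem_centralizer_iff]
    intro y hy
    rw [Set.mem_singleton_iff] at hy
    subst hy
    have h1 := Subgroup.mem_centralizer_iff.mp (hDC hx) g rfl
    apply σ.injective
    rw [map_mul, map_mul, MulEquiv.apply_symm_apply]
    exact h1
  · have h1 : Nat.card (D.comap σ.toMonoidHom) = Nat.card D := by
      rw [Subgroup.comap_equiv_eq_map_symm']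
      exact Subgroup.card_map_of_injective σ.symm.injective
    have h2 := card_centralizer_mulEquiv σ (σ.symm g)
    rw [MulEquiv.apply_symm_apply] at h2
    rw [h1, ← h2]
    exact hcard

end transportGen

end Cfsg.Agent.Helper75
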