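import Cfsg.Agent.Helper75.CanonChar
import Cfsg.Agent.Helper82.SubsectionFormula
import Cfsg.Agent.Helper16.BrauerCorr
import Cfsg.Agent.Helper16.BlockInd
import Cfsg.Agent.Helper16.CenterFusion

/-!
# Blocks of `G = P C_G(P)` with defect group `P`: the number of characters

* `omega_sub_memLocalIdeal_of_support`, `sameBlock_of_pRegular`: blocks are determined by the
  central characters on the `p`-regular classes.
* `isInducedBlock_source_unique`: if `p`-regular elements of `H` that are fused in `G` are fused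
  in `H`, at most one block of `H` induces a given block of `G`.
* `card_block_eq_card_conjClasses`: a block of `G = P C_G(P)` with defect group `P` has as many
  irreducible characters as `P` has conjugacy classes.
-/

set_option autoImplicit false
set_option linter.style.haveILetI false
open Cfsg

namespace Cfsg.Agent.Helper75

open scoped ComplexConjugate

universe u

section canonCount

variable {G : Type u} [Group G] [Fintype G] {p : ℕ} [Fact p.Prime] {M : Ideal Cfsg.AlgInt}

/-- Characters whose central characters are congruent on the support of a local class function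
have congruent `Ω` there. -/
theorem omega_sub_memLocalIdeal_of_support (hM : M.IsMaximal) (χ ψ : Cfsg.IrrCharacter G)
    {a : G → ℂ} (ha : Cfsg.IsClassFunction G a) (haS : ∀ g, Cfsg.MemLocalRing M (a g))
    (h : ∀ g, a g ≠ 0 →
      Cfsg.MemLocalIdeal M (Cfsg.centralChar (χ : G → ℂ) g - Cfsg.centralChar (ψ : G → ℂ) g)) :
    Cfsg.MemLocalIdeal M (Helper81.omega (χ : G → ℂ) a - Helper81.omega (ψ : G → ℂ) a) := by
  classical
  rw [Helper77.omega_eq_sum_conjClasses χ ha, Helper77.omega_eq_sum_conjClasses ψ ha,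
    ← Finset.sum_sub_distrib]
  refine Helper77.memLocalIdeal_sum hM _ _ fun c _ => ?_
  rw [← mul_sub]
  by_cases h0 : a (Quotient.out c) = 0
  · rw [h0, zero_mul]
    exact Helper77.memLocalIdeal_zero hM
  · exact Helper77.memLocalIdeal_mul hM (haS _) (h _ h0)

/-- Blocks are determined by the central characters on the `p`-regular classes. -/
theorem sameBlock_of_pRegular (hM : Cfsg.IsPModular p M) (χ ψ : Cfsg.IrrCharacter G)
    (h : ∀ g : G, ¬ p ∣ orderOf g →
      Cfsg.MemLocalIdeal M (Cfsg.centralChar (χ : G → ℂ) g - Cfsg.centralChar (ψ : G → ℂ) g)) :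
    Cfsg.SameBlock M (χ : G → ℂ) (ψ : G → ℂ) := by
  classical
  have hMm := hM.2.1
  have hB : Cfsg.IsPBlock M (Cfsg.blockOf M (χ : G → ℂ)) := ⟨χ, rfl⟩
  by_contra hcon
  have hψ : ψ ∉ Cfsg.blockOf M (χ : G → ℂ) := hcon
  have hχ : χ ∈ Cfsg.blockOf M (χ : G → ℂ) := Helper16.sameBlock_refl hMm _
  have h1 := omega_sub_memLocalIdeal_of_support hMm χ ψ
    (Helper77.blockCoeff_isClassFunction _) (Helper77.blockCoeff_memLocalRing hMm hB)
    (fun g hg => h g (fun hdvd => hg (Helper77.blockCoeff_eq_zero_of_dvd_orderOf hM hB hdvd)))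
  rw [Helper77.omega_blockCoeff_of_mem hχ, Helper77.omega_blockCoeff_of_not_mem hψ,
    sub_zero] at h1
  exact Helper77.not_memLocalIdeal_one hMm h1

/-- If `p`-regular elements of `H` fused in `G` are already fused in `H`, then at most one block
of `H` induces a given block of `G`. -/
theorem isInducedBlock_source_unique (hM : Cfsg.IsPModular p M) (H : Subgroup G) [Fintype H]
    (hfus : ∀ h h' : H, ¬ p ∣ orderOf h → IsConj (h : G) (h' : G) → IsConj h h')
    {b₁ b₂ : Set (Cfsg.IrrCharacter H)} {B : Set (Cfsg.IrrCharacter G)}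
    (h₁ : Cfsg.IsInducedBlock M H b₁ B) (h₂ : Cfsg.IsInducedBlock M H b₂ B) : b₁ = b₂ := by
  classical
  have hMm := hM.2.1
  obtain ⟨ξ₁, hξ₁⟩ := Helper16.exists_mem_of_isPBlock hMm h₁.1
  obtain ⟨ξ₂, hξ₂⟩ := Helper16.exists_mem_of_isPBlock hMm h₂.1
  obtain ⟨χ, hχ⟩ := Helper16.exists_mem_of_isPBlock hMm h₁.2.1
  have key : ∀ (ξ : Cfsg.IrrCharacter H) (h : H), ¬ p ∣ orderOf h →
      Cfsg.inducedCentralChar H (ξ : H → ℂ) (h : G) = Cfsg.centralChar (ξ : H → ℂ) h := by
    intro ξ h hh
    rw [Helper16.inducedCentralChar_eq_omega_res, ← Helper81.omega_classInd]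
    congr 1
    funext h'
    simp only [Helper81.classInd]
    by_cases hc : IsConj h h'
    · have hc2 : IsConj (h : G) (h' : G) := H.subtype.map_isConj hc
      rw [if_pos hc, if_pos hc2]
    · rw [if_neg hc, if_neg (fun hc' => hc (hfus h h' hh hc'))]
  have hs : Cfsg.SameBlock M (ξ₁ : H → ℂ) (ξ₂ : H → ℂ) := by
    apply sameBlock_of_pRegular hM
    intro h hh
    have e1 := h₁.2.2 ξ₁ hξ₁ χ hχ (h : G)
    have e2 := h₂.2.2 ξ₂ hξ₂ χ hχ (h : G)
    rw [key ξ₁ h hh] at e1
    rw [key ξ₂ h hh] at e2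
    have := Helper77.memLocalIdeal_sub hMm e1 e2
    rwa [sub_sub_sub_cancel_right] at this
  rw [Helper16.eq_blockOf_of_mem hMm h₁.1 hξ₁, Helper16.eq_blockOf_of_mem hMm h₂.1 hξ₂]
  have h3 : ξ₂ ∈ Cfsg.blockOf M (ξ₁ : H → ℂ) := hs
  exact Helper16.eq_blockOf_of_mem hMm ⟨ξ₁, rfl⟩ h3

omit [Fintype G] in
/-- In `G = P C_G(P)`, `p`-regular elements of a subgroup `H ≥ C_G(P)` fused in `G` are fused in
`H`. -/
theorem fusion_pRegular_of_sup_eq_top [Finite G] (P : Subgroup G) (hP : IsPGroup p P)
    (hG : P ⊔ Subgroup.centralizer (P : Set G) = ⊤) (H : Subgroup G)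
    (hCH : Subgroup.centralizer (P : Set G) ≤ H) :
    ∀ h h' : H, ¬ p ∣ orderOf h → IsConj (h : G) (h' : G) → IsConj h h' := by
  intro h h' hh hc
  have hcomm := commute_of_mem_centralizer' P
  haveI hPn : P.Normal := Helper76.normal_of_commute_sup hcomm hG
  have hC := index_centralizer_of_sup_eq_top P hP hG
  have hhG : ¬ p ∣ orderOf (h : G) := by rwa [Subgroup.orderOf_coe]
  have hhC : (h : G) ∈ Subgroup.centralizer (P : Set G) :=
    Helper81.mem_centralizer_of_pRegular P hC hhG
  obtain ⟨g, hg⟩ := isConj_iff.mp hc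
  obtain ⟨a, ha, c, hc', rfl⟩ := Helper76.exists_mul_of_sup_eq_top hcomm hG g
  have h1 : c * (h : G) * c⁻¹ ∈ Subgroup.centralizer (P : Set G) :=
    mul_mem (mul_mem hc' hhC) (inv_mem hc')
  have h2 : a * (c * (h : G) * c⁻¹) = (c * (h : G) * c⁻¹) * a := hcomm a ha _ h1
  have h3 : c * (h : G) * c⁻¹ = (h' : G) := by
    rw [← hg]
    calc c * (h : G) * c⁻¹ = (c * (h : G) * c⁻¹) * a * a⁻¹ := by group
      _ = a * (c * (h : G) * c⁻¹) * a⁻¹ := by rw [h2]
      _ = a * c * (h : G) * (a * c)⁻¹ := by group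
  exact isConj_iff.mpr ⟨⟨c, hCH hc'⟩, Subtype.ext h3⟩

omit [Fintype G] in
theorem centralizer_le_centralizer_singleton (P : Subgroup G) {x : G} (hx : x ∈ P) :
    Subgroup.centralizer (P : Set G) ≤ Subgroup.centralizer ({x} : Set G) := by
  intro c hc
  rw [Subgroup.mem_centralizer_iff]
  intro y hy
  rw [Set.mem_singleton_iff] at hy
  subst hy
  exact Subgroup.mem_centralizer_iff.mp hc y hx

/-- In `G = P C_G(P)`: if a block of `C_G(x)` induces a block with defect group `P`, then
`x ∈ P`. -/
theorem mem_of_isInducedBlock_centralizer (hM : Cfsg.IsPModular p M) (P : Subgroup G)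
    [P.Normal] {B : Set (Cfsg.IrrCharacter G)} (hD : Cfsg.IsDefectGroup p M B P) (x : G)
    (hx : ∃ k : ℕ, orderOf x = p ^ k) [Fintype (Subgroup.centralizer ({x} : Set G))]
    {b : Set (Cfsg.IrrCharacter (Subgroup.centralizer ({x} : Set G)))}
    (hind : Cfsg.IsInducedBlock M (Subgroup.centralizer ({x} : Set G)) b B) : x ∈ P := by
  classical
  have hMm := hM.2.1
  have hb := hind.1
  obtain ⟨Db, hDb⟩ := Helper16.exists_isDefectGroup (p := p) hMm hb
  have hxH : x ∈ Subgroup.centralizer ({x} : Set G) := by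
    rw [Subgroup.mem_centralizer_iff]
    intro h hh
    rw [Set.mem_singleton_iff] at hh
    rw [hh]
  haveI hZn : (Subgroup.zpowers (⟨x, hxH⟩ : Subgroup.centralizer ({x} : Set G))).Normal := by
    constructor
    intro n hn g
    have h1 : g * n * g⁻¹ = n := by
      obtain ⟨k, rfl⟩ := Subgroup.mem_zpowers_iff.mp hn
      have h2 : g * (⟨x, hxH⟩ : Subgroup.centralizer ({x} : Set G)) = ⟨x, hxH⟩ * g := by
        apply Subtype.ext
        exact (Subgroup.mem_centralizer_iff.mp g.2 x rfl).symm
      have h3 : Commute g (⟨x, hxH⟩ : Subgroup.centralizer ({x} : Set G)) := h2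
      have h4 := (h3.zpow_right k).eq
      rw [h4, mul_inv_cancel_right]
    rw [h1]
    exact hn
  have hZp : IsPGroup p (Subgroup.zpowers (⟨x, hxH⟩ : Subgroup.centralizer ({x} : Set G))) := by
    obtain ⟨k, hk⟩ := hx
    exact IsPGroup.of_card (n := k) (by rw [Nat.card_zpowers, Subgroup.orderOf_mk, hk])
  have h1 := Helper16.normal_pSubgroup_le_defectGroup hM _ hZp hb hDb
  have hxD : (⟨x, hxH⟩ : Subgroup.centralizer ({x} : Set G)) ∈ Db :=
    h1 (Subgroup.mem_zpowers _)
  obtain ⟨g, hg⟩ := Helper16.induced_defect_conjLE hM _ hind hDb hD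
  have h3 := hg x (Subgroup.mem_map.mpr ⟨⟨x, hxH⟩, hxD, rfl⟩)
  have h4 := (inferInstance : P.Normal).conj_mem _ h3 g⁻¹
  have h5 : g⁻¹ * (g * x * g⁻¹) * g⁻¹⁻¹ = x := by group
  rwa [h5] at h4

/-- In `G = P C_G(P)` with `B` of defect group `P`: every block of `C_G(x)`, `x ∈ P`, inducing
`B` has `p`-regular rank one. -/
theorem blockRank_eq_one_of_isInducedBlock_centralizer (hM : Cfsg.IsPModular p M)
    (P : Subgroup G) (hP : IsPGroup p P) (hG : P ⊔ Subgroup.centralizer (P : Set G) = ⊤)
    {B : Set (Cfsg.IrrCharacter G)} (hD : Cfsg.IsDefectGroup p M B P) (x : G) (hx : x ∈ P)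
    [Fintype (Subgroup.centralizer ({x} : Set G))]
    {b : Set (Cfsg.IrrCharacter (Subgroup.centralizer ({x} : Set G)))}
    (hind : Cfsg.IsInducedBlock M (Subgroup.centralizer ({x} : Set G)) b B) :
    Cfsg.blockRank p b = 1 := by
  classical
  have hMm := hM.2.1
  have hcomm := commute_of_mem_centralizer' P
  haveI hPn : P.Normal := Helper76.normal_of_commute_sup hcomm hG
  have hCH := centralizer_le_centralizer_singleton P hx
  have hb := hind.1
  obtain ⟨Db, hDb⟩ := Helper16.exists_isDefectGroup (p := p) hMm hb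
  have hP' : IsPGroup p (P.subgroupOf (Subgroup.centralizer ({x} : Set G))) := hP.comap_subtype
  have h1 : P.subgroupOf (Subgroup.centralizer ({x} : Set G)) ≤ Db :=
    Helper16.normal_pSubgroup_le_defectGroup hM _ hP' hb hDb
  have h2 : Db ≤ P.subgroupOf (Subgroup.centralizer ({x} : Set G)) := by
    obtain ⟨g, hg⟩ := Helper16.induced_defect_conjLE hM _ hind hDb hD
    intro d hd
    rw [Subgroup.mem_subgroupOf]
    have h3 := hg (d : G) (Subgroup.mem_map.mpr ⟨d, hd, rfl⟩)
    have h4 := hPn.conj_mem _ h3 g⁻¹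
    have h5 : g⁻¹ * (g * (d : G) * g⁻¹) * g⁻¹⁻¹ = (d : G) := by group
    rwa [h5] at h4
  have hDb' : Cfsg.IsDefectGroup p M b (P.subgroupOf (Subgroup.centralizer ({x} : Set G))) := by
    rw [le_antisymm h1 h2]
    exact hDb
  have hsup : P.subgroupOf (Subgroup.centralizer ({x} : Set G)) ⊔
      Subgroup.centralizer ((P.subgroupOf (Subgroup.centralizer ({x} : Set G)) :
        Subgroup (Subgroup.centralizer ({x} : Set G))) : Set (Subgroup.centralizer ({x} : Set G)))
      = ⊤ := by
    rw [eq_top_iff]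
    intro h _
    obtain ⟨a, ha, c, hc, hac⟩ := Helper76.exists_mul_of_sup_eq_top hcomm hG (h : G)
    have hcH : c ∈ Subgroup.centralizer ({x} : Set G) := hCH hc
    have haH : a ∈ Subgroup.centralizer ({x} : Set G) := by
      have h3 : a = (h : G) * c⁻¹ := by rw [hac]; group
      rw [h3]
      exact mul_mem h.2 (inv_mem hcH)
    have e : h = (⟨a, haH⟩ : Subgroup.centralizer ({x} : Set G)) * ⟨c, hcH⟩ := Subtype.ext hac
    rw [e]
    refine Subgroup.mul_mem_sup ?_ ?_
    · rw [Subgroup.mem_subgroupOf]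
      exact ha
    · rw [Subgroup.mem_centralizer_iff]
      intro y hy
      apply Subtype.ext
      exact Subgroup.mem_centralizer_iff.mp hc (y : G) (Subgroup.mem_subgroupOf.mp hy)
  exact (canonical_character hM _ hP' hsup hb hDb').2.2

/-- **Number of characters.** A block of `G = P C_G(P)` with defect group `P` has exactly as many
irreducible characters as `P` has conjugacy classes. -/
theorem card_block_eq_card_conjClasses (hM : Cfsg.IsPModular p M) (P : Subgroup G)
    (hP : IsPGroup p P) (hG : P ⊔ Subgroup.centralizer (P : Set G) = ⊤)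
    {B : Set (Cfsg.IrrCharacter G)} (hB : Cfsg.IsPBlock M B)
    (hD : Cfsg.IsDefectGroup p M B P) : Nat.card B = Nat.card (ConjClasses P) := by
  classical
  have hp : p.Prime := Fact.out
  have hMm := hM.2.1
  have hcomm := commute_of_mem_centralizer' P
  haveI hPn : P.Normal := Helper76.normal_of_commute_sup hcomm hG
  obtain ⟨X, -, hX, hXrep⟩ := Helper82.exists_pElement_reps p (1 : G)
    ⟨0, by rw [orderOf_one, pow_zero]⟩
  rw [Helper82.card_block_eq_sum_ranks p M hM B hB X hX hXrep]
  have hterm : ∀ x ∈ X, (∑ᶠ b ∈ {b : Set (Cfsg.IrrCharacter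
      ↥(Subgroup.centralizer ({x} : Set G))) |
      Cfsg.IsInducedBlock M (Subgroup.centralizer ({x} : Set G)) b B}, Cfsg.blockRank p b)
      = if x ∈ P then 1 else 0 := by
    intro x hxX
    haveI : Fintype (Subgroup.centralizer ({x} : Set G)) := Fintype.ofFinite _
    by_cases hxP : x ∈ P
    · rw [if_pos hxP]
      have hxx : x ∈ Subgroup.centralizer ({x} : Set G) := by
        rw [Subgroup.mem_centralizer_iff]
        intro h hh
        rw [Set.mem_singleton_iff] at hh
        rw [hh]
      have hQH : Subgroup.zpowers x ≤ Subgroup.centralizer ({x} : Set G) := by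
        rw [Subgroup.zpowers_le]
        exact hxx
      have hCQ : Subgroup.centralizer ((Subgroup.zpowers x : Subgroup G) : Set G)
          ≤ Subgroup.centralizer ({x} : Set G) := by
        apply Subgroup.centralizer_le
        intro y hy
        rw [Set.mem_singleton_iff] at hy
        rw [hy]
        exact Subgroup.mem_zpowers x
      have hHC : Subgroup.centralizer ({x} : Set G)
          ≤ Subgroup.centralizer ((Subgroup.zpowers x : Subgroup G) : Set G) := by
        rw [Subgroup.le_centralizer_iff, Subgroup.zpowers_le, Subgroup.mem_centralizer_iff]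
        intro h hh
        have := Subgroup.mem_centralizer_iff.mp hh x rfl
        exact this.symm
      have hHN : Subgroup.centralizer ({x} : Set G)
          ≤ Subgroup.normalizer ((Subgroup.zpowers x : Subgroup G) : Set G) :=
        hHC.trans (Subgroup.centralizer_le_normalizer _)
      have hQp : IsPGroup p (Subgroup.zpowers x) := by
        obtain ⟨k, hk⟩ := hX x hxX
        exact IsPGroup.of_card (n := k) (by rw [Nat.card_zpowers, hk])
      obtain ⟨b₀, hb₀⟩ := Helper16.exists_isInducedBlock_of_conjLE hM (Subgroup.zpowers x)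
        (Subgroup.centralizer ({x} : Set G)) hQp hQH hCQ hHN hB hD
        (Helper16.ConjLE.of_le (by rw [Subgroup.zpowers_le]; exact hxP))
      have hset : {b : Set (Cfsg.IrrCharacter ↥(Subgroup.centralizer ({x} : Set G))) |
          Cfsg.IsInducedBlock M (Subgroup.centralizer ({x} : Set G)) b B} = {b₀} := by
        ext b
        constructor
        · intro hb
          exact isInducedBlock_source_unique hM _ (fusion_pRegular_of_sup_eq_top P hP hG _
            (centralizer_le_centralizer_singleton P hxP)) hb hb₀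
        · intro hb
          rw [Set.mem_singleton_iff] at hb
          rw [hb]
          exact hb₀
      rw [hset, finsum_mem_singleton]
      exact blockRank_eq_one_of_isInducedBlock_centralizer hM P hP hG hD x hxP hb₀
    · rw [if_neg hxP]
      have hset : {b : Set (Cfsg.IrrCharacter ↥(Subgroup.centralizer ({x} : Set G))) |
          Cfsg.IsInducedBlock M (Subgroup.centralizer ({x} : Set G)) b B} = ∅ := by
        ext b
        simp only [Set.mem_ofPred_eq, Set.mem_empty_iff_false, iff_false]
        intro hb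
        exact hxP (mem_of_isInducedBlock_centralizer hM P hD x (hX x hxX) hb)
      rw [hset, finsum_mem_empty]
  rw [Finset.sum_congr rfl hterm, Finset.sum_boole, Nat.cast_id]
  -- the representatives lying in `P` correspond to the classes of `P`
  have hPel : ∀ y : P, ∃ k : ℕ, orderOf (y : G) = p ^ k := by
    intro y
    obtain ⟨k, hk⟩ := hP y
    have h1 : orderOf y ∣ p ^ k := orderOf_dvd_of_pow_eq_one hk
    obtain ⟨j, -, hj⟩ := (Nat.dvd_prime_pow hp).mp h1
    exact ⟨j, by rw [Subgroup.orderOf_coe, hj]⟩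
  rw [← Fintype.card_coe, ← Nat.card_eq_fintype_card]
  refine Nat.card_congr (Equiv.ofBijective
    (fun x : {x // x ∈ X.filter (fun x => x ∈ P)} =>
      (ConjClasses.mk (⟨(x : G), (Finset.mem_filter.mp x.2).2⟩ : P) : ConjClasses P)) ⟨?_, ?_⟩)
  · intro x x' hxx'
    have h1 : IsConj (⟨(x : G), (Finset.mem_filter.mp x.2).2⟩ : P)
        ⟨(x' : G), (Finset.mem_filter.mp x'.2).2⟩ := ConjClasses.mk_eq_mk_iff_isConj.mp hxx'
    have h2 : IsConj (x : G) (x' : G) := P.subtype.map_isConj h1
    obtain ⟨u, -, hu⟩ := hXrep (x : G) (hX _ (Finset.mem_filter.mp x.2).1)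
    have e1 := hu (x : G) ⟨(Finset.mem_filter.mp x.2).1, IsConj.refl _⟩
    have e2 := hu (x' : G) ⟨(Finset.mem_filter.mp x'.2).1, h2⟩
    exact Subtype.ext (e1.trans e2.symm)
  · intro c
    obtain ⟨y, rfl⟩ := ConjClasses.mk_surjective c
    obtain ⟨u, ⟨huX, huc⟩, -⟩ := hXrep (y : G) (hPel y)
    obtain ⟨g, hg⟩ := isConj_iff.mp huc
    obtain ⟨a, ha, c', hc', rfl⟩ := Helper76.exists_mul_of_sup_eq_top hcomm hG g
    have h1 : a * (y : G) * a⁻¹ = u := by
      rw [← hg]
      have h2 : c' * (y : G) = (y : G) * c' := (hcomm (y : G) y.2 c' hc').symm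
      calc a * (y : G) * a⁻¹ = a * ((y : G) * c') * c'⁻¹ * a⁻¹ := by group
        _ = a * (c' * (y : G)) * c'⁻¹ * a⁻¹ := by rw [h2]
        _ = a * c' * (y : G) * (a * c')⁻¹ := by group
    have huP : u ∈ P := by
      rw [← h1]
      exact mul_mem (mul_mem ha y.2) (inv_mem ha)
    refine ⟨⟨u, Finset.mem_filter.mpr ⟨huX, huP⟩⟩, ?_⟩
    apply ConjClasses.mk_eq_mk_iff_isConj.mpr
    exact isConj_iff.mpr ⟨⟨a, ha⟩, Subtype.ext (by
      show a * (y : G) * a⁻¹ = u
      exact h1)⟩ |>.symm

end canonCount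

end Cfsg.Agent.Helper75
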