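import Cfsg.Agent.Helper75.CanonCount
import Cfsg.Agent.Helper75.Clifford
import Cfsg.Agent.Helper81.SectionSum
import Cfsg.Agent.Helper16.Zeros
import Cfsg.Agent.Helper16.PPart
import Cfsg.Agent.Helper3.Induced
import Cfsg.Agent.Helper80.CharOrtho

/-!
# Blocks of `G = P C_G(P)` with defect group `P`: the shape of the characters

`χ` the canonical character of the block `B`.

* `sum_eq_sum_pPart_mul`: a sum over `G` of a function vanishing off the elements with `p`-part
  in `P` is a double sum over `P` and the `p`-regular elements.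
* `irr_eq_zero_of_pPart_not_mem_normal`: characters of `B` vanish off those elements.
* `irr_mul_pRegular_eq`: `ψ (y s) = ψ y χ s / χ 1` for `ψ ∈ B`, `y ∈ P`, `s` `p`-regular.
* `exists_irr_form`: `ψ (y s) = ζ y χ s` for an irreducible character `ζ` of `P`.
* `exists_mem_block_form`: every irreducible character `ζ` of `P` occurs.
-/

set_option autoImplicit false
set_option linter.style.haveILetI false
open Cfsg

namespace Cfsg.Agent.Helper75

open scoped ComplexConjugate

universe u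

/-- Vectors with a rank one Gram matrix are proportional. -/
theorem eq_mul_of_gram {ι : Type*} (S : Finset ι) (v w : ι → ℂ) (a b K : ℂ) (hb : b ≠ 0)
    (hvv : ∑ i ∈ S, v i * conj (v i) = K * (a * conj a))
    (hvw : ∑ i ∈ S, v i * conj (w i) = K * (a * conj b))
    (hwv : ∑ i ∈ S, w i * conj (v i) = K * (b * conj a))
    (hww : ∑ i ∈ S, w i * conj (w i) = K * (b * conj b)) :
    ∀ i ∈ S, v i = a / b * w i := by
  have hb' : conj b ≠ 0 := (map_ne_zero _).mpr hb
  have hsum : ∑ i ∈ S, (v i - a / b * w i) * conj (v i - a / b * w i) = 0 := by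
    have h1 : ∀ i, (v i - a / b * w i) * conj (v i - a / b * w i)
        = v i * conj (v i) - conj (a / b) * (v i * conj (w i)) - a / b * (w i * conj (v i))
          + a / b * conj (a / b) * (w i * conj (w i)) := by
      intro i
      rw [map_sub, map_mul]
      ring
    rw [Finset.sum_congr rfl (fun i _ => h1 i), Finset.sum_add_distrib, Finset.sum_sub_distrib,
      Finset.sum_sub_distrib, ← Finset.mul_sum, ← Finset.mul_sum, ← Finset.mul_sum, hvv, hvw,
      hwv, hww, map_div₀]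
    field_simp
    ring
  have hnn : ∀ i ∈ S, (0 : ℝ) ≤ Complex.normSq (v i - a / b * w i) :=
    fun i _ => Complex.normSq_nonneg _
  have hreal : ∑ i ∈ S, Complex.normSq (v i - a / b * w i) = 0 := by
    have h2 : ((∑ i ∈ S, Complex.normSq (v i - a / b * w i) : ℝ) : ℂ) = 0 := by
      rw [Complex.ofReal_sum, ← hsum]
      exact Finset.sum_congr rfl (fun i _ => (Complex.mul_conj _).symm)
    exact_mod_cast h2
  intro i hi
  have h3 := (Finset.sum_eq_zero_iff_of_nonneg hnn).mp hreal i hi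
  have h4 := Complex.normSq_eq_zero.mp h3
  exact sub_eq_zero.mp h4

section canonForm

variable {G : Type u} [Group G] [Fintype G] {p : ℕ} [Fact p.Prime] {M : Ideal Cfsg.AlgInt}

omit [Fintype G] in
theorem isPPart_mul_of_mem (P : Subgroup G) (hP : IsPGroup p P)
    (hcent : ∀ g : G, ¬ p ∣ orderOf g → g ∈ Subgroup.centralizer (P : Set G)) (y : P) {s : G}
    (hs : ¬ p ∣ orderOf s) : Cfsg.IsPPart p ((y : G) * s) (y : G) := by
  refine ⟨s, rfl, ?_, ?_, hs⟩
  · exact Subgroup.mem_centralizer_iff.mp (hcent s hs) (y : G) y.2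
  · obtain ⟨k, hk⟩ := hP y
    have h1 : orderOf y ∣ p ^ k := orderOf_dvd_of_pow_eq_one hk
    obtain ⟨j, -, hj⟩ := (Nat.dvd_prime_pow Fact.out).mp h1
    exact ⟨j, by rw [Subgroup.orderOf_coe, hj]⟩

/-- A sum over `G` of a function vanishing off the elements with `p`-part in `P`, as a double
sum over `P` and the `p`-regular elements (which centralize `P`). -/
theorem sum_eq_sum_pPart_mul (P : Subgroup G) [Fintype P] (hP : IsPGroup p P)
    (hcent : ∀ g : G, ¬ p ∣ orderOf g → g ∈ Subgroup.centralizer (P : Set G)) (f : G → ℂ)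
    (hf : ∀ g : G, (∀ y : G, Cfsg.IsPPart p g y → y ∉ P) → f g = 0) :
    ∑ g : G, f g = ∑ y : P, ∑ s : G, if ¬ p ∣ orderOf s then f ((y : G) * s) else 0 := by
  classical
  have h1 : ∀ y : P, (∑ s : G, if ¬ p ∣ orderOf s then f ((y : G) * s) else 0)
      = ∑ s ∈ Finset.univ.filter (fun s : G => ¬ p ∣ orderOf s), f ((y : G) * s) :=
    fun y => (Finset.sum_filter _ _).symm
  have h2 : ∑ y : P, ∑ s : G, (if ¬ p ∣ orderOf s then f ((y : G) * s) else 0)
      = ∑ q ∈ (Finset.univ : Finset P) ×ˢ Finset.univ.filter (fun s : G => ¬ p ∣ orderOf s),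
        f ((q.1 : G) * q.2) := by
    rw [Finset.sum_product' (Finset.univ : Finset P)
      (Finset.univ.filter (fun s : G => ¬ p ∣ orderOf s)) (fun y s => f ((y : G) * s))]
    exact Finset.sum_congr rfl (fun y _ => h1 y)
  have hinj : ∀ q ∈ (Finset.univ : Finset P) ×ˢ Finset.univ.filter (fun s : G => ¬ p ∣ orderOf s),
      ∀ q' ∈ (Finset.univ : Finset P) ×ˢ Finset.univ.filter (fun s : G => ¬ p ∣ orderOf s),
      (q.1 : G) * q.2 = (q'.1 : G) * q'.2 → q = q' := by
    rintro ⟨y, s⟩ hq ⟨y', s'⟩ hq' heq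
    have hs : ¬ p ∣ orderOf s := (Finset.mem_filter.mp (Finset.mem_product.mp hq).2).2
    have hs' : ¬ p ∣ orderOf s' := (Finset.mem_filter.mp (Finset.mem_product.mp hq').2).2
    have e1 := isPPart_mul_of_mem P hP hcent y hs
    have e2 := isPPart_mul_of_mem P hP hcent y' hs'
    have heq' : (y : G) * s = (y' : G) * s' := heq
    rw [← heq'] at e2
    have hyy : (y : G) = (y' : G) := Helper16.isPPart_unique e1 e2
    have hss : s = s' := by
      rw [hyy] at heq'
      exact mul_left_cancel heq'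
    have hyy' : y = y' := Subtype.ext hyy
    rw [hyy', hss]
  rw [h2, ← Finset.sum_image (f := f) hinj]
  symm
  apply Finset.sum_subset (Finset.subset_univ _)
  intro g _ hg
  apply hf
  intro y hy hyP
  apply hg
  obtain ⟨t, ht, -, -, htp⟩ := hy
  rw [Finset.mem_image]
  exact ⟨(⟨y, hyP⟩, t), Finset.mem_product.mpr ⟨Finset.mem_univ _,
    Finset.mem_filter.mpr ⟨Finset.mem_univ _, htp⟩⟩, ht⟩

/-- Characters of a block with a normal defect group `P` vanish at the elements whose `p`-part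
is not in `P`. -/
theorem irr_eq_zero_of_pPart_not_mem_normal (hM : Cfsg.IsPModular p M) (P : Subgroup G)
    [hPn : P.Normal] {B : Set (Cfsg.IrrCharacter G)} (hB : Cfsg.IsPBlock M B)
    (hD : Cfsg.IsDefectGroup p M B P) (ψ : Cfsg.IrrCharacter G) (hψ : ψ ∈ B) (g : G)
    (h : ∀ y : G, Cfsg.IsPPart p g y → y ∉ P) : (ψ : G → ℂ) g = 0 := by
  obtain ⟨x, hx⟩ := Helper16.exists_isPPart p g (orderOf_pos g)
  refine Helper16.irr_eq_zero_of_pPart_not_mem_defectGroup hM ψ hx ?_
  intro D' hD' hxD'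
  rw [← Helper16.eq_blockOf_of_mem hM.2.1 hB hψ] at hD'
  obtain ⟨a, ha⟩ := Helper16.isDefectGroup_conjLE hM hB hD' hD
  have h1 := ha x hxD'
  have h2 := hPn.conj_mem _ h1 a⁻¹
  have h3 : a⁻¹ * (a * x * a⁻¹) * a⁻¹⁻¹ = x := by group
  rw [h3] at h2
  exact h x hx h2

/-- For `x ∈ P` (a defect group of `B`) some block of `C_G(x)` induces `B`. -/
theorem exists_isInducedBlock_centralizer_of_mem (hM : Cfsg.IsPModular p M) (P : Subgroup G)
    (hP : IsPGroup p P) {B : Set (Cfsg.IrrCharacter G)} (hB : Cfsg.IsPBlock M B)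
    (hD : Cfsg.IsDefectGroup p M B P) (x : G) (hxP : x ∈ P)
    [Fintype (Subgroup.centralizer ({x} : Set G))] :
    ∃ b : Set (Cfsg.IrrCharacter (Subgroup.centralizer ({x} : Set G))),
      Cfsg.IsInducedBlock M (Subgroup.centralizer ({x} : Set G)) b B := by
  have hxx : x ∈ Subgroup.centralizer ({x} : Set G) := by
    rw [Subgroup.mem_centralizer_iff]
    intro h hh
    rw [Set.mem_singleton_iff] at hh
    rw [hh]
  have hQH : Subgroup.zpowers x ≤ Subgroup.centralizer ({x} : Set G) := by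
    rw [Subgroup.zpowers_le]
    exact hxx
  have hCQ : Subgroup.centralizer ((Subgroup.zpowers x : Subgroup G) : Set G)
      ≤ Subgroup.centralizer ({x} : Set G) := by
    apply Subgroup.centralizer_le
    intro y hy
    rw [Set.mem_singleton_iff] at hy
    rw [hy]
    exact Subgroup.mem_zpowers x
  have hHC : Subgroup.centralizer ({x} : Set G)
      ≤ Subgroup.centralizer ((Subgroup.zpowers x : Subgroup G) : Set G) := by
    rw [Subgroup.le_centralizer_iff, Subgroup.zpowers_le, Subgroup.mem_centralizer_iff]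
    intro h hh
    have := Subgroup.mem_centralizer_iff.mp hh x rfl
    exact this.symm
  have hHN : Subgroup.centralizer ({x} : Set G)
      ≤ Subgroup.normalizer ((Subgroup.zpowers x : Subgroup G) : Set G) :=
    hHC.trans (Subgroup.centralizer_le_normalizer _)
  have hQp : IsPGroup p (Subgroup.zpowers x) :=
    hP.to_le (by rw [Subgroup.zpowers_le]; exact hxP)
  exact Helper16.exists_isInducedBlock_of_conjLE hM (Subgroup.zpowers x)
    (Subgroup.centralizer ({x} : Set G)) hQp hQH hCQ hHN hB hD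
    (Helper16.ConjLE.of_le (by rw [Subgroup.zpowers_le]; exact hxP))

/-- **Section formula.** In a block `B` of `G = P C_G(P)` with defect group `P` and canonical
character `χ`: `ψ (y s) = ψ y χ s / χ 1` for `ψ ∈ B`, `y ∈ P` and `s` of order prime to `p`. -/
theorem irr_mul_pRegular_eq (hM : Cfsg.IsPModular p M) (P : Subgroup G) (hP : IsPGroup p P)
    (hG : P ⊔ Subgroup.centralizer (P : Set G) = ⊤)
    {B : Set (Cfsg.IrrCharacter G)} (hB : Cfsg.IsPBlock M B)
    (hD : Cfsg.IsDefectGroup p M B P) (χ : Cfsg.IrrCharacter G) (hχ : χ ∈ B)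
    (hχP : ∀ x ∈ P, (χ : G → ℂ) x = (χ : G → ℂ) 1) (ψ : Cfsg.IrrCharacter G) (hψ : ψ ∈ B)
    (y : G) (hy : y ∈ P) (s : G) (hs : ¬ p ∣ orderOf s) :
    (ψ : G → ℂ) (y * s) = (ψ : G → ℂ) y * (χ : G → ℂ) s / (χ : G → ℂ) 1 := by
  classical
  have hp : p.Prime := Fact.out
  have hMm := hM.2.1
  have hcomm := commute_of_mem_centralizer' P
  haveI hPn : P.Normal := Helper76.normal_of_commute_sup hcomm hG
  have hC := index_centralizer_of_sup_eq_top P hP hG
  have hsC : s ∈ Subgroup.centralizer (P : Set G) := Helper81.mem_centralizer_of_pRegular P hC hs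
  haveI : Fintype (Subgroup.centralizer ({y} : Set G)) := Fintype.ofFinite _
  have hCH := centralizer_le_centralizer_singleton P hy
  obtain ⟨b, hb⟩ := exists_isInducedBlock_centralizer_of_mem hM P hP hB hD y hy
  have huniq : ∀ b' : Set (Cfsg.IrrCharacter (Subgroup.centralizer ({y} : Set G))),
      Cfsg.IsInducedBlock M (Subgroup.centralizer ({y} : Set G)) b' B → b' = b :=
    fun b' hb' => isInducedBlock_source_unique hM _
      (fusion_pRegular_of_sup_eq_top P hP hG _ hCH) hb' hb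
  have hrank := blockRank_eq_one_of_isInducedBlock_centralizer hM P hP hG hD y hy hb
  obtain ⟨ξ₀, hξ₀⟩ := Helper16.exists_mem_of_isPBlock hMm hb.1
  have hone : ¬ p ∣ orderOf (1 : Subgroup.centralizer ({y} : Set G)) := by
    rw [orderOf_one, Nat.dvd_one]
    exact hp.one_lt.ne'
  -- proportionality inside `b`
  have hprop : ∀ ξ ∈ b, ∃ c : ℂ, ∀ t : Subgroup.centralizer ({y} : Set G), ¬ p ∣ orderOf t →
      (ξ : Subgroup.centralizer ({y} : Set G) → ℂ) t
        = c * (ξ₀ : Subgroup.centralizer ({y} : Set G) → ℂ) t := by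
    intro ξ hξ
    unfold Cfsg.blockRank at hrank
    have hmem₀ : Cfsg.pRegularPart p (ξ₀ : Subgroup.centralizer ({y} : Set G) → ℂ)
        ∈ Submodule.span ℂ ((fun χ : Cfsg.IrrCharacter (Subgroup.centralizer ({y} : Set G)) =>
          Cfsg.pRegularPart p (χ : Subgroup.centralizer ({y} : Set G) → ℂ)) '' b) :=
      Submodule.subset_span ⟨ξ₀, hξ₀, rfl⟩
    have hmem : Cfsg.pRegularPart p (ξ : Subgroup.centralizer ({y} : Set G) → ℂ)
        ∈ Submodule.span ℂ ((fun χ : Cfsg.IrrCharacter (Subgroup.centralizer ({y} : Set G)) =>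
          Cfsg.pRegularPart p (χ : Subgroup.centralizer ({y} : Set G) → ℂ)) '' b) :=
      Submodule.subset_span ⟨ξ, hξ, rfl⟩
    have hne : (⟨_, hmem₀⟩ : ↥(Submodule.span ℂ
        ((fun χ : Cfsg.IrrCharacter (Subgroup.centralizer ({y} : Set G)) =>
          Cfsg.pRegularPart p (χ : Subgroup.centralizer ({y} : Set G) → ℂ)) '' b))) ≠ 0 := by
      intro h0
      have h1 : Cfsg.pRegularPart p (ξ₀ : Subgroup.centralizer ({y} : Set G) → ℂ) 1 = 0 :=
        congrFun (congrArg Subtype.val h0) 1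
      rw [Helper77.pRegularPart_apply, if_pos hone] at h1
      exact Helper81.irr_one_ne_zero ξ₀ h1
    obtain ⟨c, hc⟩ := (finrank_eq_one_iff_of_nonzero' _ hne).mp hrank ⟨_, hmem⟩
    refine ⟨c, fun t ht => ?_⟩
    have h1 := congrFun (congrArg Subtype.val hc) t
    have h2 : c * Cfsg.pRegularPart p (ξ₀ : Subgroup.centralizer ({y} : Set G) → ℂ) t
        = Cfsg.pRegularPart p (ξ : Subgroup.centralizer ({y} : Set G) → ℂ) t := h1
    rw [Helper77.pRegularPart_apply, Helper77.pRegularPart_apply, if_pos ht, if_pos ht] at h2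
    exact h2.symm
  choose! d hd using hprop
  have hyp : ∃ k : ℕ, orderOf y = p ^ k := by
    obtain ⟨k, hk⟩ := hP ⟨y, hy⟩
    have h1 : orderOf (⟨y, hy⟩ : P) ∣ p ^ k := orderOf_dvd_of_pow_eq_one hk
    obtain ⟨j, -, hj⟩ := (Nat.dvd_prime_pow hp).mp h1
    exact ⟨j, by rw [← hj, ← Subgroup.orderOf_coe]⟩
  have hgram : ∀ (t t' : Subgroup.centralizer ({y} : Set G)), ¬ p ∣ orderOf t →
      ¬ p ∣ orderOf t' →
      ∑ ζ ∈ (Set.toFinite B).toFinset, (ζ : G → ℂ) (y * (t : G)) * conj ((ζ : G → ℂ) (y * (t' : G)))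
        = (∑ ξ ∈ (Set.toFinite b).toFinset, d ξ * conj (d ξ)) *
          ((ξ₀ : Subgroup.centralizer ({y} : Set G) → ℂ) t
            * conj ((ξ₀ : Subgroup.centralizer ({y} : Set G) → ℂ) t')) := by
    intro t t' ht ht'
    rw [← finsum_mem_eq_finite_toFinset_sum _ (Set.toFinite B),
      Helper81.sum_block_section hM y hyp hb huniq t t' ht ht',
      finsum_mem_eq_finite_toFinset_sum _ (Set.toFinite b), Finset.sum_mul]
    refine Finset.sum_congr rfl (fun ξ hξ => ?_)
    have hξb : ξ ∈ b := (Set.Finite.mem_toFinset _).mp hξ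
    rw [hd ξ hξb t ht, hd ξ hξb t' ht', map_mul]
    ring
  have hsH : s ∈ Subgroup.centralizer ({y} : Set G) := hCH hsC
  have hsp : ¬ p ∣ orderOf (⟨s, hsH⟩ : Subgroup.centralizer ({y} : Set G)) := by
    rw [← Subgroup.orderOf_coe]
    exact hs
  have hξ1 : (ξ₀ : Subgroup.centralizer ({y} : Set G) → ℂ) 1 ≠ 0 := Helper81.irr_one_ne_zero ξ₀
  have hmain := eq_mul_of_gram (Set.toFinite B).toFinset
    (fun ζ : Cfsg.IrrCharacter G => (ζ : G → ℂ) (y * s))
    (fun ζ : Cfsg.IrrCharacter G => (ζ : G → ℂ) (y * 1))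
    ((ξ₀ : Subgroup.centralizer ({y} : Set G) → ℂ) ⟨s, hsH⟩)
    ((ξ₀ : Subgroup.centralizer ({y} : Set G) → ℂ) 1)
    (∑ ξ ∈ (Set.toFinite b).toFinset, d ξ * conj (d ξ)) hξ1
    (hgram ⟨s, hsH⟩ ⟨s, hsH⟩ hsp hsp) (hgram ⟨s, hsH⟩ 1 hsp hone) (hgram 1 ⟨s, hsH⟩ hone hsp)
    (hgram 1 1 hone hone)
  have hχm := hmain χ ((Set.Finite.mem_toFinset _).mpr hχ)
  have hψm := hmain ψ ((Set.Finite.mem_toFinset _).mpr hψ)
  simp only [mul_one] at hχm hψm
  -- `χ (y s) = χ s`
  obtain ⟨ψbar, -, hψbar⟩ := Helper79.exists_irr_deflation P χ.2 hχP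
  have hχys : (χ : G → ℂ) (y * s) = (χ : G → ℂ) s := by
    rw [← hψbar, ← hψbar]
    congr 1
    rw [QuotientGroup.eq]
    have h1 := hPn.conj_mem _ (inv_mem hy) s⁻¹
    have h2 : (y * s)⁻¹ * s = s⁻¹ * y⁻¹ * s⁻¹⁻¹ := by group
    rw [h2]
    exact h1
  have hχ1 : (χ : G → ℂ) 1 ≠ 0 := Helper81.irr_one_ne_zero χ
  rw [hχys, hχP y hy] at hχm
  have hratio : (ξ₀ : Subgroup.centralizer ({y} : Set G) → ℂ) ⟨s, hsH⟩
      / (ξ₀ : Subgroup.centralizer ({y} : Set G) → ℂ) 1 = (χ : G → ℂ) s / (χ : G → ℂ) 1 := by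
    rw [eq_div_iff hχ1]
    exact hχm.symm
  rw [hψm, hratio]
  ring

end canonForm

end Cfsg.Agent.Helper75
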