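import Cfsg.Agent.Helper75.CanonForm

/-!
# Blocks of `G = P C_G(P)` with defect group `P`: the shape of the characters, II

* `exists_irr_res_eq_mul`: the restriction to `P` of an irreducible character of `G = P C_G(P)`
  is a multiple of a single irreducible character of `P`.
* `card_mul_sum_pRegular_canonical`: `|P| ∑_{s p-regular} |χ s|² = |G|` for the canonical `χ`.
* `exists_irr_form`: `ψ (y s) = ζ y χ s` for `ψ ∈ B`, with `ζ` an irreducible character of `P`.
* `mem_block_of_form`, `exists_mem_block_form`: converse, and every `ζ` occurs.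
-/

set_option autoImplicit false
set_option linter.style.haveILetI false
open Cfsg

namespace Cfsg.Agent.Helper75

open scoped ComplexConjugate

universe u

section canonForm2

variable {G : Type u} [Group G] [Fintype G] {p : ℕ} [Fact p.Prime] {M : Ideal Cfsg.AlgInt}

/-- In `G = P C_G(P)` the restriction to `P` of an irreducible character is a multiple of one
irreducible character of `P`. -/
theorem exists_irr_res_eq_mul (P : Subgroup G)
    (hG : P ⊔ Subgroup.centralizer (P : Set G) = ⊤) (ψ : Cfsg.IrrCharacter G) :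
    ∃ (η : Cfsg.IrrCharacter P) (e : ℂ), ∀ y : P, (ψ : G → ℂ) y = e * (η : P → ℂ) y := by
  classical
  haveI : Fintype P := Fintype.ofFinite _
  haveI : Fintype (Cfsg.IrrCharacter P) := Fintype.ofFinite _
  have hcomm := commute_of_mem_centralizer' P
  haveI hPn : P.Normal := Helper76.normal_of_commute_sup hcomm hG
  have hcl : Cfsg.IsClassFunction P (fun y : P => (ψ : G → ℂ) y) := by
    intro y h
    exact Helper81.irr_conj ψ (y : G) (h : G)
  have hexp := Helper3.classFunction_eq_sum (fun y : P => (ψ : G → ℂ) y) hcl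
  have hone : ∀ η η' : Cfsg.IrrCharacter P,
      Cfsg.classInner (fun y : P => (ψ : G → ℂ) y) (η : P → ℂ) ≠ 0 →
      Cfsg.classInner (fun y : P => (ψ : G → ℂ) y) (η' : P → ℂ) ≠ 0 → η = η' := by
    intro η η' h h'
    obtain ⟨g, hg⟩ := clifford_irrCharacter P (ψ : G → ℂ) ψ.2 (η : P → ℂ) (η' : P → ℂ) η.2 η'.2 h h'
    obtain ⟨a, ha, c, hc, rfl⟩ := Helper76.exists_mul_of_sup_eq_top hcomm hG g
    apply Subtype.ext
    funext n
    rw [hg n]
    have h1 : MulAut.conjNormal (a * c) n = (⟨a, ha⟩ : P) * n * (⟨a, ha⟩ : P)⁻¹ := by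
      apply Subtype.ext
      rw [MulAut.conjNormal_apply]
      show a * c * (n : G) * (a * c)⁻¹ = a * (n : G) * a⁻¹
      have h2 : c * (n : G) = (n : G) * c := (hcomm (n : G) n.2 c hc).symm
      calc a * c * (n : G) * (a * c)⁻¹ = a * (c * (n : G)) * c⁻¹ * a⁻¹ := by group
        _ = a * ((n : G) * c) * c⁻¹ * a⁻¹ := by rw [h2]
        _ = a * (n : G) * a⁻¹ := by group
    rw [h1]
    exact Helper81.irr_conj η' n ⟨a, ha⟩
  by_cases hex : ∃ η : Cfsg.IrrCharacter P,
      Cfsg.classInner (fun y : P => (ψ : G → ℂ) y) (η : P → ℂ) ≠ 0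
  · obtain ⟨η₀, hη₀⟩ := hex
    refine ⟨η₀, Cfsg.classInner (fun y : P => (ψ : G → ℂ) y) (η₀ : P → ℂ), fun y => ?_⟩
    have h1 := congrFun hexp y
    rw [Finset.sum_apply, Finset.sum_eq_single η₀] at h1
    · exact h1
    · intro η _ hne
      have h2 : Cfsg.classInner (fun y : P => (ψ : G → ℂ) y) (η : P → ℂ) = 0 := by
        by_contra h
        exact hne (hone η η₀ h hη₀)
      rw [h2, zero_smul]
      rfl
    · intro h
      exact absurd (Finset.mem_univ _) h
  · exfalso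
    have hex' : ∀ η : Cfsg.IrrCharacter P,
        Cfsg.classInner (fun y : P => (ψ : G → ℂ) y) (η : P → ℂ) = 0 := by
      intro η
      by_contra h
      exact hex ⟨η, h⟩
    have h1 := congrFun hexp 1
    rw [Finset.sum_apply, Finset.sum_eq_zero (fun η _ => by rw [hex' η, zero_smul]; rfl)] at h1
    exact Helper81.irr_one_ne_zero ψ h1

theorem sum_irr_mul_conj_self (ψ : Cfsg.IrrCharacter G) :
    ∑ g : G, (ψ : G → ℂ) g * conj ((ψ : G → ℂ) g) = (Nat.card G : ℂ) := by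
  have h1 := Helper81.irr_orthonormal ψ ψ
  rw [if_pos rfl] at h1
  have hG : (Nat.card G : ℂ) ≠ 0 := by exact_mod_cast Nat.card_pos.ne'
  have h2 : ∑ g : G, (ψ : G → ℂ) g * conj ((ψ : G → ℂ) g)
      = ∑ g : G, (ψ : G → ℂ) g * (ψ : G → ℂ) g⁻¹ :=
    Finset.sum_congr rfl (fun g _ => by rw [Helper77.irr_inv])
  rw [h2]
  field_simp at h1
  exact h1

/-- `|P| ∑_{s p-regular} |χ s|² = |G|` for the canonical character `χ`. -/
theorem card_mul_sum_pRegular_canonical (hM : Cfsg.IsPModular p M) (P : Subgroup G)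
    (hP : IsPGroup p P) (hG : P ⊔ Subgroup.centralizer (P : Set G) = ⊤)
    {B : Set (Cfsg.IrrCharacter G)} (hB : Cfsg.IsPBlock M B)
    (hD : Cfsg.IsDefectGroup p M B P) (χ : Cfsg.IrrCharacter G) (hχ : χ ∈ B)
    (hχP : ∀ x ∈ P, (χ : G → ℂ) x = (χ : G → ℂ) 1) :
    (Nat.card P : ℂ) * ∑ s : G, (if ¬ p ∣ orderOf s then (χ : G → ℂ) s * conj ((χ : G → ℂ) s)
      else 0) = (Nat.card G : ℂ) := by
  classical
  haveI : Fintype P := Fintype.ofFinite _
  have hcomm := commute_of_mem_centralizer' P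
  haveI hPn : P.Normal := Helper76.normal_of_commute_sup hcomm hG
  have hC := index_centralizer_of_sup_eq_top P hP hG
  have hcent : ∀ g : G, ¬ p ∣ orderOf g → g ∈ Subgroup.centralizer (P : Set G) :=
    fun g hg => Helper81.mem_centralizer_of_pRegular P hC hg
  have hχ1 : (χ : G → ℂ) 1 ≠ 0 := Helper81.irr_one_ne_zero χ
  have h1 := sum_irr_mul_conj_self χ
  rw [sum_eq_sum_pPart_mul P hP hcent (fun g => (χ : G → ℂ) g * conj ((χ : G → ℂ) g))
    (fun g hg => by
      show (χ : G → ℂ) g * conj ((χ : G → ℂ) g) = 0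
      rw [irr_eq_zero_of_pPart_not_mem_normal hM P hB hD χ hχ g hg, zero_mul])] at h1
  have h2 : ∀ y : P, (∑ s : G, if ¬ p ∣ orderOf s then
      (fun g => (χ : G → ℂ) g * conj ((χ : G → ℂ) g)) ((y : G) * s) else 0)
      = ∑ s : G, (if ¬ p ∣ orderOf s then (χ : G → ℂ) s * conj ((χ : G → ℂ) s) else 0) := by
    intro y
    refine Finset.sum_congr rfl (fun s _ => ?_)
    by_cases hs : ¬ p ∣ orderOf s
    · rw [if_pos hs, if_pos hs]
      show (χ : G → ℂ) ((y : G) * s) * conj ((χ : G → ℂ) ((y : G) * s)) = _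
      rw [irr_mul_pRegular_eq hM P hP hG hB hD χ hχ hχP χ hχ (y : G) y.2 s hs, hχP (y : G) y.2]
      have h3 : (χ : G → ℂ) 1 * (χ : G → ℂ) s / (χ : G → ℂ) 1 = (χ : G → ℂ) s := by
        field_simp
      rw [h3]
    · rw [if_neg hs, if_neg hs]
  rw [Finset.sum_congr rfl (fun y _ => h2 y), Finset.sum_const, Finset.card_univ,
    nsmul_eq_mul, ← Nat.card_eq_fintype_card] at h1
  exact h1

/-- **Shape of the characters.** Every `ψ ∈ B` satisfies `ψ (y s) = ζ y χ s` for `y ∈ P` and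
`s` of order prime to `p`, for an irreducible character `ζ` of `P`. -/
theorem exists_irr_form (hM : Cfsg.IsPModular p M) (P : Subgroup G) (hP : IsPGroup p P)
    (hG : P ⊔ Subgroup.centralizer (P : Set G) = ⊤)
    {B : Set (Cfsg.IrrCharacter G)} (hB : Cfsg.IsPBlock M B)
    (hD : Cfsg.IsDefectGroup p M B P) (χ : Cfsg.IrrCharacter G) (hχ : χ ∈ B)
    (hχP : ∀ x ∈ P, (χ : G → ℂ) x = (χ : G → ℂ) 1) (ψ : Cfsg.IrrCharacter G) (hψ : ψ ∈ B) :
    ∃ ζ : Cfsg.IrrCharacter P, ∀ (y : P) (s : G), ¬ p ∣ orderOf s →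
      (ψ : G → ℂ) ((y : G) * s) = (ζ : P → ℂ) y * (χ : G → ℂ) s := by
  classical
  haveI : Fintype P := Fintype.ofFinite _
  have hcomm := commute_of_mem_centralizer' P
  haveI hPn : P.Normal := Helper76.normal_of_commute_sup hcomm hG
  have hC := index_centralizer_of_sup_eq_top P hP hG
  have hcent : ∀ g : G, ¬ p ∣ orderOf g → g ∈ Subgroup.centralizer (P : Set G) :=
    fun g hg => Helper81.mem_centralizer_of_pRegular P hC hg
  have hχ1 : (χ : G → ℂ) 1 ≠ 0 := Helper81.irr_one_ne_zero χ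
  obtain ⟨η, e, he⟩ := exists_irr_res_eq_mul P hG ψ
  have hform : ∀ (y : P) (s : G), ¬ p ∣ orderOf s →
      (ψ : G → ℂ) ((y : G) * s) = e * (η : P → ℂ) y * (χ : G → ℂ) s / (χ : G → ℂ) 1 := by
    intro y s hs
    rw [irr_mul_pRegular_eq hM P hP hG hB hD χ hχ hχP ψ hψ (y : G) y.2 s hs, he y]
  have hR := card_mul_sum_pRegular_canonical hM P hP hG hB hD χ hχ hχP
  obtain ⟨R, hRdef⟩ : ∃ R : ℂ, R = ∑ s : G, (if ¬ p ∣ orderOf s then
      (χ : G → ℂ) s * conj ((χ : G → ℂ) s) else 0) := ⟨_, rfl⟩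
  rw [← hRdef] at hR
  have h1 := sum_irr_mul_conj_self ψ
  rw [sum_eq_sum_pPart_mul P hP hcent (fun g => (ψ : G → ℂ) g * conj ((ψ : G → ℂ) g))
    (fun g hg => by
      show (ψ : G → ℂ) g * conj ((ψ : G → ℂ) g) = 0
      rw [irr_eq_zero_of_pPart_not_mem_normal hM P hB hD ψ hψ g hg, zero_mul])] at h1
  have h2 : ∀ y : P, (∑ s : G, if ¬ p ∣ orderOf s then
      (fun g => (ψ : G → ℂ) g * conj ((ψ : G → ℂ) g)) ((y : G) * s) else 0)
      = (e * conj e / ((χ : G → ℂ) 1 * conj ((χ : G → ℂ) 1))) *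
        ((η : P → ℂ) y * conj ((η : P → ℂ) y)) * R := by
    intro y
    rw [hRdef, Finset.mul_sum]
    refine Finset.sum_congr rfl (fun s _ => ?_)
    by_cases hs : ¬ p ∣ orderOf s
    · rw [if_pos hs, if_pos hs]
      show (ψ : G → ℂ) ((y : G) * s) * conj ((ψ : G → ℂ) ((y : G) * s)) = _
      rw [hform y s hs, map_div₀, map_mul, map_mul]
      have hχ1' : conj ((χ : G → ℂ) 1) ≠ 0 := (map_ne_zero _).mpr hχ1
      field_simp
    · rw [if_neg hs, if_neg hs, mul_zero]
  rw [Finset.sum_congr rfl (fun y _ => h2 y), ← Finset.sum_mul, ← Finset.mul_sum,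
    sum_irr_mul_conj_self η] at h1
  -- `e * conj e = χ 1 * conj (χ 1)`
  have hGne : (Nat.card G : ℂ) ≠ 0 := by exact_mod_cast Nat.card_pos.ne'
  have hχ1' : conj ((χ : G → ℂ) 1) ≠ 0 := (map_ne_zero _).mpr hχ1
  have h3 : e * conj e = (χ : G → ℂ) 1 * conj ((χ : G → ℂ) 1) := by
    have h4 : e * conj e / ((χ : G → ℂ) 1 * conj ((χ : G → ℂ) 1)) * (Nat.card G : ℂ)
        = (Nat.card G : ℂ) := by
      rw [← hR]
      rw [← hR] at h1
      linear_combination h1
    have h5 : e * conj e / ((χ : G → ℂ) 1 * conj ((χ : G → ℂ) 1)) = 1 := by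
      have h6 := mul_right_cancel₀ hGne (h4.trans (one_mul _).symm)
      exact h6
    rw [div_eq_one_iff_eq (mul_ne_zero hχ1 hχ1')] at h5
    exact h5
  -- `e` is a positive rational
  have he1 := he 1
  rw [Subgroup.coe_one, Helper81.irr_one_eq_charDegree ψ, Helper81.irr_one_eq_charDegree η] at he1
  have hη0 : (Cfsg.charDegree (η : P → ℂ) : ℂ) ≠ 0 := by
    exact_mod_cast (Helper81.charDegree_pos η).ne'
  have he2 : e = (Cfsg.charDegree (ψ : G → ℂ) : ℂ) / (Cfsg.charDegree (η : P → ℂ) : ℂ) := by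
    rw [eq_div_iff hη0]
    exact he1.symm
  have he3 : e = (χ : G → ℂ) 1 := by
    rw [Helper81.irr_one_eq_charDegree χ] at h3 ⊢
    rw [he2] at h3 ⊢
    rw [map_div₀, Complex.conj_natCast, Complex.conj_natCast, Complex.conj_natCast] at h3
    have h7 : (Cfsg.charDegree (ψ : G → ℂ) : ℂ) * (Cfsg.charDegree (ψ : G → ℂ) : ℂ)
        = ((Cfsg.charDegree (χ : G → ℂ) * Cfsg.charDegree (η : P → ℂ) : ℕ) : ℂ) *
          ((Cfsg.charDegree (χ : G → ℂ) * Cfsg.charDegree (η : P → ℂ) : ℕ) : ℂ) := by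
      push_cast
      field_simp at h3
      linear_combination h3
    have h8 : Cfsg.charDegree (ψ : G → ℂ) * Cfsg.charDegree (ψ : G → ℂ)
        = (Cfsg.charDegree (χ : G → ℂ) * Cfsg.charDegree (η : P → ℂ)) *
          (Cfsg.charDegree (χ : G → ℂ) * Cfsg.charDegree (η : P → ℂ)) := by
      exact_mod_cast h7
    have h9 : Cfsg.charDegree (ψ : G → ℂ)
        = Cfsg.charDegree (χ : G → ℂ) * Cfsg.charDegree (η : P → ℂ) :=
      Nat.mul_self_inj.mp h8
    rw [h9]
    push_cast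
    field_simp
  refine ⟨η, fun y s hs => ?_⟩
  rw [hform y s hs, he3]
  field_simp

/-- Converse: an irreducible character agreeing with `ζ 1 χ` on the `p`-regular elements lies in
`B`. -/
theorem mem_block_of_form (hM : Cfsg.IsPModular p M) (P : Subgroup G) (hP : IsPGroup p P)
    (hG : P ⊔ Subgroup.centralizer (P : Set G) = ⊤)
    {B : Set (Cfsg.IrrCharacter G)} (hB : Cfsg.IsPBlock M B)
    (hD : Cfsg.IsDefectGroup p M B P) (χ : Cfsg.IrrCharacter G) (hχ : χ ∈ B)
    (hχP : ∀ x ∈ P, (χ : G → ℂ) x = (χ : G → ℂ) 1) (θ : Cfsg.IrrCharacter G)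
    (ζ : Cfsg.IrrCharacter P)
    (h : ∀ s : G, ¬ p ∣ orderOf s → (θ : G → ℂ) s = (ζ : P → ℂ) 1 * (χ : G → ℂ) s) : θ ∈ B := by
  classical
  by_contra hθ
  have h1 := Helper77.pregInner_eq_zero hM hB hθ hχ
  have hR := card_mul_sum_pRegular_canonical hM P hP hG hB hD χ hχ hχP
  have h2 : Helper77.pregInner p (θ : G → ℂ) (χ : G → ℂ)
      = (ζ : P → ℂ) 1 * ∑ s : G, (if ¬ p ∣ orderOf s then
        (χ : G → ℂ) s * conj ((χ : G → ℂ) s) else 0) := by
    unfold Helper77.pregInner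
    rw [Finset.mul_sum]
    refine Finset.sum_congr rfl (fun s _ => ?_)
    by_cases hs : ¬ p ∣ orderOf s
    · rw [if_pos hs, if_pos hs, h s hs, mul_assoc]
    · rw [if_neg hs, if_neg hs, mul_zero]
  rw [h2] at h1
  have hGne : (Nat.card G : ℂ) ≠ 0 := by exact_mod_cast Nat.card_pos.ne'
  rcases mul_eq_zero.mp h1 with h3 | h3
  · exact Helper81.irr_one_ne_zero ζ h3
  · rw [h3, mul_zero] at hR
    exact hGne hR.symm

/-- Every irreducible character `ζ` of `P` occurs: some `θ ∈ B` has `θ (y s) = ζ y χ s`. -/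
theorem exists_mem_block_form (hM : Cfsg.IsPModular p M) (P : Subgroup G) (hP : IsPGroup p P)
    (hG : P ⊔ Subgroup.centralizer (P : Set G) = ⊤)
    {B : Set (Cfsg.IrrCharacter G)} (hB : Cfsg.IsPBlock M B)
    (hD : Cfsg.IsDefectGroup p M B P) (χ : Cfsg.IrrCharacter G) (hχ : χ ∈ B)
    (hχP : ∀ x ∈ P, (χ : G → ℂ) x = (χ : G → ℂ) 1) (ζ : Cfsg.IrrCharacter P) :
    ∃ θ ∈ B, ∀ (y : P) (s : G), ¬ p ∣ orderOf s →
      (θ : G → ℂ) ((y : G) * s) = (ζ : P → ℂ) y * (χ : G → ℂ) s := by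
  classical
  haveI : Fintype P := Fintype.ofFinite _
  haveI : Fintype (Cfsg.IrrCharacter P) := Fintype.ofFinite _
  have hcomm := commute_of_mem_centralizer' P
  haveI hPn : P.Normal := Helper76.normal_of_commute_sup hcomm hG
  have hex : ∀ ψ : B, ∃ ζ' : Cfsg.IrrCharacter P, ∀ (y : P) (s : G), ¬ p ∣ orderOf s →
      ((ψ : Cfsg.IrrCharacter G) : G → ℂ) ((y : G) * s) = (ζ' : P → ℂ) y * (χ : G → ℂ) s :=
    fun ψ => exists_irr_form hM P hP hG hB hD χ hχ hχP ψ.1 ψ.2
  choose f hf using hex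
  have hinj : Function.Injective f := by
    intro ψ ψ' hff
    apply Subtype.ext
    apply Subtype.ext
    funext g
    obtain ⟨x, hx⟩ := Helper16.exists_isPPart p g (orderOf_pos g)
    by_cases hxP : x ∈ P
    · obtain ⟨t, ht, -, -, htp⟩ := hx
      rw [← ht]
      have e1 := hf ψ ⟨x, hxP⟩ t htp
      have e2 := hf ψ' ⟨x, hxP⟩ t htp
      rw [hff] at e1
      exact e1.trans e2.symm
    · have hz : ∀ y : G, Cfsg.IsPPart p g y → y ∉ P := by
        intro y hy
        rw [Helper16.isPPart_unique hy hx]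
        exact hxP
      rw [irr_eq_zero_of_pPart_not_mem_normal hM P hB hD ψ.1 ψ.2 g hz,
        irr_eq_zero_of_pPart_not_mem_normal hM P hB hD ψ'.1 ψ'.2 g hz]
  have hcard : Nat.card (Cfsg.IrrCharacter P) ≤ Nat.card B := by
    rw [card_block_eq_card_conjClasses hM P hP hG hB hD, Nat.card_eq_fintype_card]
    exact le_of_eq (by convert Helper80.card_irr_eq_card_conjClasses (G := P))
  obtain ⟨ψ, hψ⟩ := (hinj.bijective_of_nat_card_le hcard).2 ζ
  exact ⟨ψ.1, ψ.2, by rw [← hψ]; exact hf ψ⟩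

end canonForm2

end Cfsg.Agent.Helper75
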