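import Cfsg.Agent.Helper75.Contrib3
import Cfsg.Agent.Helper75.GaloisMean

/-!
# Characters of height zero and subsections for `p = 2` (helper75)

`kzero_bound`: let `B` be a `2`-block of `G`, `u` a `2`-element, `b` a block of `C_G(u)` inducing
`B`, of defect `q` and `2`-regular rank `l`.  If `B₀` (the set of characters of height zero in
`B`) is nonempty there is an odd `t` with `|B₀| ≤ 2^q t` and `|B₀| t ≤ 2^q l`.

`kzero_arith`: the resulting bounds in terms of `⌊√l⌋`.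
-/

set_option autoImplicit false
open Cfsg
open scoped ComplexConjugate

namespace Cfsg.Agent.Helper75

universe u

theorem kzero_arith (k₀ l q t : ℕ) (ht : Odd t) (h1 : k₀ ≤ 2 ^ q * t)
    (h2 : k₀ * t ≤ 2 ^ q * l) :
    (Odd (Nat.sqrt l) → k₀ ≤ Nat.sqrt l * 2 ^ q) ∧
    (¬ Odd (Nat.sqrt l) → (Nat.sqrt l + 1) * k₀ ≤ l * 2 ^ q) ∧
    (l ≤ 3 → k₀ ≤ 2 ^ q) := by
  obtain ⟨s, hs⟩ : ∃ s, s = Nat.sqrt l := ⟨_, rfl⟩
  rw [← hs]
  have hs1 : s * s ≤ l := hs ▸ Nat.sqrt_le l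
  have hs2 : l < (s + 1) * (s + 1) := hs ▸ Nat.lt_succ_sqrt l
  have hi : Odd s → k₀ ≤ s * 2 ^ q := by
    intro hsodd
    by_cases hts : t ≤ s
    · calc k₀ ≤ 2 ^ q * t := h1
        _ ≤ 2 ^ q * s := Nat.mul_le_mul_left _ hts
        _ = s * 2 ^ q := mul_comm _ _
    · have hts2 : s + 2 ≤ t := by
        obtain ⟨a, ha⟩ := ht
        obtain ⟨c, hc⟩ := hsodd
        omega
      have h3 : k₀ * (s + 2) ≤ (s * 2 ^ q) * (s + 2) := by
        calc k₀ * (s + 2) ≤ k₀ * t := Nat.mul_le_mul_left _ hts2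
          _ ≤ 2 ^ q * l := h2
          _ ≤ 2 ^ q * (s * (s + 2)) := Nat.mul_le_mul_left _ (by nlinarith)
          _ = (s * 2 ^ q) * (s + 2) := by ring
      exact Nat.le_of_mul_le_mul_right h3 (by omega)
  refine ⟨hi, ?_, ?_⟩
  · intro hsodd
    by_cases hts : t < s
    · have h4 : (s + 1) * t ≤ l := by nlinarith
      calc (s + 1) * k₀ ≤ (s + 1) * (2 ^ q * t) := Nat.mul_le_mul_left _ h1
        _ = 2 ^ q * ((s + 1) * t) := by ring
        _ ≤ 2 ^ q * l := Nat.mul_le_mul_left _ h4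
        _ = l * 2 ^ q := mul_comm _ _
    · have hts2 : s + 1 ≤ t := by
        have : t ≠ s := fun h => hsodd (h ▸ ht)
        omega
      calc (s + 1) * k₀ ≤ t * k₀ := Nat.mul_le_mul_right _ hts2
        _ = k₀ * t := mul_comm _ _
        _ ≤ 2 ^ q * l := h2
        _ = l * 2 ^ q := mul_comm _ _
  · intro hl
    by_cases hl0 : l = 0
    · subst hl0
      have ht1 : 1 ≤ t := by
        obtain ⟨a, ha⟩ := ht
        omega
      have h5 : k₀ * t = 0 := by omega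
      rcases Nat.mul_eq_zero.mp h5 with h6 | h6
      · rw [h6]; exact Nat.zero_le _
      · omega
    · have hs_le : s ≤ 1 := by
        by_contra h
        have h8 : 2 ≤ s := by omega
        nlinarith
      have hs_ge : 1 ≤ s := by
        by_contra h
        have h8 : s = 0 := by omega
        rw [h8] at hs2
        omega
      have hs_one : s = 1 := by omega
      have h7 := hi (by rw [hs_one]; exact odd_one)
      rwa [hs_one, one_mul] at h7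

theorem kzero_bound {G : Type u} [Group G] [Fintype G] {M : Ideal Cfsg.AlgInt}
    (hM : Cfsg.IsPModular 2 M) (B : Set (Cfsg.IrrCharacter G)) (u : G)
    (hu : ∃ j : ℕ, orderOf u = 2 ^ j) [Fintype (Subgroup.centralizer ({u} : Set G))]
    (b : Set (Cfsg.IrrCharacter (Subgroup.centralizer ({u} : Set G))))
    (hb : Cfsg.IsInducedBlock M (Subgroup.centralizer ({u} : Set G)) b B)
    [Fintype (Cfsg.IrrCharacter G)] (B0 : Finset (Cfsg.IrrCharacter G))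
    (hB0 : ∀ χ, χ ∈ B0 ↔ χ ∈ B ∧ Cfsg.blockHeight 2 B (χ : G → ℂ) = 0) :
    B0.card = 0 ∨ ∃ t : ℕ, Odd t ∧ B0.card ≤ 2 ^ Cfsg.blockDefect 2 b * t ∧
      B0.card * t ≤ 2 ^ Cfsg.blockDefect 2 b * Cfsg.blockRank 2 b := by
  classical
  have := Fintype.ofFinite (Cfsg.IrrCharacter (Subgroup.centralizer ({u} : Set G)))
  have hMm := hM.2.1
  have hbblk := hb.1
  obtain ⟨q, hq⟩ : ∃ q : ℕ, Cfsg.blockDefect 2 b = q := ⟨_, rfl⟩
  rw [hq]
  have huC : u ∈ (Subgroup.centralizer ({u} : Set G)) := by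
    rw [Subgroup.mem_centralizer_iff]
    intro s hs
    rw [Set.mem_singleton_iff] at hs
    rw [hs]
  have hcent : ∀ h : (Subgroup.centralizer ({u} : Set G)), u * (h : G) = (h : G) * u :=
    fun c => Subgroup.mem_centralizer_iff.mp c.2 u rfl
  obtain ⟨BF, hBFdef⟩ : ∃ BF : Finset (Cfsg.IrrCharacter G),
      BF = Finset.univ.filter (fun χ : Cfsg.IrrCharacter G => χ ∈ B) := ⟨_, rfl⟩
  have hBF : ∀ χ, χ ∈ BF ↔ χ ∈ B := by
    intro χ
    rw [hBFdef]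
    simp
  have hB0sub : B0 ⊆ BF := fun χ hχ => (hBF χ).mpr ((hB0 χ).mp hχ).1
  obtain ⟨bF, hbF⟩ : ∃ bF : Finset (Cfsg.IrrCharacter (Subgroup.centralizer ({u} : Set G))),
      bF = Finset.univ.filter (fun θ : Cfsg.IrrCharacter (Subgroup.centralizer ({u} : Set G)) => θ ∈ b) := ⟨_, rfl⟩
  have hbFmem : ∀ θ, θ ∈ bF → θ ∈ b := by
    intro θ hθ
    rw [hbF, Finset.mem_filter] at hθ
    exact hθ.2
  -- coefficient data
  choose ε hε a hX ha using fun (χ : Cfsg.IrrCharacter G) (θ : Cfsg.IrrCharacter (Subgroup.centralizer ({u} : Set G))) =>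
    secCoeff_eq (Subgroup.centralizer ({u} : Set G)) 2 u huC hcent hu χ θ
  choose kk hkk using hε
  obtain ⟨K, hK⟩ : ∃ K : ℕ, ∀ χ θ, ε χ θ ^ 2 ^ K = 1 := by
    refine ⟨∑ χ, ∑ θ, kk χ θ, fun χ θ => ?_⟩
    have hle : kk χ θ ≤ ∑ χ, ∑ θ, kk χ θ :=
      le_trans (Finset.single_le_sum (f := fun θ => kk χ θ) (fun _ _ => Nat.zero_le _)
        (Finset.mem_univ θ))
        (Finset.single_le_sum (f := fun χ => ∑ θ, kk χ θ) (fun _ _ => Nat.zero_le _)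
          (Finset.mem_univ χ))
    obtain ⟨e, he⟩ := Nat.exists_eq_add_of_le hle
    rw [he, pow_add, pow_mul, hkk, one_pow]
  have hcn : ∀ θ θ' : Cfsg.IrrCharacter (Subgroup.centralizer ({u} : Set G)), ∃ j : ℤ,
      θ' ∈ b → cn 2 q (θ : (Subgroup.centralizer ({u} : Set G)) → ℂ) (θ' : (Subgroup.centralizer ({u} : Set G)) → ℂ) = (j : ℂ) := by
    intro θ θ'
    by_cases h : θ' ∈ b
    · obtain ⟨j, hj⟩ := cn_int hM hbblk hq θ h
      exact ⟨j, fun _ => hj⟩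
    · exact ⟨0, fun h' => absurd h' h⟩
  choose jj hjj using hcn
  have hjsym : ∀ θ ∈ bF, ∀ θ' ∈ bF, jj θ θ' = jj θ' θ := by
    intro θ hθ θ' hθ'
    have h1 := hjj θ θ' (hbFmem θ' hθ')
    have h2 := hjj θ' θ (hbFmem θ hθ)
    have h3 : cn 2 q (θ : (Subgroup.centralizer ({u} : Set G)) → ℂ) (θ' : (Subgroup.centralizer ({u} : Set G)) → ℂ) = cn 2 q (θ' : (Subgroup.centralizer ({u} : Set G)) → ℂ) (θ : (Subgroup.centralizer ({u} : Set G)) → ℂ) := by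
      unfold cn
      rw [Helper73.pregInner_symm hM.1]
    rw [h1, h2] at h3
    exact_mod_cast h3
  have hform : ∀ χ ψ : Cfsg.IrrCharacter G,
      contrib (Subgroup.centralizer ({u} : Set G)) u b 2 q (χ : G → ℂ) (ψ : G → ℂ)
        = ∑ x ∈ bF ×ˢ bF, ((a χ x.1 * a ψ x.2 * jj x.1 x.2 : ℤ) : ℂ)
            * (ε χ x.1 * conj (ε ψ x.2)) := by
    intro χ ψ
    rw [contrib_eq_sum, ← hbF, Finset.sum_product]
    refine Finset.sum_congr rfl fun θ _ => Finset.sum_congr rfl fun θ' hθ' => ?_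
    rw [hX χ θ, hX ψ θ', hjj θ θ' (hbFmem θ' hθ'), map_mul, Complex.conj_natCast]
    push_cast
    ring
  -- Galois data
  have hn : (2 : ℕ) ^ K ≠ 0 := by positivity
  choose σ hσ using fun v : (ZMod (2 ^ K))ˣ =>
    exists_ringEquiv_pow (2 ^ K) hn (v : ZMod (2 ^ K)).val (ZMod.val_coe_unit_coprime v)
  have hN : ∀ χ ψ : Cfsg.IrrCharacter G, ∃ N : ℤ,
      gmean (2 ^ K) σ (contrib (Subgroup.centralizer ({u} : Set G)) u b 2 q (χ : G → ℂ) (ψ : G → ℂ)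
        * conj (contrib (Subgroup.centralizer ({u} : Set G)) u b 2 q (χ : G → ℂ) (ψ : G → ℂ))) = (N : ℂ) ∧ 0 ≤ N ∧
      (¬ Cfsg.MemLocalIdeal M (contrib (Subgroup.centralizer ({u} : Set G)) u b 2 q (χ : G → ℂ) (ψ : G → ℂ)) → Odd N) := by
    intro χ ψ
    rw [hform χ ψ]
    refine gmean_normSq_formal σ hσ hM (bF ×ˢ bF) _ _ (fun x _ => ?_)
    rw [mul_pow, ← map_pow, hK, hK, map_one, mul_one]
  choose N hN1 hN2 hN3 using hN
  have hT : ∀ χ : Cfsg.IrrCharacter G, ∃ T : ℤ,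
      gmean (2 ^ K) σ (contrib (Subgroup.centralizer ({u} : Set G)) u b 2 q (χ : G → ℂ) (χ : G → ℂ)) = (T : ℂ) ∧
      (¬ Cfsg.MemLocalIdeal M (contrib (Subgroup.centralizer ({u} : Set G)) u b 2 q (χ : G → ℂ) (χ : G → ℂ)) → Odd T) := by
    intro χ
    have hform' : contrib (Subgroup.centralizer ({u} : Set G)) u b 2 q (χ : G → ℂ) (χ : G → ℂ)
        = ∑ θ ∈ bF, ∑ θ' ∈ bF, ((a χ θ * a χ θ' * jj θ θ' : ℤ) : ℂ)
            * (ε χ θ * conj (ε χ θ')) := by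
      rw [hform, Finset.sum_product]
    rw [hform']
    refine gmean_sym_formal σ hσ hM bF (fun θ θ' => (a χ θ : ℤ) * a χ θ' * jj θ θ')
      (fun θ hθ θ' hθ' => ?_) (ε χ) (fun θ _ => hK χ θ)
    show (a χ θ : ℤ) * a χ θ' * jj θ θ' = (a χ θ' : ℤ) * a χ θ * jj θ' θ
    rw [hjsym θ hθ θ' hθ']
    ring
  choose T hT1 hT2 using hT
  -- the mean of the row and trace identities
  have hrow : ∀ χ : Cfsg.IrrCharacter G, ∑ ψ ∈ BF, N χ ψ = 2 ^ q * T χ := by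
    intro χ
    have h1 := contrib_row hM u hu B b hb BF hBF q χ
    have h2 := congrArg (gmean (2 ^ K) σ) h1
    rw [gmean_sum] at h2
    have h3 : ((2 : ℕ) : ℂ) ^ q = ((2 ^ q : ℕ) : ℂ) := by push_cast; rfl
    rw [h3, gmean_natCast_mul, hT1] at h2
    simp only [hN1] at h2
    exact_mod_cast h2
  have htrace : ∑ χ ∈ BF, T χ = 2 ^ q * (Cfsg.blockRank 2 b : ℤ) := by
    have h1 := contrib_trace hM u hu B b hb BF hBF q
    have h2 := congrArg (gmean (2 ^ K) σ) h1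
    rw [gmean_sum] at h2
    have h3 : ((2 : ℕ) : ℂ) ^ q * (Cfsg.blockRank 2 b : ℂ)
        = ((2 ^ q * Cfsg.blockRank 2 b : ℕ) : ℂ) := by push_cast; ring
    rw [h3, gmean_natCast] at h2
    simp only [hT1] at h2
    exact_mod_cast h2
  have hunit : ∀ χ ∈ B0, ∀ ψ ∈ B0,
      ¬ Cfsg.MemLocalIdeal M (contrib (Subgroup.centralizer ({u} : Set G)) u b 2 q (χ : G → ℂ) (ψ : G → ℂ)) := by
    intro χ hχ ψ hψ
    have hχ' := (hB0 χ).mp hχ
    have hψ' := (hB0 ψ).mp hψ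
    exact contrib_not_memLocalIdeal (Subgroup.centralizer ({u} : Set G)) hM u huC hcent hu hb hq hχ'.1 hχ'.2 hψ'.1 hψ'.2
  have hB0N : ∀ χ ∈ B0, ∀ ψ ∈ B0, 1 ≤ N χ ψ := by
    intro χ hχ ψ hψ
    obtain ⟨r, hr⟩ := hN3 χ ψ (hunit χ hχ ψ hψ)
    have := hN2 χ ψ
    omega
  have hB0T : ∀ χ ∈ B0, Odd (T χ) := fun χ hχ => hT2 χ (hunit χ hχ χ hχ)
  have h2pos : (0 : ℤ) < 2 ^ q := by positivity
  have hTnn : ∀ χ : Cfsg.IrrCharacter G, 0 ≤ T χ := by
    intro χ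
    have h1 := hrow χ
    have h2 : 0 ≤ ∑ ψ ∈ BF, N χ ψ := Finset.sum_nonneg fun ψ _ => hN2 χ ψ
    rw [h1] at h2
    by_contra hcon
    have hcon' : T χ < 0 := not_le.mp hcon
    nlinarith
  have hrowB0 : ∀ χ ∈ B0, (B0.card : ℤ) ≤ 2 ^ q * T χ := by
    intro χ hχ
    calc (B0.card : ℤ) = ∑ ψ ∈ B0, (1 : ℤ) := by simp
      _ ≤ ∑ ψ ∈ B0, N χ ψ := Finset.sum_le_sum (fun ψ hψ => hB0N χ hχ ψ hψ)
      _ ≤ ∑ ψ ∈ BF, N χ ψ :=
        Finset.sum_le_sum_of_subset_of_nonneg hB0sub (fun ψ _ _ => hN2 χ ψ)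
      _ = 2 ^ q * T χ := hrow χ
  rcases B0.eq_empty_or_nonempty with hemp | hne
  · left
    rw [hemp, Finset.card_empty]
  · right
    obtain ⟨χ₀, hχ₀, hmin⟩ := Finset.exists_min_image B0 T hne
    have hT0odd := hB0T χ₀ hχ₀
    have hT0nn := hTnn χ₀
    obtain ⟨t, ht⟩ : ∃ t : ℕ, T χ₀ = (t : ℤ) := ⟨(T χ₀).toNat, (Int.toNat_of_nonneg hT0nn).symm⟩
    refine ⟨t, ?_, ?_, ?_⟩
    · obtain ⟨r, hr⟩ := hT0odd
      exact ⟨r.toNat, by omega⟩
    · have h1 := hrowB0 χ₀ hχ₀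
      rw [ht] at h1
      exact_mod_cast h1
    · have h1 : (B0.card : ℤ) * (t : ℤ) ≤ 2 ^ q * (Cfsg.blockRank 2 b : ℤ) := by
        calc (B0.card : ℤ) * (t : ℤ) = ∑ χ ∈ B0, T χ₀ := by
              rw [Finset.sum_const, nsmul_eq_mul, ht]
          _ ≤ ∑ χ ∈ B0, T χ := Finset.sum_le_sum (fun χ hχ => hmin χ hχ)
          _ ≤ ∑ χ ∈ BF, T χ :=
            Finset.sum_le_sum_of_subset_of_nonneg hB0sub (fun χ _ _ => hTnn χ)
          _ = 2 ^ q * (Cfsg.blockRank 2 b : ℤ) := htrace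
      exact_mod_cast h1

end Cfsg.Agent.Helper75
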