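import Cfsg.Agent.Helper75.ThirdMain
import Cfsg.Agent.Helper16.ConvAlg
import Cfsg.Agent.Helper77.ClassPow
import Cfsg.Agent.Helper77.BlockIdem
import Cfsg.Agent.Helper81.Blocks

/-!
# Külshammer's formula, algebraic part

Let `a = |G_{p'}|⁻¹ • (sum of the p-regular elements)` and `e₀` the principal block idempotent.
Then `n = a - e₀` has all its central character values in the local ideal, so its convolution
powers eventually have all their coefficients in the local ideal, and for `q = p ^ j` large,
`a ^ q ≡ e₀` coefficientwise modulo the local ideal.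
-/

set_option autoImplicit false
open Cfsg

namespace Cfsg.Agent.Helper75

universe u

variable {G : Type u} [Group G] [Fintype G]

theorem conv_memLocalRing {M : Ideal Cfsg.AlgInt} (hM : M.IsMaximal) {a b : G → ℂ}
    (ha : ∀ g, Cfsg.MemLocalRing M (a g)) (hb : ∀ g, Cfsg.MemLocalRing M (b g)) (g : G) :
    Cfsg.MemLocalRing M (Helper81.conv a b g) :=
  Helper77.memLocalRing_sum hM _ _ fun x _ => Helper77.memLocalRing_mul hM (ha x) (hb _)

theorem conv_memLocalIdeal {M : Ideal Cfsg.AlgInt} (hM : M.IsMaximal) {a b : G → ℂ}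
    (ha : ∀ g, Cfsg.MemLocalRing M (a g)) (hb : ∀ g, Cfsg.MemLocalIdeal M (b g)) (g : G) :
    Cfsg.MemLocalIdeal M (Helper81.conv a b g) :=
  Helper77.memLocalIdeal_sum hM _ _ fun x _ => Helper77.memLocalIdeal_mul hM (ha x) (hb _)

theorem convPow_memLocalRing {M : Ideal Cfsg.AlgInt} (hM : M.IsMaximal) {a : G → ℂ}
    (ha : ∀ g, Cfsg.MemLocalRing M (a g)) (n : ℕ) (g : G) :
    Cfsg.MemLocalRing M (Helper77.convPow a n g) := by
  classical
  induction n generalizing g with
  | zero =>
    change Cfsg.MemLocalRing M (Helper81.deltaOne 1 g)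
    unfold Helper81.deltaOne
    split_ifs
    · exact Helper77.memLocalRing_one hM
    · exact Helper77.memLocalRing_zero hM
  | succ n ih => exact conv_memLocalRing hM ha ih g

/-- The partial products `∏ (n - Ω_χ(n))` over a list of irreducible characters. -/
noncomputable def kulProd (n : G → ℂ) : List (Cfsg.IrrCharacter G) → G → ℂ
  | [] => Helper81.deltaOne 1
  | χ :: l => Helper81.conv n (kulProd n l) - Helper81.omega (χ : G → ℂ) n • kulProd n l

theorem kulProd_isClassFunction {n : G → ℂ} (hn : Cfsg.IsClassFunction G n)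
    (l : List (Cfsg.IrrCharacter G)) : Cfsg.IsClassFunction G (kulProd n l) := by
  induction l with
  | nil => exact Helper81.deltaOne_isClassFunction 1
  | cons χ l ih =>
    exact Helper81.isClassFunction_sub (Helper81.conv_isClassFunction hn ih)
      (Helper81.isClassFunction_smul _ ih)

theorem omega_kulProd (ψ : Cfsg.IrrCharacter G) {n : G → ℂ} (hn : Cfsg.IsClassFunction G n)
    (l : List (Cfsg.IrrCharacter G)) :
    Helper81.omega (ψ : G → ℂ) (kulProd n l) =
      (l.map fun χ : Cfsg.IrrCharacter G =>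
        Helper81.omega (ψ : G → ℂ) n - Helper81.omega (χ : G → ℂ) n).prod := by
  induction l with
  | nil =>
    rw [List.map_nil, List.prod_nil]
    exact Helper81.omega_deltaOne ψ 1
  | cons χ l ih =>
    change Helper81.omega (ψ : G → ℂ)
      (Helper81.conv n (kulProd n l) - Helper81.omega (χ : G → ℂ) n • kulProd n l) = _
    rw [Helper81.omega_sub, Helper81.omega_smul,
      Helper81.omega_conv ψ hn (kulProd_isClassFunction hn l), ih, List.map_cons, List.prod_cons]
    ring

theorem kulProd_congr {M : Ideal Cfsg.AlgInt} (hM : M.IsMaximal) {n : G → ℂ}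
    (hR : ∀ g, Cfsg.MemLocalRing M (n g))
    (hJ : ∀ ψ : Cfsg.IrrCharacter G, Cfsg.MemLocalIdeal M (Helper81.omega (ψ : G → ℂ) n))
    (l : List (Cfsg.IrrCharacter G)) :
    ∀ g, Cfsg.MemLocalIdeal M (kulProd n l g - Helper77.convPow n l.length g) := by
  induction l with
  | nil =>
    intro g
    change Cfsg.MemLocalIdeal M (Helper81.deltaOne 1 g - Helper81.deltaOne 1 g)
    rw [sub_self]
    exact Helper77.memLocalIdeal_zero hM
  | cons χ l ih =>
    intro g
    have hP : ∀ g, Cfsg.MemLocalRing M (kulProd n l g) := fun g => by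
      have := Helper77.memLocalRing_add hM (Helper77.memLocalRing_of_memLocalIdeal (ih g))
        (convPow_memLocalRing hM hR l.length g)
      rwa [sub_add_cancel] at this
    have h1 : kulProd n (χ :: l) g - Helper77.convPow n (χ :: l).length g
        = Helper81.conv n (kulProd n l - Helper77.convPow n l.length) g
          - Helper81.omega (χ : G → ℂ) n * kulProd n l g := by
      change (Helper81.conv n (kulProd n l) - Helper81.omega (χ : G → ℂ) n • kulProd n l) g
        - Helper81.conv n (Helper77.convPow n l.length) g = _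
      rw [Helper16.conv_sub_right]
      simp only [Pi.sub_apply, Pi.smul_apply, smul_eq_mul]
      ring
    rw [h1]
    exact Helper77.memLocalIdeal_sub hM (conv_memLocalIdeal hM hR (fun x => ih x) g)
      (Helper77.memLocalIdeal_mul' hM (hJ χ) (hP g))

/-- A class function with local-integer coefficients all of whose central character values lie
in the local ideal is nilpotent modulo the local ideal. -/
theorem exists_convPow_memLocalIdeal {M : Ideal Cfsg.AlgInt} (hM : M.IsMaximal) {n : G → ℂ}
    (hn : Cfsg.IsClassFunction G n) (hR : ∀ g, Cfsg.MemLocalRing M (n g))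
    (hJ : ∀ ψ : Cfsg.IrrCharacter G, Cfsg.MemLocalIdeal M (Helper81.omega (ψ : G → ℂ) n)) :
    ∃ r : ℕ, ∀ k, r ≤ k → ∀ g, Cfsg.MemLocalIdeal M (Helper77.convPow n k g) := by
  classical
  haveI : Fintype (Cfsg.IrrCharacter G) := Fintype.ofFinite _
  have h0c : Cfsg.IsClassFunction G (0 : G → ℂ) := fun _ _ => rfl
  have h0 : kulProd n (Finset.univ : Finset (Cfsg.IrrCharacter G)).toList = 0 := by
    apply Helper77.eq_of_omega_eq (kulProd_isClassFunction hn _) h0c
    intro ψ
    rw [omega_kulProd ψ hn]
    have h00 : Helper81.omega (ψ : G → ℂ) (0 : G → ℂ) = 0 := by simp [Helper81.omega]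
    rw [h00]
    apply List.prod_eq_zero
    rw [List.mem_map]
    exact ⟨ψ, Finset.mem_toList.mpr (Finset.mem_univ ψ), sub_self _⟩
  have hr : ∀ g, Cfsg.MemLocalIdeal M (Helper77.convPow n
      (Finset.univ : Finset (Cfsg.IrrCharacter G)).toList.length g) := by
    intro g
    have := Helper77.memLocalIdeal_neg (kulProd_congr hM hR hJ
      (Finset.univ : Finset (Cfsg.IrrCharacter G)).toList g)
    rwa [h0, Pi.zero_apply, zero_sub, neg_neg] at this
  refine ⟨(Finset.univ : Finset (Cfsg.IrrCharacter G)).toList.length, fun k hk => ?_⟩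
  obtain ⟨m, rfl⟩ := Nat.exists_eq_add_of_le hk
  clear hk
  induction m with
  | zero => exact hr
  | succ m ih =>
    intro g
    exact conv_memLocalIdeal hM hR ih g

theorem omega_finset_sum (ψ : G → ℂ) {ι : Type*} (s : Finset ι) (f : ι → G → ℂ) :
    Helper81.omega ψ (∑ i ∈ s, f i) = ∑ i ∈ s, Helper81.omega ψ (f i) := by
  classical
  induction s using Finset.induction_on with
  | empty => simp [Helper81.omega]
  | insert i s hi ih => rw [Finset.sum_insert hi, Finset.sum_insert hi, Helper81.omega_add, ih]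

omit [Fintype G] in
theorem isClassFunction_finset_sum {ι : Type*} (s : Finset ι) (f : ι → G → ℂ)
    (hf : ∀ i ∈ s, Cfsg.IsClassFunction G (f i)) : Cfsg.IsClassFunction G (∑ i ∈ s, f i) := by
  intro g h
  simp only [Finset.sum_apply]
  exact Finset.sum_congr rfl fun i hi => hf i hi g h

/-- Binomial expansion of a power of `e + n` where `e` is a central idempotent. -/
theorem convPow_add_eq {e n : G → ℂ} (he : Cfsg.IsClassFunction G e)
    (hn : Cfsg.IsClassFunction G n)
    (h01 : ∀ ψ : Cfsg.IrrCharacter G, Helper81.omega (ψ : G → ℂ) e = 0 ∨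
      Helper81.omega (ψ : G → ℂ) e = 1) (q : ℕ) (hq : 0 < q) :
    Helper77.convPow (e + n) q = e + (∑ k ∈ Finset.Ioo 0 q,
      (q.choose k : ℂ) • Helper81.conv e (Helper77.convPow n k)) + Helper77.convPow n q := by
  apply Helper77.eq_of_omega_eq
    (Helper77.convPow_isClassFunction (Helper81.isClassFunction_add he hn) q)
    (Helper81.isClassFunction_add (Helper81.isClassFunction_add he
      (isClassFunction_finset_sum _ _ fun k _ => Helper81.isClassFunction_smul _
        (Helper81.conv_isClassFunction he (Helper77.convPow_isClassFunction hn k))))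
      (Helper77.convPow_isClassFunction hn q))
  intro ψ
  rw [Helper77.omega_convPow ψ (Helper81.isClassFunction_add he hn), Helper81.omega_add,
    Helper81.omega_add, Helper81.omega_add, omega_finset_sum, Helper77.omega_convPow ψ hn]
  have hs : ∀ k ∈ Finset.Ioo 0 q, Helper81.omega (ψ : G → ℂ)
      ((q.choose k : ℂ) • Helper81.conv e (Helper77.convPow n k))
      = (q.choose k : ℂ) * (Helper81.omega (ψ : G → ℂ) e * Helper81.omega (ψ : G → ℂ) n ^ k) :=
    fun k _ => by
      rw [Helper81.omega_smul, Helper81.omega_conv ψ he (Helper77.convPow_isClassFunction hn k),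
        Helper77.omega_convPow ψ hn]
  rw [Finset.sum_congr rfl hs]
  rcases h01 ψ with h | h
  · rw [h]
    simp
  · rw [h, add_comm 1 (Helper81.omega (ψ : G → ℂ) n), add_pow, Finset.sum_range_succ,
      Finset.range_eq_Ico, ← Finset.sum_Ioo_add_eq_sum_Ico hq]
    simp only [one_pow, mul_one, pow_zero, Nat.choose_zero_right, Nat.cast_one, Nat.sub_self,
      Nat.choose_self, one_mul]
    have : ∀ k ∈ Finset.Ioo 0 q, Helper81.omega (ψ : G → ℂ) n ^ k * (q.choose k : ℂ)
        = (q.choose k : ℂ) * Helper81.omega (ψ : G → ℂ) n ^ k := fun k _ => mul_comm _ _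
    rw [Finset.sum_congr rfl this]
    ring

/-- **Külshammer, algebraic part.** For `q = p ^ j` large, the `q`-th power of the normalised
sum of the `p`-regular elements is congruent to the principal block idempotent. -/
theorem convPow_pregInd_congr {p : ℕ} [Fact p.Prime] {M : Ideal Cfsg.AlgInt}
    (hM : Cfsg.IsPModular p M) :
    ∃ r : ℕ, ∀ j : ℕ, 0 < j → r ≤ p ^ j → ∀ g : G,
      Cfsg.MemLocalIdeal M (Helper77.convPow ((pregCard p G : ℂ)⁻¹ • pregInd p G) (p ^ j) g
        - Cfsg.blockCoeff (Cfsg.principalBlock M G) g) := by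
  classical
  have hp : p.Prime := Fact.out
  have hMm := hM.2.1
  haveI := hMm.isPrime
  have hN : ¬ p ∣ pregCard p G := not_dvd_pregCard p G
  have hNinv : Cfsg.MemLocalRing M ((pregCard p G : ℂ)⁻¹) := Helper77.memLocalRing_natCast_inv hM hN
  have hB : Cfsg.IsPBlock M (Cfsg.principalBlock M G) := ⟨Helper81.trivIrr G, rfl⟩
  have hac : Cfsg.IsClassFunction G ((pregCard p G : ℂ)⁻¹ • pregInd p G) :=
    Helper81.isClassFunction_smul _ (pregInd_isClassFunction p)
  have hec : Cfsg.IsClassFunction G (Cfsg.blockCoeff (Cfsg.principalBlock M G)) :=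
    Helper77.blockCoeff_isClassFunction _
  have haR : ∀ g, Cfsg.MemLocalRing M (((pregCard p G : ℂ)⁻¹ • pregInd p G) g) := fun g => by
    rw [Pi.smul_apply, smul_eq_mul]
    exact Helper77.memLocalRing_mul hMm hNinv (pregInd_memLocalRing hMm p g)
  have heR : ∀ g, Cfsg.MemLocalRing M (Cfsg.blockCoeff (Cfsg.principalBlock M G) g) :=
    fun g => Helper77.blockCoeff_memLocalRing hMm hB g
  have hnc : Cfsg.IsClassFunction G ((pregCard p G : ℂ)⁻¹ • pregInd p G
      - Cfsg.blockCoeff (Cfsg.principalBlock M G)) := Helper81.isClassFunction_sub hac hec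
  have hnR : ∀ g, Cfsg.MemLocalRing M (((pregCard p G : ℂ)⁻¹ • pregInd p G
      - Cfsg.blockCoeff (Cfsg.principalBlock M G)) g) := fun g => by
    rw [Pi.sub_apply]
    exact Helper77.memLocalRing_sub hMm (haR g) (heR g)
  have hnJ : ∀ ψ : Cfsg.IrrCharacter G, Cfsg.MemLocalIdeal M (Helper81.omega (ψ : G → ℂ)
      ((pregCard p G : ℂ)⁻¹ • pregInd p G - Cfsg.blockCoeff (Cfsg.principalBlock M G))) := by
    intro ψ
    rw [Helper81.omega_sub, Helper81.omega_smul]
    by_cases hψ : ψ ∈ Cfsg.principalBlock M G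
    · rw [Helper77.omega_blockCoeff_of_mem hψ]
      have h1 := Helper16.omega_sub_memLocalIdeal hMm ψ (Helper81.trivIrr G)
        (Helper16.sameBlock_symm hψ) (pregInd_isClassFunction p) (pregInd_memLocalRing hMm p)
      rw [omega_pregInd_trivIrr] at h1
      have h2 := Helper77.memLocalIdeal_mul hMm hNinv h1
      have hN0 : (pregCard p G : ℂ) ≠ 0 := by
        intro h
        apply hN
        have : pregCard p G = 0 := by exact_mod_cast h
        rw [this]
        exact dvd_zero p
      have h3 : (pregCard p G : ℂ)⁻¹ * (Helper81.omega (ψ : G → ℂ) (pregInd p G)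
          - (pregCard p G : ℂ)) = (pregCard p G : ℂ)⁻¹ * Helper81.omega (ψ : G → ℂ) (pregInd p G)
            - 1 := by
        field_simp
      rwa [h3] at h2
    · rw [Helper77.omega_blockCoeff_of_not_mem hψ, omega_pregInd_of_not_mem hM hψ, mul_zero,
        sub_zero]
      exact Helper77.memLocalIdeal_zero hMm
  obtain ⟨r, hr⟩ := exists_convPow_memLocalIdeal hMm hnc hnR hnJ
  refine ⟨r, fun j hj hrj g => ?_⟩
  have h01 : ∀ ψ : Cfsg.IrrCharacter G,
      Helper81.omega (ψ : G → ℂ) (Cfsg.blockCoeff (Cfsg.principalBlock M G)) = 0 ∨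
      Helper81.omega (ψ : G → ℂ) (Cfsg.blockCoeff (Cfsg.principalBlock M G)) = 1 := by
    intro ψ
    by_cases hψ : ψ ∈ Cfsg.principalBlock M G
    · exact Or.inr (Helper77.omega_blockCoeff_of_mem hψ)
    · exact Or.inl (Helper77.omega_blockCoeff_of_not_mem hψ)
  have hq : 0 < p ^ j := pow_pos hp.pos j
  have hsplit : (pregCard p G : ℂ)⁻¹ • pregInd p G
      = Cfsg.blockCoeff (Cfsg.principalBlock M G) + ((pregCard p G : ℂ)⁻¹ • pregInd p G
        - Cfsg.blockCoeff (Cfsg.principalBlock M G)) := by
    rw [add_sub_cancel]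
  have hexp := convPow_add_eq hec hnc h01 (p ^ j) hq
  rw [← hsplit] at hexp
  rw [hexp]
  simp only [Pi.add_apply, Finset.sum_apply, Pi.smul_apply, smul_eq_mul]
  rw [add_assoc, add_sub_cancel_left]
  refine Helper77.memLocalIdeal_add hMm (Helper77.memLocalIdeal_sum hMm _ _ fun k hk => ?_)
    (hr _ hrj g)
  rw [Finset.mem_Ioo] at hk
  obtain ⟨c, hc⟩ := hp.dvd_choose_pow (n := j) hk.1.ne' hk.2.ne
  rw [hc, Nat.cast_mul, mul_assoc]
  refine Helper77.memLocalIdeal_mul' hMm (Helper77.memLocalIdeal_prime hM) ?_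
  refine Helper77.memLocalRing_mul hMm ?_ (conv_memLocalRing hMm heR
    (convPow_memLocalRing hMm hnR k) g)
  have hci : IsIntegral ℤ (c : ℂ) := by
    have := isIntegral_algebraMap (R := ℤ) (A := ℂ) (x := (c : ℤ))
    simpa using this
  exact Helper77.memLocalRing_of_isIntegral hMm hci

end Cfsg.Agent.Helper75
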