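import Cfsg.Agent.Helper75.KulAlg
import Mathlib.GroupTheory.Perm.Cycle.Type

/-!
# Külshammer's formula, combinatorial part

* `convPow_smul`, `convPow_shift`: convolution powers of a scalar multiple and of a translate of
  a class function.
* `convPow_eq_sum_vector`: the `n`-th convolution power as a sum over vectors of length `n`.
* `card_vector_rotate_modEq`: the number of vectors of length `p ^ j` with product one and all
  entries in `S` is congruent mod `p` to the number of `z ∈ S` with `z ^ p ^ j = 1`.
* `convPow_pregInd_count`: the coefficient of `g` in the `p ^ j`-th power of the sum of the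
  `p`-regular elements, modulo `p`.
-/

set_option autoImplicit false
open Cfsg

namespace Cfsg.Agent.Helper75

universe u

variable {G : Type u} [Group G] [Fintype G]

theorem conv_smul_left (d : ℂ) (a c : G → ℂ) :
    Helper81.conv (d • a) c = d • Helper81.conv a c := by
  funext g
  simp only [Helper81.conv, Pi.smul_apply, smul_eq_mul, Finset.mul_sum, mul_assoc]

theorem convPow_smul (c : ℂ) (a : G → ℂ) (n : ℕ) :
    Helper77.convPow (c • a) n = c ^ n • Helper77.convPow a n := by
  induction n with
  | zero =>
    rw [pow_zero, one_smul]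
    rfl
  | succ n ih =>
    change Helper81.conv (c • a) (Helper77.convPow (c • a) n)
      = c ^ (n + 1) • Helper81.conv a (Helper77.convPow a n)
    rw [ih, Helper16.conv_smul_right, conv_smul_left, smul_smul, pow_succ]

theorem convPow_shift {a : G → ℂ} (ha : Cfsg.IsClassFunction G a) (g : G) (n : ℕ) (x : G) :
    Helper77.convPow (fun y => a (y * g)) n x = Helper77.convPow a n (x * g ^ n) := by
  induction n generalizing x with
  | zero =>
    rw [pow_zero, mul_one]
    rfl
  | succ n ih =>
    change Helper81.conv (fun y => a (y * g)) (Helper77.convPow (fun y => a (y * g)) n) x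
      = Helper81.conv a (Helper77.convPow a n) (x * g ^ (n + 1))
    simp only [Helper81.conv]
    rw [← Equiv.sum_comp (Equiv.mulRight g)
      (fun y => a y * Helper77.convPow a n (y⁻¹ * (x * g ^ (n + 1))))]
    refine Finset.sum_congr rfl fun y _ => ?_
    rw [ih, Equiv.coe_mulRight]
    congr 1
    have hc := Helper77.convPow_isClassFunction ha n
    rw [← hc (y⁻¹ * x * g ^ n) g⁻¹]
    congr 1
    rw [pow_succ]
    group

/-- Vectors of length `n + 1` as pairs (head, tail). -/
def vectorConsEquiv (α : Type*) (n : ℕ) : α × List.Vector α n ≃ List.Vector α (n + 1) where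
  toFun yw := yw.1 ::ᵥ yw.2
  invFun v := (v.head, v.tail)
  left_inv yw := by simp
  right_inv v := List.Vector.cons_head_tail v

theorem convPow_eq_sum_vector [DecidableEq G] (b : G → ℂ) (n : ℕ) (x : G) :
    Helper77.convPow b n x
      = ∑ v : List.Vector G n, if v.toList.prod = x then (v.toList.map b).prod else 0 := by
  induction n generalizing x with
  | zero =>
    change Helper81.deltaOne 1 x = _
    rw [Fintype.sum_eq_single (List.Vector.nil : List.Vector G 0)
      (fun v hv => absurd v.eq_nil hv)]
    simp [Helper81.deltaOne, eq_comm]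
  | succ n ih =>
    change Helper81.conv b (Helper77.convPow b n) x = _
    rw [← (vectorConsEquiv G n).sum_comp, Fintype.sum_prod_type]
    simp only [Helper81.conv]
    refine Finset.sum_congr rfl fun y _ => ?_
    rw [ih, Finset.mul_sum]
    refine Finset.sum_congr rfl fun w _ => ?_
    simp only [vectorConsEquiv, Equiv.coe_fn_mk, List.Vector.toList_cons, List.prod_cons,
      List.map_cons]
    by_cases h : w.toList.prod = y⁻¹ * x
    · rw [if_pos h, if_pos (by rw [h, mul_inv_cancel_left])]
    · rw [if_neg h, if_neg (fun h' => h (by rw [← h', inv_mul_cancel_left])), mul_zero]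

theorem prod_map_ite_eq {α : Type*} (S : α → Prop) [DecidablePred S] (l : List α) :
    (l.map fun y => if S y then (1 : ℂ) else 0).prod = if ∀ y ∈ l, S y then 1 else 0 := by
  induction l with
  | nil => simp
  | cons a l ih =>
    rw [List.map_cons, List.prod_cons, ih]
    by_cases ha : S a
    · simp [ha]
    · simp [ha]

/-- The convolution power of an indicator function counts vectors. -/
theorem convPow_ite_eq_card (S : G → Prop) [DecidablePred S] [DecidableEq G] (n : ℕ) (x : G) :
    Helper77.convPow (fun y => if S y then (1 : ℂ) else 0) n x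
      = (Fintype.card {v : List.Vector G n // v.toList.prod = x ∧ ∀ y ∈ v.toList, S y} : ℂ) := by
  rw [convPow_eq_sum_vector, Fintype.card_subtype, ← Finset.sum_boole]
  refine Finset.sum_congr rfl fun v _ => ?_
  rw [prod_map_ite_eq]
  by_cases h1 : v.toList.prod = x
  · by_cases h2 : ∀ y ∈ v.toList, S y
    · rw [if_pos h1, if_pos h2, if_pos ⟨h1, h2⟩]
    · rw [if_pos h1, if_neg h2, if_neg (fun h => h2 h.2)]
  · rw [if_neg h1, if_neg (fun h => h1 h.1)]

/-- Rotation argument: vectors of length `p ^ j` with product one and entries in `S`, counted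
modulo `p`. -/
theorem card_vector_rotate_modEq (p j : ℕ) [Fact p.Prime] (S : G → Prop) [DecidablePred S]
    [DecidableEq G] :
    Fintype.card {v : List.Vector G (p ^ j) // v.toList.prod = 1 ∧ ∀ y ∈ v.toList, S y}
      ≡ Fintype.card {z : G // z ^ (p ^ j) = 1 ∧ S z} [MOD p] := by
  have hp : p.Prime := Fact.out
  have hq : p ^ j ≠ 0 := (pow_pos hp.pos j).ne'
  let f : Function.End {v : List.Vector G (p ^ j) //
      v.toList.prod = 1 ∧ ∀ y ∈ v.toList, S y} := fun v =>
    ⟨⟨v.1.1.rotate 1, (List.length_rotate _ _).trans v.1.2⟩,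
      List.prod_rotate_eq_one_of_prod_eq_one v.2.1 1,
      fun y hy => v.2.2 y (List.mem_rotate.mp hy)⟩
  have hfk : ∀ (k : ℕ) (v : {v : List.Vector G (p ^ j) //
      v.toList.prod = 1 ∧ ∀ y ∈ v.toList, S y}), ((f^[k]) v).1.1 = v.1.1.rotate k := by
    intro k
    induction k with
    | zero => intro v; rw [Function.iterate_zero, id, List.rotate_zero]
    | succ k ih =>
      intro v
      rw [Function.iterate_succ_apply, ih (f v)]
      change (v.1.1.rotate 1).rotate k = _
      rw [List.rotate_rotate, add_comm]
  have hf : f ^ p ^ j = 1 := by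
    have h1 := hom_coe_pow (fun g : Function.End {v : List.Vector G (p ^ j) //
      v.toList.prod = 1 ∧ ∀ y ∈ v.toList, S y} => (g : _ → _)) rfl (fun _ _ => rfl) f (p ^ j)
    funext v
    have h2 := congrFun h1 v
    rw [h2]
    apply Subtype.ext
    apply Subtype.ext
    rw [hfk]
    exact (congrArg (fun m => v.1.1.rotate m) v.1.2.symm).trans (List.rotate_length _)
  have h1 := Equiv.Perm.card_fixedPoints_modEq (f := f) (p := p) (n := j) hf
  refine h1.trans ?_
  have h2 : Fintype.card (Function.fixedPoints f)
      = Fintype.card {z : G // z ^ (p ^ j) = 1 ∧ S z} := by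
    symm
    let φ : {z : G // z ^ (p ^ j) = 1 ∧ S z} → Function.fixedPoints f := fun z =>
      ⟨⟨⟨List.replicate (p ^ j) z.1, List.length_replicate⟩,
        by
          change (List.replicate (p ^ j) z.1).prod = 1
          rw [List.prod_replicate]; exact z.2.1,
        fun y hy => by
          have : y = z.1 := List.eq_of_mem_replicate hy
          rw [this]; exact z.2.2⟩,
        Subtype.ext (Subtype.ext (List.rotate_replicate _ _ _))⟩
    refine Fintype.card_congr (Equiv.ofBijective φ ⟨?_, ?_⟩)
    · intro z z' h
      have h3 : List.replicate (p ^ j) z.1 = List.replicate (p ^ j) z'.1 :=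
        congrArg (fun w : Function.fixedPoints f => w.1.1.1) h
      exact Subtype.ext ((List.replicate_right_inj hq).mp h3)
    · intro v
      have hv : v.1.1.1.rotate 1 = v.1.1.1 :=
        congrArg (fun w : {v : List.Vector G (p ^ j) //
          v.toList.prod = 1 ∧ ∀ y ∈ v.toList, S y} => w.1.1) v.2
      obtain ⟨a, ha⟩ := List.rotate_one_eq_self_iff_eq_replicate.mp hv
      have hlen : v.1.1.1.length = p ^ j := v.1.1.2
      rw [hlen] at ha
      have hprod : v.1.1.1.prod = 1 := v.1.2.1
      have hmem : ∀ y ∈ v.1.1.1, S y := v.1.2.2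
      refine ⟨⟨a, ?_, ?_⟩, ?_⟩
      · rw [ha, List.prod_replicate] at hprod
        exact hprod
      · apply hmem
        rw [ha]
        exact List.mem_replicate.mpr ⟨hq, rfl⟩
      · apply Subtype.ext
        apply Subtype.ext
        apply Subtype.ext
        exact ha.symm
  rw [h2]

/-- The coefficient of `g` in the `p ^ j`-th power of the sum of the `p`-regular elements is a
natural number congruent mod `p` to the number of `z` with `z ^ p ^ j = 1` and `z * g`
`p`-regular (when `g ^ p ^ j = g`). -/
theorem convPow_pregInd_count (p : ℕ) [Fact p.Prime] [DecidableEq G] (j : ℕ) (g : G)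
    (hg : g ^ (p ^ j) = g) :
    ∃ T : ℕ, Helper77.convPow (pregInd p G) (p ^ j) g = (T : ℂ) ∧
      T ≡ Fintype.card {z : G // z ^ (p ^ j) = 1 ∧ ¬ p ∣ orderOf (z * g)} [MOD p] := by
  have h1 := convPow_shift (pregInd_isClassFunction (G := G) p) g (p ^ j) 1
  rw [one_mul, hg] at h1
  have h2 : (fun y : G => pregInd p G (y * g))
      = fun y => if ¬ p ∣ orderOf (y * g) then (1 : ℂ) else 0 := rfl
  rw [h2, convPow_ite_eq_card] at h1
  exact ⟨_, h1.symm, card_vector_rotate_modEq p j _⟩

end Cfsg.Agent.Helper75
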