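import Cfsg.Agent.Helper75.MajorCore
import Cfsg.Agent.Helper75.Contrib4
import Cfsg.Agent.Helper75.KZero

/-!
# Major subsections of `2`-blocks: the integer data (helper75)

`majorData_of_block`: for a `2`-block `B` with defect group `D`, `z ∈ Z(D)` and a block `b` of
`C_G(z)` with defect group `D` inducing `B`, the Galois means of the contributions of `(z, b)`
form a `MajorData` with heights `h(χ)`, `d` the defect of `B` and `l` the `2`-regular rank of `b`.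

`major_rank_bound`, `major_count_bound`: the resulting bounds of Brauer/Olsson/Robinson type.
-/

set_option autoImplicit false
open Cfsg
open scoped ComplexConjugate
open Polynomial

namespace Cfsg.Agent.Helper75

universe u

theorem majorData_of_block {G : Type u} [Group G] [Fintype G] {M : Ideal Cfsg.AlgInt}
    (hM : Cfsg.IsPModular 2 M) (B : Set (Cfsg.IrrCharacter G)) (hB : Cfsg.IsPBlock M B)
    (D : Subgroup G) (hD : Cfsg.IsDefectGroup 2 M B D) (z : G) (hzD : z ∈ D)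
    (hzc : ∀ d ∈ D, d * z = z * d)
    [Fintype (Subgroup.centralizer ({z} : Set G))]
    (b : Set (Cfsg.IrrCharacter (Subgroup.centralizer ({z} : Set G))))
    (hb : Cfsg.IsInducedBlock M (Subgroup.centralizer ({z} : Set G)) b B)
    (hbD : Cfsg.IsDefectGroup 2 M b (D.subgroupOf (Subgroup.centralizer ({z} : Set G))))
    [Fintype (Cfsg.IrrCharacter G)] (BF : Finset (Cfsg.IrrCharacter G))
    (hBF : ∀ χ, χ ∈ BF ↔ χ ∈ B) :
    ∃ (T : Cfsg.IrrCharacter G → ℤ) (N : Cfsg.IrrCharacter G → Cfsg.IrrCharacter G → ℤ),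
      MajorData BF (fun χ => Cfsg.blockHeight 2 B (χ : G → ℂ)) (Cfsg.blockDefect 2 B)
        (Cfsg.blockRank 2 b) T N := by
  classical
  have := Fintype.ofFinite (Cfsg.IrrCharacter (Subgroup.centralizer ({z} : Set G)))
  have hMm := hM.2.1
  have hp2 : Fact (Nat.Prime 2) := ⟨Nat.prime_two⟩
  have hbblk := hb.1
  have e2 : ((2 : ℕ) : ℂ) = 2 := by norm_num
  -- `z` is a `2`-element
  have hcardD := Helper77.card_of_isDefectGroup hM hB hD
  have hu : ∃ j : ℕ, orderOf z = 2 ^ j := by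
    have h1 := Subgroup.orderOf_dvd_natCard D hzD
    rw [hcardD] at h1
    obtain ⟨j, -, hj⟩ := (Nat.dvd_prime_pow Nat.prime_two).mp h1
    exact ⟨j, hj⟩
  -- the defects agree
  have hDC : D ≤ Subgroup.centralizer ({z} : Set G) := by
    intro x hx
    rw [Subgroup.mem_centralizer_iff]
    intro s hs
    rw [Set.mem_singleton_iff] at hs
    rw [hs]
    exact (hzc x hx).symm
  obtain ⟨d, hd⟩ : ∃ d : ℕ, Cfsg.blockDefect 2 B = d := ⟨_, rfl⟩
  have hq : Cfsg.blockDefect 2 b = d := by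
    have h1 := Helper77.card_of_isDefectGroup hM hbblk hbD
    have h2 : Nat.card (D.subgroupOf (Subgroup.centralizer ({z} : Set G))) = Nat.card D :=
      Nat.card_congr (Subgroup.subgroupOfEquivOfLe hDC).toEquiv
    rw [h2, hcardD, hd] at h1
    exact (Nat.pow_right_injective (le_refl 2) h1).symm
  rw [hd]
  have huC : z ∈ (Subgroup.centralizer ({z} : Set G)) := by
    rw [Subgroup.mem_centralizer_iff]
    intro s hs
    rw [Set.mem_singleton_iff] at hs
    rw [hs]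
  have hcent : ∀ h : (Subgroup.centralizer ({z} : Set G)), z * (h : G) = (h : G) * z :=
    fun c => Subgroup.mem_centralizer_iff.mp c.2 z rfl
  have hHC : ∀ g : G, z * g = g * z → g ∈ Subgroup.centralizer ({z} : Set G) := by
    intro g hg
    rw [Subgroup.mem_centralizer_iff]
    intro s hs
    rw [Set.mem_singleton_iff] at hs
    rw [hs]
    exact hg
  obtain ⟨bF, hbF⟩ : ∃ bF : Finset (Cfsg.IrrCharacter (Subgroup.centralizer ({z} : Set G))),
      bF = Finset.univ.filter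
        (fun θ : Cfsg.IrrCharacter (Subgroup.centralizer ({z} : Set G)) => θ ∈ b) := ⟨_, rfl⟩
  have hbFmem : ∀ θ, θ ∈ bF → θ ∈ b := by
    intro θ hθ
    rw [hbF, Finset.mem_filter] at hθ
    exact hθ.2
  -- coefficient data
  choose ε hε a hX ha using fun (χ : Cfsg.IrrCharacter G)
      (θ : Cfsg.IrrCharacter (Subgroup.centralizer ({z} : Set G))) =>
    secCoeff_eq (Subgroup.centralizer ({z} : Set G)) 2 z huC hcent hu χ θ
  choose kk hkk using hε
  obtain ⟨K, hK⟩ : ∃ K : ℕ, ∀ χ θ, ε χ θ ^ 2 ^ (K + 1) = 1 := by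
    refine ⟨∑ χ, ∑ θ, kk χ θ, fun χ θ => ?_⟩
    have hle : kk χ θ ≤ ∑ χ, ∑ θ, kk χ θ :=
      le_trans (Finset.single_le_sum (f := fun θ => kk χ θ) (fun _ _ => Nat.zero_le _)
        (Finset.mem_univ θ))
        (Finset.single_le_sum (f := fun χ => ∑ θ, kk χ θ) (fun _ _ => Nat.zero_le _)
          (Finset.mem_univ χ))
    obtain ⟨e, he⟩ := Nat.exists_eq_add_of_le hle
    rw [he, add_assoc, pow_add, pow_mul, hkk, one_pow]
  have hcn : ∀ θ θ' : Cfsg.IrrCharacter (Subgroup.centralizer ({z} : Set G)), ∃ j : ℤ,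
      θ' ∈ b → cn 2 d (θ : (Subgroup.centralizer ({z} : Set G)) → ℂ)
        (θ' : (Subgroup.centralizer ({z} : Set G)) → ℂ) = (j : ℂ) := by
    intro θ θ'
    by_cases h : θ' ∈ b
    · obtain ⟨j, hj⟩ := cn_int hM hbblk hq θ h
      exact ⟨j, fun _ => hj⟩
    · exact ⟨0, fun h' => absurd h' h⟩
  choose jj hjj using hcn
  have hform : ∀ χ ψ : Cfsg.IrrCharacter G,
      contrib (Subgroup.centralizer ({z} : Set G)) z b 2 d (χ : G → ℂ) (ψ : G → ℂ)
        = ∑ x ∈ bF ×ˢ bF, ((a χ x.1 * a ψ x.2 * jj x.1 x.2 : ℤ) : ℂ)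
            * (ε χ x.1 * conj (ε ψ x.2)) := by
    intro χ ψ
    rw [contrib_eq_sum, ← hbF, Finset.sum_product]
    refine Finset.sum_congr rfl fun θ _ => Finset.sum_congr rfl fun θ' hθ' => ?_
    rw [hX χ θ, hX ψ θ', hjj θ θ' (hbFmem θ' hθ'), map_mul, Complex.conj_natCast]
    push_cast
    ring
  -- the primitive root and the Galois data
  have hn : (2 : ℕ) ^ (K + 1) ≠ 0 := by positivity
  obtain ⟨ζ, hζ⟩ : ∃ ζ : ℂ, IsPrimitiveRoot ζ (2 ^ (K + 1)) :=
    ⟨_, Complex.isPrimitiveRoot_exp _ hn⟩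
  choose σ hσ using fun v : (ZMod (2 ^ (K + 1)))ˣ =>
    exists_ringEquiv_pow (2 ^ (K + 1)) hn (v : ZMod (2 ^ (K + 1))).val
      (ZMod.val_coe_unit_coprime v)
  have hεR : ∀ χ θ, ε χ θ ∈ (aeval ζ : ℤ[X] →ₐ[ℤ] ℂ).range := by
    intro χ θ
    obtain ⟨i, -, hi⟩ := hζ.eq_pow_of_pow_eq_one (hK χ θ)
    rw [← hi]
    exact ⟨X ^ i, by simp⟩
  have hεcR : ∀ χ θ, conj (ε χ θ) ∈ (aeval ζ : ℤ[X] →ₐ[ℤ] ℂ).range := by
    intro χ θ
    obtain ⟨i, hi2, hi⟩ := hζ.eq_pow_of_pow_eq_one (hK χ θ)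
    rw [← hi, conj_zeta_pow hζ hi2.le]
    exact ⟨X ^ (2 ^ (K + 1) - i), by simp⟩
  have haR : ∀ χ ψ : Cfsg.IrrCharacter G, ∃ f : ℤ[X], aeval ζ f
      = contrib (Subgroup.centralizer ({z} : Set G)) z b 2 d (χ : G → ℂ) (ψ : G → ℂ) := by
    intro χ ψ
    rw [hform χ ψ]
    have hmem : (∑ x ∈ bF ×ˢ bF, ((a χ x.1 * a ψ x.2 * jj x.1 x.2 : ℤ) : ℂ)
        * (ε χ x.1 * conj (ε ψ x.2))) ∈ (aeval ζ : ℤ[X] →ₐ[ℤ] ℂ).range :=
      sum_mem fun x _ => mul_mem (intCast_mem _ _) (mul_mem (hεR _ _) (hεcR _ _))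
    exact hmem
  have hherm : ∀ χ ψ : Cfsg.IrrCharacter G,
      contrib (Subgroup.centralizer ({z} : Set G)) z b 2 d (ψ : G → ℂ) (χ : G → ℂ)
        = conj (contrib (Subgroup.centralizer ({z} : Set G)) z b 2 d (χ : G → ℂ) (ψ : G → ℂ)) := by
    intro χ ψ
    unfold contrib
    rw [map_mul, Helper77.conj_pregInner, map_div₀, map_pow, map_natCast, map_natCast]
  have hex : ∃ ψ₀ ∈ BF, Cfsg.blockHeight 2 B (ψ₀ : G → ℂ) = 0 := by
    obtain ⟨ψ₀, hψ₀, h0⟩ := Helper16.exists_height_zero (p := 2) hMm hB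
    exact ⟨ψ₀, (hBF ψ₀).mpr hψ₀, h0⟩
  refine majorData_of_matrix hζ σ hσ hM BF (fun χ => Cfsg.blockHeight 2 B (χ : G → ℂ)) d
    (Cfsg.blockRank 2 b)
    (fun χ ψ => contrib (Subgroup.centralizer ({z} : Set G)) z b 2 d (χ : G → ℂ) (ψ : G → ℂ))
    haR hherm ?_ ?_ ?_ ?_ ?_ hex
  · intro χ _
    have h1 := contrib_row hM z hu B b hb BF hBF d χ
    rw [e2] at h1
    exact h1
  · have h1 := contrib_trace hM z hu B b hb BF hBF d
    rw [e2] at h1
    exact h1
  · intro ψ₀ hψ₀ h0 χ hχ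
    have hψ₀B := (hBF ψ₀).mp hψ₀
    have hχB := (hBF χ).mp hχ
    have h1 := contrib_div_memLocalRing (Subgroup.centralizer ({z} : Set G)) hM z huC hcent hHC hu
      hbblk hd ψ₀ hχB
    rw [e2] at h1
    refine ⟨h1, ?_⟩
    intro hmem
    have h2 := contrib_div_memLocalIdeal (Subgroup.centralizer ({z} : Set G)) hM z huC hcent hHC
      hu hbblk hB hd ψ₀ hψ₀B hχB (by rw [e2]; exact hmem)
    rw [h0, pow_zero, div_one] at h2
    exact contrib_not_memLocalIdeal (Subgroup.centralizer ({z} : Set G)) hM z huC hcent hu hb hq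
      hψ₀B h0 hψ₀B h0 h2
  · intro χ hχ
    have hχB := (hBF χ).mp hχ
    have h1 := contrib_div_memLocalRing (Subgroup.centralizer ({z} : Set G)) hM z huC hcent hHC hu
      hbblk hd χ hχB
    rw [e2] at h1
    exact h1
  · intro χ hχ ψ₀ hψ₀ h0 hmem
    have hψ₀B := (hBF ψ₀).mp hψ₀
    have hχB := (hBF χ).mp hχ
    have h2 := contrib_div_memLocalIdeal (Subgroup.centralizer ({z} : Set G)) hM z huC hcent hHC
      hu hbblk hB hd χ hχB hψ₀B (by rw [h0, pow_zero, div_one]; exact hmem)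
    rw [e2] at h2
    exact h2

theorem weight_sum_eq {ι : Type*} (BF : Finset ι) (h : ι → ℕ) :
    ∑ χ ∈ BF, (if h χ = 0 then 3 else 2 * 2 ^ h χ)
      = 3 * (BF.filter (fun χ => h χ = 0)).card
        + 2 * ∑ χ ∈ BF.filter (fun χ => 1 ≤ h χ), 2 ^ h χ := by
  classical
  rw [Finset.sum_ite, Finset.sum_const, smul_eq_mul, mul_comm, ← Finset.mul_sum]
  congr 2
  refine Finset.sum_congr ?_ (fun _ _ => rfl)
  ext χ
  simp [Nat.one_le_iff_ne_zero]

theorem card_le_weight_sum {ι : Type*} (BF : Finset ι) (h : ι → ℕ) :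
    3 * BF.card ≤ ∑ χ ∈ BF, (if h χ = 0 then 3 else 2 * 2 ^ h χ) := by
  calc 3 * BF.card = ∑ χ ∈ BF, 3 := by simp [mul_comm]
    _ ≤ _ := Finset.sum_le_sum fun χ _ => by
        split_ifs with hh
        · exact le_refl _
        · have h1 : 2 ^ 1 ≤ 2 ^ h χ :=
            Nat.pow_le_pow_right (by norm_num) (Nat.one_le_iff_ne_zero.mpr hh)
          omega

/-- **Major subsections of rank at most three** (`p = 2`). -/
theorem major_rank_bound {G : Type u} [Group G] [Fintype G] {M : Ideal Cfsg.AlgInt}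
    (hM : Cfsg.IsPModular 2 M) (B : Set (Cfsg.IrrCharacter G)) (hB : Cfsg.IsPBlock M B)
    (D : Subgroup G) (hD : Cfsg.IsDefectGroup 2 M B D) (z : G) (hzD : z ∈ D)
    (hzc : ∀ d ∈ D, d * z = z * d)
    [Fintype (Subgroup.centralizer ({z} : Set G))]
    (b : Set (Cfsg.IrrCharacter (Subgroup.centralizer ({z} : Set G))))
    (hb : Cfsg.IsInducedBlock M (Subgroup.centralizer ({z} : Set G)) b B)
    (hbD : Cfsg.IsDefectGroup 2 M b (D.subgroupOf (Subgroup.centralizer ({z} : Set G))))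
    [Fintype (Cfsg.IrrCharacter G)] (BF : Finset (Cfsg.IrrCharacter G))
    (hBF : ∀ χ, χ ∈ BF ↔ χ ∈ B) (hl : Cfsg.blockRank 2 b ≤ 3) :
    3 * BF.card ≤ 3 * (BF.filter (fun χ : Cfsg.IrrCharacter G => Cfsg.blockHeight 2 B (χ : G → ℂ) = 0)).card
        + 2 * ∑ χ ∈ BF.filter (fun χ : Cfsg.IrrCharacter G => 1 ≤ Cfsg.blockHeight 2 B (χ : G → ℂ)),
          2 ^ Cfsg.blockHeight 2 B (χ : G → ℂ) ∧
      3 * (BF.filter (fun χ : Cfsg.IrrCharacter G => Cfsg.blockHeight 2 B (χ : G → ℂ) = 0)).card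
        + 2 * ∑ χ ∈ BF.filter (fun χ : Cfsg.IrrCharacter G => 1 ≤ Cfsg.blockHeight 2 B (χ : G → ℂ)),
          2 ^ Cfsg.blockHeight 2 B (χ : G → ℂ) ≤ 3 * 2 ^ Cfsg.blockDefect 2 B := by
  obtain ⟨T, N, hData⟩ := majorData_of_block hM B hB D hD z hzD hzc b hb hbD BF hBF
  have h1 := hData.rank_bound hl
  rw [← weight_sum_eq]
  refine ⟨card_le_weight_sum BF _, ?_⟩
  have h2 : ((∑ χ ∈ BF, (if Cfsg.blockHeight 2 B (χ : G → ℂ) = 0 then 3
      else 2 * 2 ^ Cfsg.blockHeight 2 B (χ : G → ℂ)) : ℕ) : ℤ)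
      ≤ ((3 * 2 ^ Cfsg.blockDefect 2 B : ℕ) : ℤ) := by
    push_cast
    exact h1
  exact_mod_cast h2

/-- **Major subsections with `k(B) ≤ l(b) + 3`** (`p = 2`). -/
theorem major_count_bound {G : Type u} [Group G] [Fintype G] {M : Ideal Cfsg.AlgInt}
    (hM : Cfsg.IsPModular 2 M) (B : Set (Cfsg.IrrCharacter G)) (hB : Cfsg.IsPBlock M B)
    (D : Subgroup G) (hD : Cfsg.IsDefectGroup 2 M B D) (z : G) (hzD : z ∈ D)
    (hzc : ∀ d ∈ D, d * z = z * d)
    [Fintype (Subgroup.centralizer ({z} : Set G))]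
    (b : Set (Cfsg.IrrCharacter (Subgroup.centralizer ({z} : Set G))))
    (hb : Cfsg.IsInducedBlock M (Subgroup.centralizer ({z} : Set G)) b B)
    (hbD : Cfsg.IsDefectGroup 2 M b (D.subgroupOf (Subgroup.centralizer ({z} : Set G))))
    [Fintype (Cfsg.IrrCharacter G)] (BF : Finset (Cfsg.IrrCharacter G))
    (hBF : ∀ χ, χ ∈ BF ↔ χ ∈ B) (hk : BF.card ≤ Cfsg.blockRank 2 b + 3) :
    BF.card ≤ 2 ^ Cfsg.blockDefect 2 B := by
  classical
  obtain ⟨T, N, hData⟩ := majorData_of_block hM B hB D hD z hzD hzc b hb hbD BF hBF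
  have h1 := hData.count_bound hk
  exact_mod_cast h1

end Cfsg.Agent.Helper75
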