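import Cfsg.Agent.Helper75.TwoAdic

/-!
# Hermitian contribution matrices over `ℤ[ζ]` (`p = 2`): the integer data (helper75)

Let `ζ` be a primitive `2^(k+1)`-th root of unity and `a : ι → ι → ℂ` a Hermitian matrix over
`ℤ[ζ]` with `Σ_ψ |a χ ψ|² = 2^d a χ χ` on a finite set `BF` and trace `2^d l`, together with
"heights" `h` such that `a ψ₀ χ / 2^{h χ}` is a local unit whenever `h ψ₀ = 0`, and the diagonal
entries satisfy the congruences coming from Brauer's (5H).  Taking Galois means produces integer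
data (`MajorData`) from which the bounds `Σ w(χ) ≤ 3·2^d` (for `l ≤ 3`) and `|BF| ≤ 2^d`
(for `|BF| ≤ l + 3`) follow by elementary arithmetic.
-/

set_option autoImplicit false
open Cfsg
open scoped ComplexConjugate
open Polynomial

namespace Cfsg.Agent.Helper75

/-- Integer data attached to a major subsection (`p = 2`). -/
structure MajorData {ι : Type*} (BF : Finset ι) (h : ι → ℕ) (d l : ℕ) (T : ι → ℤ)
    (N : ι → ι → ℤ) : Prop where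
  nonneg : ∀ χ ∈ BF, ∀ ψ ∈ BF, 0 ≤ N χ ψ
  row : ∀ χ ∈ BF, ∑ ψ ∈ BF, N χ ψ = 2 ^ d * T χ
  trace : ∑ χ ∈ BF, T χ = 2 ^ d * (l : ℤ)
  unit : ∀ ψ₀ ∈ BF, h ψ₀ = 0 → ∀ χ ∈ BF, 4 ^ h χ ≤ N ψ₀ χ ∧ 4 ^ h χ ≤ N χ ψ₀
  odd : ∀ ψ₀ ∈ BF, h ψ₀ = 0 → Odd (T ψ₀)
  high : ∀ χ ∈ BF, 1 ≤ h χ → ∃ e : ℤ, T χ = 2 ^ (h χ + 1) * e
  compl : ∀ χ ∈ BF, 0 ≤ 4 ^ d - 2 ^ (d + 1) * T χ + N χ χ
  compl' : ∀ χ ∈ BF, h χ = 0 → 1 ≤ d → 1 ≤ 4 ^ d - 2 ^ (d + 1) * T χ + N χ χ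
  ex : ∃ ψ₀ ∈ BF, h ψ₀ = 0

theorem majorData_of_matrix {k : ℕ} {ζ : ℂ} (hζ : IsPrimitiveRoot ζ (2 ^ (k + 1)))
    (σ : (ZMod (2 ^ (k + 1)))ˣ → (ℂ ≃+* ℂ))
    (hσ : ∀ (u : (ZMod (2 ^ (k + 1)))ˣ) (z : ℂ), z ^ 2 ^ (k + 1) = 1 →
      σ u z = z ^ (u : ZMod (2 ^ (k + 1))).val)
    {M : Ideal Cfsg.AlgInt} (hM : Cfsg.IsPModular 2 M)
    {ι : Type*} (BF : Finset ι) (h : ι → ℕ) (d l : ℕ) (a : ι → ι → ℂ)
    (ha : ∀ χ ψ, ∃ f : ℤ[X], aeval ζ f = a χ ψ)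
    (hherm : ∀ χ ψ, a ψ χ = conj (a χ ψ))
    (hrow : ∀ χ ∈ BF, ∑ ψ ∈ BF, a χ ψ * conj (a χ ψ) = (2 : ℂ) ^ d * a χ χ)
    (htrace : ∑ χ ∈ BF, a χ χ = (2 : ℂ) ^ d * (l : ℂ))
    (hunit : ∀ ψ₀ ∈ BF, h ψ₀ = 0 → ∀ χ ∈ BF,
      Cfsg.MemLocalRing M (a ψ₀ χ / 2 ^ h χ) ∧ ¬ Cfsg.MemLocalIdeal M (a ψ₀ χ / 2 ^ h χ))
    (hdiagR : ∀ χ ∈ BF, Cfsg.MemLocalRing M (a χ χ / 2 ^ h χ))
    (hdiag : ∀ χ ∈ BF, ∀ ψ₀ ∈ BF, h ψ₀ = 0 → Cfsg.MemLocalIdeal M (a χ ψ₀) →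
      Cfsg.MemLocalIdeal M (a χ χ / 2 ^ h χ))
    (hex : ∃ ψ₀ ∈ BF, h ψ₀ = 0) :
    ∃ (T : ι → ℤ) (N : ι → ι → ℤ), MajorData BF h d l T N := by
  classical
  have hMm := hM.2.1
  have h2I : Cfsg.MemLocalIdeal M (2 : ℂ) := by
    have := Helper77.memLocalIdeal_prime hM
    simpa using this
  have hconj2 : conj (2 : ℂ) = 2 := map_ofNat _ 2
  have h4pow : ∀ j : ℕ, (4 : ℂ) ^ j = 2 ^ j * 2 ^ j := by
    intro j
    rw [← mul_pow]
    norm_num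
  choose f hf using ha
  have hN : ∀ χ ψ, ∃ N : ℤ, gmean (2 ^ (k + 1)) σ (a χ ψ * conj (a χ ψ)) = (N : ℂ) ∧ 0 ≤ N ∧
      (¬ Cfsg.MemLocalIdeal M (a χ ψ) → Odd N) := by
    intro χ ψ
    rw [← hf χ ψ]
    exact gmean_normSq_aeval σ hσ hM hζ (f χ ψ)
  choose N hN1 hN2 hN3 using hN
  have hreal : ∀ χ, conj (a χ χ) = a χ χ := fun χ => (hherm χ χ).symm
  have hT : ∀ χ, ∃ T : ℤ, gmean (2 ^ (k + 1)) σ (a χ χ) = (T : ℂ) ∧
      (Cfsg.MemLocalIdeal M (a χ χ) ↔ Even T) := by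
    intro χ
    have h1 := hreal χ
    rw [← hf χ χ] at h1 ⊢
    exact gmean_real σ hσ hM hζ (f χ χ) h1
  choose T hT1 hT2 using hT
  have hNsym : ∀ χ ψ, N χ ψ = N ψ χ := by
    intro χ ψ
    have h1 := hN1 χ ψ
    have h2 := hN1 ψ χ
    rw [hherm χ ψ, Complex.conj_conj, mul_comm, h1] at h2
    exact_mod_cast h2
  have h2ne : ∀ j : ℕ, (2 : ℂ) ^ j ≠ 0 := fun j => pow_ne_zero _ two_ne_zero
  have hdiv : ∀ ψ₀ ∈ BF, h ψ₀ = 0 → ∀ χ ∈ BF, ∃ g : ℤ[X],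
      a ψ₀ χ = 2 ^ h χ * aeval ζ g ∧ ¬ Cfsg.MemLocalIdeal M (aeval ζ g) := by
    intro ψ₀ hψ₀ h0 χ hχ
    obtain ⟨hR, hnI⟩ := hunit ψ₀ hψ₀ h0 χ hχ
    rw [← hf ψ₀ χ] at hR
    obtain ⟨g, hg⟩ := exists_two_pow_mul_of_div hM hζ (h χ) (f ψ₀ χ) hR
    rw [hf ψ₀ χ] at hg
    refine ⟨g, hg, ?_⟩
    have e : a ψ₀ χ / 2 ^ h χ = aeval ζ g := by
      rw [hg, mul_div_cancel_left₀ _ (h2ne _)]
    rwa [e] at hnI
  have hcompl : ∀ χ, ∃ Ny : ℤ, Ny = 4 ^ d - 2 ^ (d + 1) * T χ + N χ χ ∧ 0 ≤ Ny ∧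
      (¬ Cfsg.MemLocalIdeal M ((2 : ℂ) ^ d - a χ χ) → Odd Ny) := by
    intro χ
    obtain ⟨Ny, hNy, hNy0, hNyodd⟩ := gmean_normSq_aeval σ hσ hM hζ ((2 : ℤ[X]) ^ d - f χ χ)
    have e1 : aeval ζ ((2 : ℤ[X]) ^ d - f χ χ) = (2 : ℂ) ^ d - a χ χ := by
      rw [map_sub, map_pow, hf χ χ, map_ofNat]
    rw [e1] at hNy hNyodd
    refine ⟨Ny, ?_, hNy0, hNyodd⟩
    have e2 : ((2 : ℂ) ^ d - a χ χ) * conj ((2 : ℂ) ^ d - a χ χ)
        = ((4 ^ d : ℕ) : ℂ) + ((-(2 ^ (d + 1)) : ℤ) : ℂ) * a χ χ + a χ χ * conj (a χ χ) := by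
      rw [map_sub, map_pow, hreal χ, hconj2]
      push_cast
      rw [h4pow, pow_succ]
      ring
    rw [e2, gmean_add, gmean_add, gmean_natCast, gmean_intCast_mul, hT1, hN1] at hNy
    have h3 : ((4 ^ d : ℕ) : ℤ) + (-(2 ^ (d + 1)) : ℤ) * T χ + N χ χ = Ny := by
      exact_mod_cast hNy
    rw [← h3]
    push_cast
    ring
  refine ⟨T, N, ⟨?_, ?_, ?_, ?_, ?_, ?_, ?_, ?_, hex⟩⟩
  · exact fun χ _ ψ _ => hN2 χ ψ
  · intro χ hχ
    have h2 := congrArg (gmean (2 ^ (k + 1)) σ) (hrow χ hχ)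
    rw [gmean_sum] at h2
    have h3 : (2 : ℂ) ^ d = ((2 ^ d : ℕ) : ℂ) := by norm_cast
    rw [h3, gmean_natCast_mul, hT1] at h2
    simp only [hN1] at h2
    exact_mod_cast h2
  · have h2 := congrArg (gmean (2 ^ (k + 1)) σ) htrace
    rw [gmean_sum] at h2
    have h3 : (2 : ℂ) ^ d * (l : ℂ) = ((2 ^ d * l : ℕ) : ℂ) := by norm_cast
    rw [h3, gmean_natCast] at h2
    simp only [hT1] at h2
    exact_mod_cast h2
  · intro ψ₀ hψ₀ h0 χ hχ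
    obtain ⟨g, hg, hgI⟩ := hdiv ψ₀ hψ₀ h0 χ hχ
    obtain ⟨N', hN', hN'0, hN'odd⟩ := gmean_normSq_aeval σ hσ hM hζ g
    have h1 : N ψ₀ χ = 4 ^ h χ * N' := by
      have h2 := hN1 ψ₀ χ
      have e : a ψ₀ χ * conj (a ψ₀ χ)
          = ((4 ^ h χ : ℕ) : ℂ) * (aeval ζ g * conj (aeval ζ g)) := by
        rw [hg, map_mul, map_pow, hconj2]
        push_cast
        rw [h4pow]
        ring
      rw [e, gmean_natCast_mul, hN'] at h2
      have h3 : ((4 ^ h χ : ℕ) : ℤ) * N' = N ψ₀ χ := by exact_mod_cast h2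
      rw [← h3]
      push_cast
      ring
    have h3 : 1 ≤ N' := by
      obtain ⟨r, hr⟩ := hN'odd hgI
      omega
    have h4 : (4 : ℤ) ^ h χ ≤ N ψ₀ χ := by
      rw [h1]
      have : (0 : ℤ) < 4 ^ h χ := by positivity
      nlinarith
    exact ⟨h4, by rw [hNsym χ ψ₀]; exact h4⟩
  · intro ψ₀ hψ₀ h0
    obtain ⟨-, hnI⟩ := hunit ψ₀ hψ₀ h0 ψ₀ hψ₀
    rw [h0, pow_zero, div_one] at hnI
    rw [← Int.not_even_iff_odd]
    exact fun hev => hnI ((hT2 ψ₀).mpr hev)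
  · intro χ hχ h1
    obtain ⟨ψ₀, hψ₀, h0⟩ := hex
    obtain ⟨g, hg, -⟩ := hdiv ψ₀ hψ₀ h0 χ hχ
    have h2 : Cfsg.MemLocalIdeal M (a χ ψ₀) := by
      rw [hherm ψ₀ χ, hg, map_mul, map_pow, hconj2]
      obtain ⟨j, hj⟩ := Nat.exists_eq_add_of_le h1
      rw [hj, pow_add, pow_one, mul_assoc]
      refine Helper77.memLocalIdeal_mul' hMm h2I ?_
      have e : (2 : ℂ) ^ j = ((2 ^ j : ℕ) : ℂ) := by norm_cast
      rw [e]
      exact Helper77.memLocalRing_mul hMm (Helper81.memLocalRing_natCast hMm.ne_top _)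
        (Helper77.memLocalRing_of_isIntegral hMm
          (map_isIntegral_int (starRingEnd ℂ) (aeval_isIntegral hζ g)))
    have h3 := hdiag χ hχ ψ₀ hψ₀ h0 h2
    have h4 := hdiagR χ hχ
    rw [← hf χ χ] at h4
    obtain ⟨g₂, hg₂⟩ := exists_two_pow_mul_of_div hM hζ (h χ) (f χ χ) h4
    rw [hf χ χ] at hg₂
    have e : a χ χ / 2 ^ h χ = aeval ζ g₂ := by
      rw [hg₂, mul_div_cancel_left₀ _ (h2ne _)]
    rw [e] at h3
    have hr2 : conj (aeval ζ g₂) = aeval ζ g₂ := by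
      rw [← e, map_div₀, map_pow, hreal χ, hconj2]
    obtain ⟨T'', hT'', hT''ev⟩ := gmean_real σ hσ hM hζ g₂ hr2
    obtain ⟨e', he'⟩ := hT''ev.mp h3
    refine ⟨e', ?_⟩
    have h5 := hT1 χ
    have h6 : a χ χ = ((2 ^ h χ : ℕ) : ℂ) * aeval ζ g₂ := by
      rw [hg₂]
      norm_cast
    rw [h6, gmean_natCast_mul, hT''] at h5
    have h7 : ((2 ^ h χ : ℕ) : ℤ) * T'' = T χ := by exact_mod_cast h5
    rw [← h7, he', pow_succ]
    push_cast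
    ring
  · intro χ _
    obtain ⟨Ny, hNy, h0, -⟩ := hcompl χ
    rw [← hNy]
    exact h0
  · intro χ hχ hh hd
    obtain ⟨Ny, hNy, h0, hodd⟩ := hcompl χ
    rw [← hNy]
    obtain ⟨-, hnI⟩ := hunit χ hχ hh χ hχ
    rw [hh, pow_zero, div_one] at hnI
    have hy : ¬ Cfsg.MemLocalIdeal M ((2 : ℂ) ^ d - a χ χ) := by
      intro hmem
      apply hnI
      have h2d : Cfsg.MemLocalIdeal M ((2 : ℂ) ^ d) := by
        obtain ⟨j, hj⟩ := Nat.exists_eq_add_of_le hd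
        rw [hj, pow_add, pow_one]
        have e : (2 : ℂ) ^ j = ((2 ^ j : ℕ) : ℂ) := by norm_cast
        rw [e]
        exact Helper77.memLocalIdeal_mul' hMm h2I (Helper81.memLocalRing_natCast hMm.ne_top _)
      have := Helper77.memLocalIdeal_sub hMm h2d hmem
      rwa [sub_sub_cancel] at this
    obtain ⟨r, hr⟩ := hodd hy
    omega

section arith

variable {ι : Type*} {BF : Finset ι} {h : ι → ℕ} {d l : ℕ} {T : ι → ℤ} {N : ι → ι → ℤ}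

theorem MajorData.T_pos_zero (D : MajorData BF h d l T N) {ψ : ι} (hψ : ψ ∈ BF)
    (h0 : h ψ = 0) : 1 ≤ T ψ := by
  obtain ⟨r, hr⟩ := D.odd ψ hψ h0
  have h1 := D.row ψ hψ
  have h2 : 0 ≤ ∑ χ ∈ BF, N ψ χ := Finset.sum_nonneg fun χ hχ => D.nonneg ψ hψ χ hχ
  have hP : (0 : ℤ) < 2 ^ d := by positivity
  rw [h1] at h2
  have h3 : 0 ≤ T ψ := by
    by_contra hcon
    have : T ψ < 0 := not_le.mp hcon
    nlinarith
  omega

theorem MajorData.T_high (D : MajorData BF h d l T N) {χ : ι} (hχ : χ ∈ BF) (h1 : 1 ≤ h χ) :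
    2 ^ (h χ + 1) ≤ T χ ∧ (4 : ℤ) ∣ T χ := by
  obtain ⟨ψ₀, hψ₀, h0⟩ := D.ex
  obtain ⟨e, he⟩ := D.high χ hχ h1
  have hrow := D.row χ hχ
  have h2 : N χ ψ₀ ≤ ∑ ψ ∈ BF, N χ ψ :=
    Finset.single_le_sum (fun ψ hψ => D.nonneg χ hχ ψ hψ) hψ₀
  have h3 := (D.unit ψ₀ hψ₀ h0 χ hχ).2
  have h4 : (1 : ℤ) ≤ 4 ^ h χ := one_le_pow₀ (by norm_num)
  have hP : (0 : ℤ) < 2 ^ d := by positivity
  have h5 : 0 < T χ := by
    by_contra hcon
    have : T χ ≤ 0 := not_lt.mp hcon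
    nlinarith
  have hQ : (0 : ℤ) < 2 ^ (h χ + 1) := by positivity
  have h6 : 1 ≤ e := by
    by_contra hcon
    have : e ≤ 0 := by omega
    rw [he] at h5
    nlinarith
  refine ⟨by rw [he]; nlinarith, ?_⟩
  obtain ⟨j, hj⟩ := Nat.exists_eq_add_of_le h1
  rw [he, hj]
  exact ⟨2 ^ j * e, by ring⟩

/-- The bound for rank at most three. -/
theorem MajorData.rank_bound (D : MajorData BF h d l T N) (hl : l ≤ 3) :
    ∑ χ ∈ BF, (if h χ = 0 then (3 : ℤ) else 2 * 2 ^ h χ) ≤ 3 * 2 ^ d := by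
  by_cases hc : ∃ ψ ∈ BF, h ψ = 0 ∧ T ψ = 1
  · obtain ⟨ψ, hψ, h0, hT1⟩ := hc
    have h1 := D.row ψ hψ
    rw [hT1, mul_one] at h1
    have h2 : ∑ χ ∈ BF, (4 : ℤ) ^ h χ ≤ ∑ χ ∈ BF, N ψ χ :=
      Finset.sum_le_sum fun χ hχ => (D.unit ψ hψ h0 χ hχ).1
    have h3 : ∑ χ ∈ BF, (if h χ = 0 then (3 : ℤ) else 2 * 2 ^ h χ)
        ≤ ∑ χ ∈ BF, 3 * (4 : ℤ) ^ h χ := by
      refine Finset.sum_le_sum fun χ _ => ?_
      split_ifs with hh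
      · rw [hh]
        norm_num
      · have h5 : (2 : ℤ) ^ h χ ≤ 4 ^ h χ := pow_le_pow_left₀ (by norm_num) (by norm_num) _
        have h6 : (0 : ℤ) < 2 ^ h χ := by positivity
        linarith
    rw [← Finset.mul_sum] at h3
    linarith
  · have hc' : ∀ ψ ∈ BF, h ψ = 0 → 3 ≤ T ψ := by
      intro ψ hψ h0
      have h1 := D.T_pos_zero hψ h0
      obtain ⟨r, hr⟩ := D.odd ψ hψ h0
      have h2 : T ψ ≠ 1 := fun h => hc ⟨ψ, hψ, h0, h⟩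
      omega
    have h3 : ∑ χ ∈ BF, (if h χ = 0 then (3 : ℤ) else 2 * 2 ^ h χ) ≤ ∑ χ ∈ BF, T χ := by
      refine Finset.sum_le_sum fun χ hχ => ?_
      split_ifs with hh
      · exact hc' χ hχ hh
      · have := (D.T_high hχ (Nat.one_le_iff_ne_zero.mpr hh)).1
        rw [pow_succ] at this
        linarith
    rw [D.trace] at h3
    have hP : (0 : ℤ) < 2 ^ d := by positivity
    have hl' : (l : ℤ) ≤ 3 := by exact_mod_cast hl
    nlinarith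

/-- The bound `k ≤ 2^d` when `k ≤ l + 3`. -/
theorem MajorData.count_bound [DecidableEq ι] (D : MajorData BF h d l T N)
    (hk : BF.card ≤ l + 3) : (BF.card : ℤ) ≤ 2 ^ d := by
  obtain ⟨ψ₀, hψ₀, h0⟩ := D.ex
  have hP : (0 : ℤ) < 2 ^ d := by positivity
  have h4 : (4 : ℤ) ^ d = 2 ^ d * 2 ^ d := by
    rw [← mul_pow]
    norm_num
  have hrow' : ∀ χ ∈ BF, 2 ^ d * (2 ^ d - T χ)
      = ∑ ψ ∈ BF.erase χ, N χ ψ + (4 ^ d - 2 ^ (d + 1) * T χ + N χ χ) := by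
    intro χ hχ
    have h1 := D.row χ hχ
    rw [← Finset.add_sum_erase BF _ hχ] at h1
    rw [h4, pow_succ]
    linarith
  have hone : ∀ χ : ι, (1 : ℤ) ≤ 4 ^ h χ := fun χ => one_le_pow₀ (by norm_num)
  have hzero : ∀ ψ ∈ BF, h ψ = 0 →
      (BF.card : ℤ) - 1 + (4 ^ d - 2 ^ (d + 1) * T ψ + N ψ ψ) ≤ 2 ^ d * (2 ^ d - T ψ) := by
    intro ψ hψ hh
    rw [hrow' ψ hψ]
    have h1 : ((BF.erase ψ).card : ℤ) ≤ ∑ χ ∈ BF.erase ψ, N ψ χ := by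
      calc ((BF.erase ψ).card : ℤ) = ∑ χ ∈ BF.erase ψ, (1 : ℤ) := by simp
        _ ≤ ∑ χ ∈ BF.erase ψ, N ψ χ := Finset.sum_le_sum fun χ hχ => by
            have hχ' := Finset.mem_of_mem_erase hχ
            exact le_trans (hone χ) (D.unit ψ hψ hh χ hχ').1
    rw [Finset.card_erase_of_mem hψ] at h1
    have hc1 : 1 ≤ BF.card := Finset.card_pos.mpr ⟨ψ, hψ⟩
    rw [Nat.cast_sub hc1] at h1
    push_cast at h1
    linarith
  have hcpos : (1 : ℤ) ≤ BF.card := by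
    exact_mod_cast Finset.card_pos.mpr ⟨ψ₀, hψ₀⟩
  rcases Nat.eq_zero_or_pos d with hd0 | hdpos
  · have h1 := hzero ψ₀ hψ₀ h0
    have h2 := D.compl ψ₀ hψ₀
    have h3 := D.T_pos_zero hψ₀ h0
    rw [hd0] at h1 h2 ⊢
    simp only [pow_zero] at h1 h2 ⊢
    linarith
  · have hzero' : ∀ ψ ∈ BF, h ψ = 0 → (BF.card : ℤ) ≤ 2 ^ d * (2 ^ d - T ψ) := by
      intro ψ hψ hh
      have h1 := hzero ψ hψ hh
      have h2 := D.compl' ψ hψ hh hdpos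
      linarith
    by_cases hc : ∃ ψ ∈ BF, h ψ = 0 ∧ 2 ^ d - T ψ = 1
    · obtain ⟨ψ, hψ, hh, h1⟩ := hc
      have h2 := hzero' ψ hψ hh
      rw [h1, mul_one] at h2
      exact h2
    · have hPeven : ∃ c : ℤ, (2 : ℤ) ^ d = 2 * c := by
        obtain ⟨j, hj⟩ := Nat.exists_eq_add_of_le hdpos
        exact ⟨2 ^ j, by rw [hj, pow_add, pow_one]⟩
      have hge3 : ∀ χ ∈ BF, 3 ≤ 2 ^ d - T χ := by
        intro χ hχ
        by_cases hh : h χ = 0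
        · have h1 := hzero' χ hχ hh
          have h2 : 0 < 2 ^ d - T χ := by
            by_contra hcon
            have : 2 ^ d - T χ ≤ 0 := not_lt.mp hcon
            nlinarith
          obtain ⟨r, hr⟩ := D.odd χ hχ hh
          obtain ⟨c, hc2⟩ := hPeven
          have h3 : 2 ^ d - T χ ≠ 1 := fun h => hc ⟨χ, hχ, hh, h⟩
          omega
        · have hh1 : 1 ≤ h χ := Nat.one_le_iff_ne_zero.mpr hh
          obtain ⟨hTge, c, hc4⟩ := D.T_high hχ hh1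
          have h1 := hrow' χ hχ
          have hne : ψ₀ ≠ χ := fun e => hh (e ▸ h0)
          have hmem : ψ₀ ∈ BF.erase χ := Finset.mem_erase.mpr ⟨hne, hψ₀⟩
          have h2 : N χ ψ₀ ≤ ∑ ψ ∈ BF.erase χ, N χ ψ :=
            Finset.single_le_sum (fun ψ hψ => D.nonneg χ hχ ψ (Finset.mem_of_mem_erase hψ)) hmem
          have h3 := (D.unit ψ₀ hψ₀ h0 χ hχ).2
          have h4' := hone χ
          have h5 := D.compl χ hχ
          have h6 : 0 < 2 ^ d - T χ := by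
            by_contra hcon
            have : 2 ^ d - T χ ≤ 0 := not_lt.mp hcon
            nlinarith
          have h7 : (4 : ℤ) ≤ T χ := by
            have h8 : (4 : ℤ) ≤ 2 ^ (h χ + 1) := by
              obtain ⟨j, hj⟩ := Nat.exists_eq_add_of_le hh1
              rw [hj]
              have h9 : (1 : ℤ) ≤ 2 ^ j := one_le_pow₀ (by norm_num)
              have e : (2 : ℤ) ^ (1 + j + 1) = 4 * 2 ^ j := by ring
              rw [e]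
              linarith
            linarith
          rcases Nat.lt_or_ge d 2 with hd1 | hd2
          · have hd1' : d = 1 := by omega
            rw [hd1'] at h6
            norm_num at h6
            linarith
          · obtain ⟨j, hj⟩ := Nat.exists_eq_add_of_le hd2
            have e : (2 : ℤ) ^ d = 4 * 2 ^ j := by
              rw [hj, pow_add]
              norm_num
            rw [e, hc4] at h6 ⊢
            generalize (2 : ℤ) ^ j = Y at h6 ⊢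
            omega
      have hsum : ∑ χ ∈ BF, (3 : ℤ) ≤ ∑ χ ∈ BF, (2 ^ d - T χ) := Finset.sum_le_sum hge3
      rw [Finset.sum_sub_distrib, D.trace] at hsum
      simp only [Finset.sum_const, nsmul_eq_mul] at hsum
      have hk' : (BF.card : ℤ) ≤ l + 3 := by exact_mod_cast hk
      nlinarith [mul_nonneg hP.le (sub_nonneg.mpr hk')]

end arith

end Cfsg.Agent.Helper75
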