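import Mathlib

/-!
# `SL(4, 2)` is generated by transvections (helper75; piece GEN of CALL S2132)
-/

set_option autoImplicit false

namespace Cfsg.Agent.Helper75

theorem mclinv_list_mem (L : List (Matrix.TransvectionStruct (Fin 4) (ZMod 2))) :
    ∀ A : Matrix.SpecialLinearGroup (Fin 4) (ZMod 2),
      (A : Matrix (Fin 4) (Fin 4) (ZMod 2)) = (L.map Matrix.TransvectionStruct.toMatrix).prod →
      A ∈ Subgroup.closure {A : Matrix.SpecialLinearGroup (Fin 4) (ZMod 2) |
        ∃ i j : Fin 4, i ≠ j ∧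
          (A : Matrix (Fin 4) (Fin 4) (ZMod 2)) = Matrix.transvection i j 1} := by
  induction L with
  | nil =>
    intro A hA
    have h1 : A = 1 := by
      apply Subtype.ext
      simpa using hA
    rw [h1]; exact Subgroup.one_mem _
  | cons t L ih =>
    intro A hA
    rw [List.map_cons, List.prod_cons] at hA
    have hdetL : ((L.map Matrix.TransvectionStruct.toMatrix).prod).det = 1 :=
      Matrix.TransvectionStruct.det_toMatrix_prod L
    have hdett : t.toMatrix.det = 1 := Matrix.TransvectionStruct.det t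
    obtain ⟨T, hT⟩ : ∃ T : Matrix.SpecialLinearGroup (Fin 4) (ZMod 2),
        (T : Matrix (Fin 4) (Fin 4) (ZMod 2)) = t.toMatrix := ⟨⟨t.toMatrix, hdett⟩, rfl⟩
    obtain ⟨B, hB⟩ : ∃ B : Matrix.SpecialLinearGroup (Fin 4) (ZMod 2),
        (B : Matrix (Fin 4) (Fin 4) (ZMod 2)) = (L.map Matrix.TransvectionStruct.toMatrix).prod :=
      ⟨⟨_, hdetL⟩, rfl⟩
    have hAeq : A = T * B := by
      apply Subtype.ext
      rw [Matrix.SpecialLinearGroup.coe_mul, hT, hB]
      exact hA
    rw [hAeq]
    refine Subgroup.mul_mem _ ?_ (ih B hB)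
    obtain ⟨i, j, hij, c⟩ := t
    have hc : ∀ c : ZMod 2, c = 0 ∨ c = 1 := by decide
    rcases hc c with rfl | rfl
    · have h1 : T = 1 := by
        apply Subtype.ext
        rw [hT]
        simp [Matrix.TransvectionStruct.toMatrix]
      rw [h1]; exact Subgroup.one_mem _
    · apply Subgroup.subset_closure
      exact ⟨i, j, hij, hT⟩

/-- PIECE GEN -/
theorem sl4_two_closure_transvections :
    Subgroup.closure {A : Matrix.SpecialLinearGroup (Fin 4) (ZMod 2) |
      ∃ i j : Fin 4, i ≠ j ∧
        (A : Matrix (Fin 4) (Fin 4) (ZMod 2)) = Matrix.transvection i j 1} = ⊤ := by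
  rw [eq_top_iff]
  intro A _
  obtain ⟨L, L', D, hM⟩ := Matrix.Pivot.exists_list_transvec_mul_diagonal_mul_list_transvec
    (A : Matrix (Fin 4) (Fin 4) (ZMod 2))
  have hdet : (A : Matrix (Fin 4) (Fin 4) (ZMod 2)).det = 1 := A.2
  rw [hM, Matrix.det_mul, Matrix.det_mul, Matrix.TransvectionStruct.det_toMatrix_prod,
    Matrix.TransvectionStruct.det_toMatrix_prod, one_mul, mul_one, Matrix.det_diagonal] at hdet
  have hD : ∀ i, D i = 1 := by
    intro i
    have h0 : D i ≠ 0 := by
      intro h0
      rw [Finset.prod_eq_zero (Finset.mem_univ i) h0] at hdet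
      exact zero_ne_one hdet
    have hc : ∀ c : ZMod 2, c ≠ 0 → c = 1 := by decide
    exact hc _ h0
  have hdiag : Matrix.diagonal D = 1 := by
    rw [show D = fun _ => 1 from funext hD]; exact Matrix.diagonal_one
  rw [hdiag, mul_one, ← List.prod_append, ← List.map_append] at hM
  exact mclinv_list_mem (L ++ L') A hM

end Cfsg.Agent.Helper75
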