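import Cfsg.Prelude.Def_Transfer
import Cfsg.Prelude.Def_Solvable
import Cfsg.Agent.Helper63.N15Defs

set_option autoImplicit false

namespace Cfsg.Agent.Helper75.N15

open Cfsg.Agent.Helper63.N15

variable {G : Type*} [Group G] [Finite G] {V : Type*} [AddCommGroup V] [Module (ZMod 3) V]
  [Finite V] {ρ : Representation (ZMod 3) G V} {R : Subgroup G} {b q₁ q₂ q₃ : G} {v₁ v₂ v₃ : V}

/-- F1. `G` is the normal closure of `b`. -/
theorem f1 (c : Cfg ρ R b q₁ q₂ q₃ v₁ v₂ v₃) :
    ∀ N : Subgroup G, N.Normal → b ∈ N → N = ⊤ := by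
  intro N hN hb
  have hz : Subgroup.zpowers b ≤ N := (Subgroup.zpowers_le).mpr hb
  have hR : R ≤ N := by
    rw [← c.comm, Subgroup.commutator_le]
    intro r _ y hy
    rw [commutatorElement_def]
    exact N.mul_mem (hN.conj_mem y (hz hy) r) (N.inv_mem (hz hy))
  rw [eq_top_iff, ← c.gen]
  exact sup_le hR hz

end Cfsg.Agent.Helper75.N15
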