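import Cfsg.Prelude.Def_Transfer
import Cfsg.Prelude.Def_Solvable
import Cfsg.Agent.Helper63.N15Defs

set_option autoImplicit false

namespace Cfsg.Agent.Helper75.N15

open Cfsg.Agent.Helper63.N15

variable {G : Type*} [Group G] [Finite G] {V : Type*} [AddCommGroup V] [Module (ZMod 3) V]
  [Finite V] {ρ : Representation (ZMod 3) G V} {R : Subgroup G} {b q₁ q₂ q₃ : G} {v₁ v₂ v₃ : V}

/-- F2. A normal subgroup centralized by `b` is central. -/
theorem f2 (c : Cfg ρ R b q₁ q₂ q₃ v₁ v₂ v₃) :
    ∀ N : Subgroup G, N.Normal → (∀ x ∈ N, x * b = b * x) → ∀ x ∈ N, ∀ g : G, x * g = g * x := by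
  intro N hN hb
  have f1' : ∀ M : Subgroup G, M.Normal → b ∈ M → M = ⊤ := by
    intro M hM hbM
    have hz : Subgroup.zpowers b ≤ M := (Subgroup.zpowers_le).mpr hbM
    have hR : R ≤ M := by
      rw [← c.comm, Subgroup.commutator_le]
      intro r _ y hy
      rw [commutatorElement_def]
      exact M.mul_mem (hM.conj_mem y (hz hy) r) (M.inv_mem (hz hy))
    rw [eq_top_iff, ← c.gen]
    exact sup_le hR hz
  have hCn : (Subgroup.centralizer (N : Set G)).Normal := by
    haveI := hN
    infer_instance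
  have hbC : b ∈ Subgroup.centralizer (N : Set G) := by
    rw [Subgroup.mem_centralizer_iff]
    intro x hx
    exact hb x hx
  have htop : Subgroup.centralizer (N : Set G) = ⊤ := f1' _ hCn hbC
  intro x hx g
  have hg : g ∈ Subgroup.centralizer (N : Set G) := by
    rw [htop]
    exact Subgroup.mem_top g
  exact (Subgroup.mem_centralizer_iff.mp hg) x hx

end Cfsg.Agent.Helper75.N15
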