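import Cfsg.Prelude.Def_Transfer
import Cfsg.Prelude.Def_Solvable
import Cfsg.Agent.Helper63.N15Defs

set_option autoImplicit false

namespace Cfsg.Agent.Helper75.N15

open Cfsg.Agent.Helper63.N15

variable {G : Type*} [Group G] [Finite G] {V : Type*} [AddCommGroup V] [Module (ZMod 3) V]
  [Finite V] {ρ : Representation (ZMod 3) G V} {R : Subgroup G} {b q₁ q₂ q₃ : G} {v₁ v₂ v₃ : V}

/-- F3. `G / R` is cyclic, hence abelian: all commutators lie in `R`. -/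
theorem f3 (c : Cfg ρ R b q₁ q₂ q₃ v₁ v₂ v₃) :
    ∀ g h : G, g * h * g⁻¹ * h⁻¹ ∈ R := by
  haveI := c.Rn
  have hdec : ∀ g : G, ∃ k : ℤ, (QuotientGroup.mk g : G ⧸ R) = QuotientGroup.mk (b ^ k) := by
    intro g
    have hg : g ∈ ((R ⊔ Subgroup.zpowers b : Subgroup G) : Set G) := by
      rw [c.gen]
      exact Set.mem_univ g
    rw [Subgroup.normal_mul] at hg
    obtain ⟨r, hr, y, hy, rfl⟩ := Set.mem_mul.mp hg
    obtain ⟨k, rfl⟩ := Subgroup.mem_zpowers_iff.mp hy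
    refine ⟨k, ?_⟩
    rw [QuotientGroup.mk_mul, (QuotientGroup.eq_one_iff r).mpr hr, one_mul]
  intro g h
  obtain ⟨k, hk⟩ := hdec g
  obtain ⟨l, hl⟩ := hdec h
  rw [← QuotientGroup.eq_one_iff, QuotientGroup.mk_mul, QuotientGroup.mk_mul,
    QuotientGroup.mk_mul, QuotientGroup.mk_inv, QuotientGroup.mk_inv, hk, hl,
    ← QuotientGroup.mk_inv, ← QuotientGroup.mk_inv, ← QuotientGroup.mk_mul,
    ← QuotientGroup.mk_mul, ← QuotientGroup.mk_mul]
  have h1 : b ^ k * b ^ l * (b ^ k)⁻¹ * (b ^ l)⁻¹ = 1 := by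
    rw [zpow_mul_comm b k l]
    group
  rw [h1]
  rfl

end Cfsg.Agent.Helper75.N15
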