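import Cfsg.Prelude.Def_Transfer
import Cfsg.Prelude.Def_Solvable
import Cfsg.Agent.Helper63.N15Defs

set_option autoImplicit false

namespace Cfsg.Agent.Helper75.N15

open Cfsg.Agent.Helper63.N15

variable {G : Type*} [Group G] [Finite G] {V : Type*} [AddCommGroup V] [Module (ZMod 3) V]
  [Finite V] {ρ : Representation (ZMod 3) G V} {R : Subgroup G} {b q₁ q₂ q₃ : G} {v₁ v₂ v₃ : V}

/-- FQ. `G = R ∪ R b ∪ R b²`. -/
theorem fq (c : Cfg ρ R b q₁ q₂ q₃ v₁ v₂ v₃) :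
    ∀ g : G, ∃ r ∈ R, g = r ∨ g = r * b ∨ g = r * (b * b) := by
  intro g
  haveI := c.Rn
  have hg : g ∈ ((R ⊔ Subgroup.zpowers b : Subgroup G) : Set G) := by
    rw [c.gen]
    exact Set.mem_univ g
  rw [Subgroup.normal_mul] at hg
  obtain ⟨r, hr, y, hy, rfl⟩ := Set.mem_mul.mp hg
  obtain ⟨k, rfl⟩ := Subgroup.mem_zpowers_iff.mp hy
  have hb3 : b ^ (3 : ℤ) = 1 := by exact_mod_cast c.b3
  have hk : b ^ k = b ^ (k % 3) := zpow_eq_zpow_emod k hb3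
  have h0 : 0 ≤ k % 3 := Int.emod_nonneg k (by norm_num)
  have h3 : k % 3 < 3 := Int.emod_lt_of_pos k (by norm_num)
  refine ⟨r, hr, ?_⟩
  rw [hk]
  obtain ⟨j, hj⟩ : ∃ j : ℤ, j = k % 3 := ⟨_, rfl⟩
  rw [← hj] at h0 h3 ⊢
  interval_cases j
  · left
    rw [zpow_zero, mul_one]
  · right; left
    rw [zpow_one]
  · right; right
    rw [zpow_two]

end Cfsg.Agent.Helper75.N15
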