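import Cfsg.Agent.Helper75.PrincipalTransport
import Cfsg.Agent.Helper70.FrobComp
import Cfsg.Agent.Helper81.BlockKer
import Cfsg.Agent.Helper77.PRegular
import Cfsg.Agent.Helper80.CharIrr

/-!
# The principal block is nilpotent iff it has `p`-regular rank one (iff `G` is `p`-nilpotent)

* `irr_eq_one_of_pRegular_of_blockRank`: if `blockRank p B₀ = 1` then every `χ ∈ B₀` is constant
  on the `p`-regular elements.
* `blockCoeff_one_ne_zero`: the coefficient at `1` of a nonempty set of characters is nonzero.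
* `nilpotent_principal_iff`: `IsNilpotentBlock p M B₀(G) ↔ blockRank p B₀(G) = 1`
  (uses Frobenius' normal `p`-complement theorem, `Helper70.FrobCond.hasNPC`).
-/

set_option autoImplicit false
open Cfsg
open scoped ComplexConjugate

namespace Cfsg.Agent.Helper75

universe u

variable {G : Type u} [Group G]

theorem pRegularPart_trivIrr (p : ℕ) :
    Cfsg.pRegularPart p (Helper81.trivIrr G : G → ℂ) = pregInd p G := by
  funext g
  rw [Helper77.pRegularPart_apply]
  rfl

theorem pregInd_one (p : ℕ) [hp : Fact p.Prime] : pregInd p G 1 = 1 := by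
  unfold pregInd
  rw [orderOf_one, if_pos]
  exact hp.out.one_lt.ne' ∘ Nat.dvd_one.mp

theorem pregInd_ne_zero (p : ℕ) [Fact p.Prime] : pregInd p G ≠ 0 := by
  intro h
  have := congrFun h 1
  rw [pregInd_one] at this
  exact one_ne_zero this

theorem pregInd_of_not_dvd (p : ℕ) {g : G} (hg : ¬ p ∣ orderOf g) : pregInd p G g = 1 := by
  unfold pregInd
  rw [if_pos hg]

theorem pRegularPart_eq_smul_pregInd (p : ℕ) {χ : G → ℂ}
    (h : ∀ g : G, ¬ p ∣ orderOf g → χ g = χ 1) :
    Cfsg.pRegularPart p χ = χ 1 • pregInd p G := by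
  funext g
  rw [Helper77.pRegularPart_apply, Pi.smul_apply, smul_eq_mul]
  unfold pregInd
  by_cases hg : p ∣ orderOf g
  · simp [hg]
  · simp [hg, h g hg]

/-- If the principal block has `p`-regular rank one, its characters are constant on the
`p`-regular elements. -/
theorem irr_eq_one_of_pRegular_of_blockRank {p : ℕ} [Fact p.Prime] {M : Ideal Cfsg.AlgInt}
    (hM : Cfsg.IsPModular p M)
    (hrank : Cfsg.blockRank p (Cfsg.principalBlock M G) = 1) {χ : Cfsg.IrrCharacter G}
    (hχ : χ ∈ Cfsg.principalBlock M G) {g : G} (hg : ¬ p ∣ orderOf g) :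
    (χ : G → ℂ) g = (χ : G → ℂ) 1 := by
  haveI := hM.2.1.isPrime
  unfold Cfsg.blockRank at hrank
  set V := Submodule.span ℂ ((fun χ : Cfsg.IrrCharacter G => Cfsg.pRegularPart p (χ : G → ℂ)) ''
    Cfsg.principalBlock M G) with hV
  have hmem0 : pregInd p G ∈ V := by
    apply Submodule.subset_span
    exact ⟨Helper81.trivIrr G, Helper81.trivIrr_mem_principalBlock, pRegularPart_trivIrr p⟩
  have hne0 : (⟨pregInd p G, hmem0⟩ : V) ≠ 0 := by
    intro h
    exact pregInd_ne_zero p (congrArg Subtype.val h)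
  have h1 := (finrank_eq_one_iff_of_nonzero' (⟨pregInd p G, hmem0⟩ : V) hne0).1 hrank
  have hmemχ : Cfsg.pRegularPart p (χ : G → ℂ) ∈ V :=
    Submodule.subset_span ⟨χ, hχ, rfl⟩
  obtain ⟨c, hc⟩ := h1 ⟨_, hmemχ⟩
  have hc' : c • pregInd p G = Cfsg.pRegularPart p (χ : G → ℂ) := congrArg Subtype.val hc
  have e1 := congrFun hc' 1
  have eg := congrFun hc' g
  rw [Pi.smul_apply, smul_eq_mul, Helper77.pRegularPart_apply] at e1 eg
  have hp1 : ¬ p ∣ 1 := fun h => (Fact.out : p.Prime).one_lt.ne' (Nat.dvd_one.mp h)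
  rw [pregInd_one, mul_one, orderOf_one, if_pos hp1] at e1
  rw [pregInd_of_not_dvd p hg, mul_one, if_pos hg] at eg
  rw [← eg, ← e1]

theorem blockCoeff_one_ne_zero [Fintype G] {B : Set (Cfsg.IrrCharacter G)}
    {χ₀ : Cfsg.IrrCharacter G} (h₀ : χ₀ ∈ B) : Cfsg.blockCoeff B 1 ≠ 0 := by
  classical
  haveI : Fintype (Cfsg.IrrCharacter G) := Fintype.ofFinite _
  rw [Helper77.blockCoeff_eq_sum]
  have h1 : ∀ χ : Cfsg.IrrCharacter G,
      (if χ ∈ B then (χ : G → ℂ) 1 * (χ : G → ℂ) (1 : G)⁻¹ else 0)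
        = (((if χ ∈ B then Cfsg.charDegree (χ : G → ℂ) ^ 2 else 0 : ℕ)) : ℂ) := by
    intro χ
    split_ifs
    · rw [inv_one, Helper80.irr_one_eq]
      push_cast
      ring
    · simp
  rw [Finset.sum_congr rfl fun χ _ => h1 χ, ← Nat.cast_sum]
  have h2 : 0 < ∑ χ : Cfsg.IrrCharacter G,
      (if χ ∈ B then Cfsg.charDegree (χ : G → ℂ) ^ 2 else 0) := by
    refine lt_of_lt_of_le ?_ (Finset.single_le_sum (fun χ _ => Nat.zero_le _)
      (Finset.mem_univ χ₀))
    rw [if_pos h₀]
    exact pow_pos (Helper80.irr_degree_pos χ₀) 2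
  have hcard : (Nat.card G : ℂ) ≠ 0 := by
    have : 0 < Nat.card G := Nat.card_pos
    exact_mod_cast this.ne'
  exact mul_ne_zero (inv_ne_zero hcard) (by exact_mod_cast h2.ne')

/-- **The principal block is nilpotent iff it has a unique irreducible Brauer character.** -/
theorem nilpotent_principal_iff [Fintype G] {p : ℕ} [hp : Fact p.Prime] {M : Ideal Cfsg.AlgInt}
    (hM : Cfsg.IsPModular p M) :
    Cfsg.IsNilpotentBlock p M (Cfsg.principalBlock M G) ↔
      Cfsg.blockRank p (Cfsg.principalBlock M G) = 1 := by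
  classical
  have hMm := hM.2.1
  haveI := hMm.isPrime
  have hB0 : Cfsg.IsPBlock M (Cfsg.principalBlock M G) := ⟨Helper81.trivIrr G, rfl⟩
  constructor
  · intro hnil
    have hfrob : Helper70.FrobCond p G := by
      intro Q hQ g hg hcop
      exact hnil.2 Q _ ((isBrauerPairOf_principal_iff hM Q hQ _ ⟨Helper81.trivIrr _, rfl⟩).2 rfl)
        g hg (stabilizesBlock_principal_centralizer M Q g hg)
        ((Nat.Prime.coprime_iff_not_dvd hp.out).1 hcop.symm)
    obtain ⟨K, hKn, hKc, k, hKi⟩ := hfrob.hasNPC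
    haveI := hKn
    haveI : Fintype K := Fintype.ofFinite K
    have hpK : ¬ p ∣ Nat.card K := (Nat.Prime.coprime_iff_not_dvd hp.out).1 hKc.symm
    have hconst : ∀ χ ∈ Cfsg.principalBlock M G, ∀ g : G, ¬ p ∣ orderOf g →
        (χ : G → ℂ) g = (χ : G → ℂ) 1 := by
      intro χ hχ g hg
      have h1 := Helper81.apply_eq_one_of_sameBlock hM K hpK (χ := Helper81.trivIrr G) (ψ := χ) hχ
        (fun n _ => rfl)
      exact h1 g (Helper70.mem_of_coprime_orderOf_of_index_pow K hKi g
        ((Nat.Prime.coprime_iff_not_dvd hp.out).2 hg).symm)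
    unfold Cfsg.blockRank
    have hspan : Submodule.span ℂ ((fun χ : Cfsg.IrrCharacter G =>
        Cfsg.pRegularPart p (χ : G → ℂ)) '' Cfsg.principalBlock M G)
        = Submodule.span ℂ {pregInd p G} := by
      apply le_antisymm
      · rw [Submodule.span_le]
        rintro _ ⟨χ, hχ, rfl⟩
        show Cfsg.pRegularPart p (χ : G → ℂ) ∈ Submodule.span ℂ {pregInd p G}
        rw [pRegularPart_eq_smul_pregInd p (hconst χ hχ)]
        exact Submodule.smul_mem _ _ (Submodule.mem_span_singleton_self _)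
      · rw [Submodule.span_le, Set.singleton_subset_iff]
        apply Submodule.subset_span
        exact ⟨Helper81.trivIrr G, Helper81.trivIrr_mem_principalBlock, pRegularPart_trivIrr p⟩
    rw [hspan]
    exact finrank_span_singleton (pregInd_ne_zero p)
  · intro hrank
    refine ⟨hB0, fun Q e hpair x hx _ hreg => ?_⟩
    have hQ : IsPGroup p Q := hpair.1.1
    rw [Subgroup.mem_centralizer_iff]
    intro q hq
    by_contra hne
    have hcQ : x * q * x⁻¹ * q⁻¹ ∈ Q :=
      Q.mul_mem ((Subgroup.mem_normalizer_iff.mp hx q).1 hq) (Q.inv_mem hq)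
    have hc1 : x * q * x⁻¹ * q⁻¹ ≠ 1 := by
      intro h
      apply hne
      have : x * q = q * x := by
        calc x * q = (x * q * x⁻¹ * q⁻¹) * (q * x) := by group
          _ = q * x := by rw [h, one_mul]
      exact this.symm
    have hker : ∀ χ ∈ Cfsg.principalBlock M G,
        (χ : G → ℂ) (x * q * x⁻¹ * q⁻¹) = (χ : G → ℂ) 1 := by
      intro χ hχ
      have hχc := Helper80.isCharacter_of_irr χ.2
      have hx1 : x ∈ Helper79.charKer hχc :=
        irr_eq_one_of_pRegular_of_blockRank hM hrank hχ hreg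
      have hx2 : q * x⁻¹ * q⁻¹ ∈ Helper79.charKer hχc :=
        (Helper79.charKer_normal hχc).conj_mem _ ((Helper79.charKer hχc).inv_mem hx1) q
      have h3 := (Helper79.charKer hχc).mul_mem hx1 hx2
      have e : x * (q * x⁻¹ * q⁻¹) = x * q * x⁻¹ * q⁻¹ := by group
      rw [e] at h3
      exact h3
    have hdvd : p ∣ orderOf (x * q * x⁻¹ * q⁻¹) := by
      obtain ⟨k, hk⟩ := (IsPGroup.iff_orderOf.mp hQ) ⟨_, hcQ⟩
      rw [Subgroup.orderOf_mk] at hk
      rw [hk]
      rcases k with _ | k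
      · rw [pow_zero, orderOf_eq_one_iff] at hk
        exact absurd hk hc1
      · exact dvd_pow_self p (Nat.succ_ne_zero k)
    have h0 := Helper77.blockCoeff_eq_zero_of_dvd_orderOf hM hB0 hdvd
    have h1 : Cfsg.blockCoeff (Cfsg.principalBlock M G) (x * q * x⁻¹ * q⁻¹)
        = Cfsg.blockCoeff (Cfsg.principalBlock M G) 1 := by
      unfold Cfsg.blockCoeff
      congr 1
      apply finsum_mem_congr rfl
      intro χ hχ
      rw [hker χ hχ]
    rw [h1] at h0
    exact blockCoeff_one_ne_zero (Helper81.trivIrr_mem_principalBlock (G := G) (M := M)) h0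

end Cfsg.Agent.Helper75
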