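import Mathlib
import Cfsg.Agent.Helper95.OTSDefs

set_option autoImplicit false

/-!
# CALL OTS (helper95, S5972): piece ODD (helper75)

If the order of `q` mod `r` is odd, an invariant subspace `U ≠ ⊥` without fixed vectors contains
a nonzero invariant totally isotropic subspace: the kernel of `P(T)` on `U`, for `P` a monic
irreducible factor of the cyclotomic polynomial (`P` is coprime to its reverse).
-/

namespace Cfsg.Agent.Helper75.OTS

open Module Polynomial
open Cfsg.Agent.Helper13.TIsp Cfsg.Agent.Helper42.SpGroup Cfsg.Agent.Helper42.SpModels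
open Cfsg.Agent.Helper95.OTS

variable {F : Type*} [Field F] {V : Type*} [AddCommGroup V] [Module F V] [FiniteDimensional F V]
  (B : LinearMap.BilinForm F V)

omit [FiniteDimensional F V] in
theorem otsodd_aeval_mem (f : V →ₗ[F] V) (U : Submodule F V) (hU : U.map f ≤ U) (Q : F[X])
    {v : V} (hv : v ∈ U) : aeval f Q v ∈ U := by
  have hf : ∀ u ∈ U, f u ∈ U := fun u hu => hU (Submodule.mem_map_of_mem hu)
  have hpow : ∀ k : ℕ, ∀ u ∈ U, (f ^ k) u ∈ U := by
    intro k
    induction k with
    | zero => intro u hu; simpa using hu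
    | succ k ih =>
      intro u hu
      rw [pow_succ', Module.End.mul_apply]
      exact hf _ (ih u hu)
  rw [aeval_eq_sum_range, LinearMap.sum_apply]
  refine U.sum_mem (fun k _ => ?_)
  rw [LinearMap.smul_apply]
  exact U.smul_mem _ (hpow k v hv)

omit [FiniteDimensional F V] in
theorem otsodd_factor (T : Module.End F V) (U : Submodule F V) (hU : U.map T ≤ U) :
    ∀ s : Multiset F[X], ∀ v ∈ U, v ≠ 0 → aeval T s.prod v = 0 →
      ∃ f ∈ s, ∃ w ∈ U, w ≠ 0 ∧ aeval T f w = 0 := by
  intro s
  induction s using Multiset.induction_on with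
  | empty =>
    intro v _ hv0 h
    simp at h
    exact absurd h hv0
  | cons f s ih =>
    intro v hv hv0 h
    rw [Multiset.prod_cons, map_mul, Module.End.mul_apply] at h
    by_cases hw : aeval T s.prod v = 0
    · obtain ⟨g, hg, w, hw, hw0, hgw⟩ := ih v hv hv0 hw
      exact ⟨g, Multiset.mem_cons_of_mem hg, w, hw, hw0, hgw⟩
    · exact ⟨f, Multiset.mem_cons_self f s, _, otsodd_aeval_mem T U hU _ hv, hw, h⟩

/-- PIECE ODD. -/
theorem sym_odd [Fintype F] (hsym : ∀ u v, B u v = B v u) (h2 : (2 : F) ≠ 0)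
    (T : Module.End F V) (hT : Preserves B T)
    (r : ℕ) [Fact r.Prime] (hr2 : 2 < r) (hrF : (r : F) ≠ 0) (hTr : T ^ r = 1)
    (hodd : Odd (orderOf ((Fintype.card F : ℕ) : ZMod r))) (U : Submodule F V)
    (hU : U.map T ≤ U) (hU0 : U ≠ ⊥) (hUk : U ⊓ LinearMap.ker (T - 1) = ⊥) :
    ∃ W' : Submodule F V, W' ≤ U ∧ TI B W' ∧ W'.map T ≤ W' ∧ W' ≠ ⊥ := by
  classical
  have hr : r.Prime := Fact.out
  obtain ⟨p, hp⟩ := CharP.exists F
  have := hp
  have : Fact p.Prime := ⟨CharP.char_is_prime F p⟩
  have hrp : r ≠ p := by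
    intro h
    apply hrF
    rw [h]
    exact CharP.cast_eq_zero F p
  -- `Φ(T)` kills `U`
  have hcyc : cyclotomic r F = ∑ j ∈ Finset.range r, (X : F[X]) ^ j := cyclotomic_prime F r
  have hkill : ∀ v ∈ U, aeval T (cyclotomic r F) v = 0 := by
    intro v hv
    have h1 : aeval T (cyclotomic r F) v ∈ U := otsodd_aeval_mem T U hU _ hv
    have h2 : aeval T (cyclotomic r F) v ∈ LinearMap.ker (T - 1) := by
      rw [LinearMap.mem_ker, ← Module.End.mul_apply]
      have h3 : (T - 1) * aeval T (cyclotomic r F) = 0 := by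
        have h4 : (T - 1) * aeval T (cyclotomic r F)
            = aeval T ((X - 1) * cyclotomic r F) := by
          simp [map_mul, map_sub]
        rw [h4, hcyc, mul_comm, geom_sum_mul]
        simp [hTr]
      rw [h3, LinearMap.zero_apply]
    have h5 : aeval T (cyclotomic r F) v ∈ U ⊓ LinearMap.ker (T - 1) := ⟨h1, h2⟩
    rw [hUk] at h5
    exact (Submodule.mem_bot F).mp h5
  obtain ⟨v, hvU, hv0⟩ := (Submodule.ne_bot_iff U).mp hU0
  -- an irreducible factor with nonzero kernel on `U`
  have hne : cyclotomic r F ≠ 0 := cyclotomic_ne_zero r F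
  have hprod : Associated (UniqueFactorizationMonoid.normalizedFactors (cyclotomic r F)).prod
      (cyclotomic r F) := UniqueFactorizationMonoid.prod_normalizedFactors hne
  obtain ⟨u, hu⟩ := hprod
  have hkv : aeval T (UniqueFactorizationMonoid.normalizedFactors (cyclotomic r F)).prod v
      = 0 := by
    have h1 : (UniqueFactorizationMonoid.normalizedFactors (cyclotomic r F)).prod
        = cyclotomic r F * ((u⁻¹ : (F[X])ˣ) : F[X]) := by
      have h1' := congrArg (fun f => f * ((u⁻¹ : (F[X])ˣ) : F[X])) hu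
      simp only [mul_assoc, Units.mul_inv, mul_one] at h1'
      exact h1'
    rw [h1, mul_comm, map_mul, Module.End.mul_apply, hkill v hvU, map_zero]
  obtain ⟨P, hPmem, w, hwU, hw0, hPw⟩ := otsodd_factor T U hU _ v hvU hv0 hkv
  have hPJ : P ∈ Cfsg.Agent.Helper43.CycFactors.cycJ F r := by
    rw [Cfsg.Agent.Helper43.CycFactors.mem_cycJ]
    rw [Polynomial.mem_normalizedFactors_iff hne] at hPmem
    exact ⟨hPmem.2.1, hPmem.1, hPmem.2.2⟩
  have hPm := Cfsg.Agent.Helper43.CycFactors.mem_cycJ.mp hPJ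
  have h0 : P.coeff 0 ≠ 0 := Cfsg.Agent.Helper43.StarPoly.coeff_zero_ne_of_mem hr hPJ
  have hstar : Cfsg.Agent.Helper43.SpReal.star P ≠ P :=
    Cfsg.Agent.Helper43.StarPoly.star_ne_self_of_odd (p := p) rfl hr (by omega) hrp hodd hPJ
  have hsirr : Irreducible (Cfsg.Agent.Helper43.SpReal.star P) :=
    Cfsg.Agent.Helper43.StarPoly.star_irreducible hPm.1 hPm.2.1 h0
  have hsmon : (Cfsg.Agent.Helper43.SpReal.star P).Monic :=
    Cfsg.Agent.Helper43.SpReal.star_monic h0
  have hcop0 : IsCoprime P (Cfsg.Agent.Helper43.SpReal.star P) := by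
    apply (Irreducible.coprime_iff_not_dvd hPm.2.1).mpr
    intro hdvd
    have hass : Associated P (Cfsg.Agent.Helper43.SpReal.star P) :=
      Irreducible.associated_of_dvd hPm.2.1 hsirr hdvd
    exact hstar (Polynomial.eq_of_monic_of_associated hPm.1 hsmon hass).symm
  have hcop : IsCoprime P P.reverse := by
    rw [Cfsg.Agent.Helper43.StarPoly.reverse_eq_C_mul_star h0]
    exact (isCoprime_mul_unit_left_right (isUnit_C.mpr (isUnit_iff_ne_zero.mpr h0)) P
      (Cfsg.Agent.Helper43.SpReal.star P)).mpr hcop0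
  -- the quadratic form of `B`
  obtain ⟨Q, hQdef⟩ : ∃ Q : QuadraticForm F V, ∀ x, Q x = B x x :=
    ⟨LinearMap.BilinMap.toQuadraticMap B, fun x => LinearMap.BilinMap.toQuadraticMap_apply B x⟩
  have hQ : ∀ x, Q (T x) = Q x := fun x => by rw [hQdef, hQdef, hT]
  have hpolar : ∀ x y, QuadraticMap.polar Q x y = 2 * B x y := by
    intro x y
    unfold QuadraticMap.polar
    rw [hQdef, hQdef, hQdef]
    simp only [map_add, LinearMap.add_apply]
    rw [hsym y x]
    ring
  obtain ⟨a, b, hab⟩ := hcop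
  have hpol : ∀ x y, aeval T P x = 0 → aeval T P y = 0 → B x y = 0 := by
    intro x y hx hy
    have h1 : y = aeval T P.reverse (aeval T b y) := by
      have h2' := congrArg (fun f => aeval T f y) hab
      simp only [map_add, map_mul, map_one, LinearMap.add_apply, Module.End.mul_apply,
        Module.End.one_apply] at h2'
      rw [hy, map_zero, zero_add] at h2'
      rw [← Module.End.mul_apply, ← map_mul, mul_comm, map_mul, Module.End.mul_apply]
      exact h2'.symm
    have h3 := Cfsg.Agent.Helper43.PrimeOrdO.polar_reflect Q T hQ P.natDegree P le_rfl x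
      (aeval T b y)
    rw [show P.reflect P.natDegree = P.reverse from rfl] at h3
    rw [← h1, hx, QuadraticMap.polar_zero_left, hpolar] at h3
    exact (mul_eq_zero.mp h3).resolve_left h2
  refine ⟨U ⊓ LinearMap.ker (aeval T P), inf_le_left, ?_, ?_, ?_⟩
  · intro x hx y hy
    exact hpol x y (LinearMap.mem_ker.mp hx.2) (LinearMap.mem_ker.mp hy.2)
  · rintro _ ⟨x, hx, rfl⟩
    refine ⟨hU ⟨x, hx.1, rfl⟩, LinearMap.mem_ker.mpr ?_⟩
    have hc : aeval T P (T x) = T (aeval T P x) := by
      have e1 : aeval T P (T x) = (aeval T (P * X)) x := by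
        rw [map_mul, aeval_X, Module.End.mul_apply]
      have e2 : T (aeval T P x) = (aeval T (X * P)) x := by
        rw [map_mul, aeval_X, Module.End.mul_apply]
      rw [e1, e2, mul_comm]
    rw [hc, LinearMap.mem_ker.mp hx.2, map_zero]
  · intro h
    have hmem : w ∈ U ⊓ LinearMap.ker (aeval T P) := ⟨hwU, LinearMap.mem_ker.mpr hPw⟩
    rw [h, Submodule.mem_bot] at hmem
    exact hw0 hmem

end Cfsg.Agent.Helper75.OTS
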