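import Cfsg.Agent.Helper75.PrincipalTransport
import Cfsg.Agent.Helper16.BlockCore
import Cfsg.Prelude.Def_BlockFusion

/-!
# Subpairs of the principal block

* `blockCoeff_principal_mulEquiv`: the principal block idempotent is invariant under
  automorphisms.
* `subgroupBlockCoeff_principal_conj`: the extension by zero of the principal block idempotent of
  `K` is invariant under conjugation by `N_G(K)`.
* `conv_blockCoeff_pregInd`: `e₀ * S = S` for the sum `S` of the `p`-regular elements.
* `isNormalSubpair_principal`: for `p`-subgroups `Q ⊴ P`, `(Q, B₀(C_G(Q))) ⊴ (P, B₀(C_G(P)))`.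
* `subpairLE_principal`: for `Q ≤ S` (`S` a `p`-subgroup), `(Q, B₀(C_G(Q))) ≤ (S, B₀(C_G(S)))`.
* `isMaximalBrauerPair_principal`: `(S, B₀(C_G(S)))` is a maximal Brauer pair of `B₀(G)` for a
  Sylow `p`-subgroup `S`.
* `blockFusion_principal`: the fusion system of the principal block is `F_S(G)`.
-/

set_option autoImplicit false
open Cfsg
open scoped ComplexConjugate

namespace Cfsg.Agent.Helper75

universe u

section equiv
variable {K : Type u} [Group K]

theorem irrComp_symm_irrComp (σ : K ≃* K) (χ : Cfsg.IrrCharacter K) :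
    irrComp σ (irrComp σ.symm χ) = χ := by
  apply Subtype.ext
  funext y
  show χ.1 (σ.symm (σ y)) = χ.1 y
  rw [MulEquiv.symm_apply_apply]

theorem irrComp_irrComp_symm (σ : K ≃* K) (χ : Cfsg.IrrCharacter K) :
    irrComp σ.symm (irrComp σ χ) = χ := by
  apply Subtype.ext
  funext y
  show χ.1 (σ (σ.symm y)) = χ.1 y
  rw [MulEquiv.apply_symm_apply]

theorem blockCoeff_principal_mulEquiv (M : Ideal Cfsg.AlgInt) (σ : K ≃* K) (k : K) :
    Cfsg.blockCoeff (Cfsg.principalBlock M K) (σ k) = Cfsg.blockCoeff (Cfsg.principalBlock M K) k := by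
  unfold Cfsg.blockCoeff
  congr 1
  refine finsum_mem_eq_of_bijOn (irrComp σ) ⟨?_, ?_, ?_⟩ ?_
  · intro χ hχ
    exact irrComp_mem_principalBlock σ hχ
  · intro χ₁ _ χ₂ _ h
    have := congrArg (irrComp σ.symm) h
    rwa [irrComp_irrComp_symm, irrComp_irrComp_symm] at this
  · intro χ hχ
    exact ⟨irrComp σ.symm χ, irrComp_mem_principalBlock σ.symm hχ, irrComp_symm_irrComp σ χ⟩
  · intro χ _
    rw [irrComp_apply, irrComp_apply, map_one]

end equiv

variable {G : Type u} [Group G]

theorem subgroupBlockCoeff_of_mem (K : Subgroup G) (e : Set (Cfsg.IrrCharacter K)) {g : G}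
    (hg : g ∈ K) : Cfsg.subgroupBlockCoeff K e g = Cfsg.blockCoeff e ⟨g, hg⟩ := by
  unfold Cfsg.subgroupBlockCoeff
  rw [dif_pos hg]

theorem subgroupBlockCoeff_of_not_mem (K : Subgroup G) (e : Set (Cfsg.IrrCharacter K)) {g : G}
    (hg : g ∉ K) : Cfsg.subgroupBlockCoeff K e g = 0 := by
  unfold Cfsg.subgroupBlockCoeff
  rw [dif_neg hg]

theorem subgroupBlockCoeff_principal_conj (M : Ideal Cfsg.AlgInt) (K : Subgroup G) {u : G}
    (hu : u ∈ Subgroup.normalizer (K : Set G)) (x : G) :
    Cfsg.subgroupBlockCoeff K (Cfsg.principalBlock M K) (u * x * u⁻¹)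
      = Cfsg.subgroupBlockCoeff K (Cfsg.principalBlock M K) x := by
  have hiff := Subgroup.mem_normalizer_iff.mp hu x
  by_cases hx : x ∈ K
  · have hx' : u * x * u⁻¹ ∈ K := hiff.1 hx
    rw [subgroupBlockCoeff_of_mem K _ hx, subgroupBlockCoeff_of_mem K _ hx']
    have hu' : u⁻¹ ∈ Subgroup.normalizer (K : Set G) := (Subgroup.normalizer (K : Set G)).inv_mem hu
    have h1 := blockCoeff_principal_mulEquiv M (conjEquivOfNormalizer K u⁻¹ hu') ⟨x, hx⟩
    rw [← h1]
    congr 1
    apply Subtype.ext
    rw [conjEquivOfNormalizer_apply, inv_inv]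
  · have hx' : u * x * u⁻¹ ∉ K := fun h => hx (hiff.2 h)
    rw [subgroupBlockCoeff_of_not_mem K _ hx, subgroupBlockCoeff_of_not_mem K _ hx']

theorem pregInd_conj (p : ℕ) (u x : G) : pregInd p G (u * x * u⁻¹) = pregInd p G x := by
  unfold pregInd
  rw [orderOf_conj']

theorem pregInd_coe (p : ℕ) (K : Subgroup G) (k : K) : pregInd p G (k : G) = pregInd p K k := by
  unfold pregInd
  rw [Subgroup.orderOf_coe]

section fin
variable [Fintype G]

theorem sum_eq_sum_subgroup (H : Subgroup G) [Fintype H] (F : G → ℂ)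
    (hF : ∀ x, x ∉ H → F x = 0) : ∑ x : G, F x = ∑ y : H, F y := by
  classical
  have h1 : ∑ x ∈ Finset.univ.filter (fun x : G => x ∈ H), F x = ∑ x : G, F x :=
    Finset.sum_subset (Finset.subset_univ _) (fun x _ hx => hF x (by simpa using hx))
  rw [← h1]
  exact Finset.sum_subtype (Finset.univ.filter (fun x : G => x ∈ H)) (by simp) F

/-- `e₀ * S = S`, `S` the sum of the `p`-regular elements. -/
theorem conv_blockCoeff_pregInd {p : ℕ} [Fact p.Prime] {M : Ideal Cfsg.AlgInt}
    (hM : Cfsg.IsPModular p M) :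
    Helper81.conv (Cfsg.blockCoeff (Cfsg.principalBlock M G)) (pregInd p G) = pregInd p G := by
  have hcl := Helper77.blockCoeff_isClassFunction (Cfsg.principalBlock M G)
  apply Helper77.eq_of_omega_eq (Helper81.conv_isClassFunction hcl (pregInd_isClassFunction p))
    (pregInd_isClassFunction p)
  intro ψ
  rw [Helper81.omega_conv ψ hcl (pregInd_isClassFunction p)]
  by_cases hψ : ψ ∈ Cfsg.principalBlock M G
  · rw [Helper77.omega_blockCoeff_of_mem hψ, one_mul]
  · rw [omega_pregInd_of_not_mem hM hψ, mul_zero]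

/-- The Brauer-map image at `P` of the principal block idempotent of a `P`-stable subgroup `L`
containing `C_G(P)` has central character value `1` on the principal block of `C_G(P)`. -/
theorem brauerOmega_subgroupBlockCoeff_principal {p : ℕ} [Fact p.Prime] {M : Ideal Cfsg.AlgInt}
    (hM : Cfsg.IsPModular p M) (P L : Subgroup G) (hP : IsPGroup p P)
    (hPL : ∀ u ∈ P, u ∈ Subgroup.normalizer ((L : Subgroup G) : Set G))
    (hCL : Subgroup.centralizer (P : Set G) ≤ L)
    (ξ : Cfsg.IrrCharacter (Subgroup.centralizer (P : Set G)))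
    (hξ : ξ ∈ Cfsg.principalBlock M (Subgroup.centralizer (P : Set G))) :
    Cfsg.MemLocalIdeal M (Cfsg.brauerOmega P
      (Cfsg.subgroupBlockCoeff L (Cfsg.principalBlock M L))
      (ξ : Subgroup.centralizer (P : Set G) → ℂ) - 1) := by
  classical
  have hMm := hM.2.1
  haveI := hMm.isPrime
  haveI : Fintype L := Fintype.ofFinite L
  haveI : Fintype (Subgroup.centralizer (P : Set G)) := Fintype.ofFinite _
  have hB0L : Cfsg.IsPBlock M (Cfsg.principalBlock M L) := ⟨Helper81.trivIrr _, rfl⟩
  have hβS : ∀ x, Cfsg.MemLocalRing M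
      (Cfsg.subgroupBlockCoeff L (Cfsg.principalBlock M L) x) := by
    intro x
    by_cases hx : x ∈ L
    · rw [subgroupBlockCoeff_of_mem L _ hx]
      exact Helper77.blockCoeff_memLocalRing hMm hB0L _
    · rw [subgroupBlockCoeff_of_not_mem L _ hx]
      exact Helper77.memLocalRing_zero hMm
  -- the restricted function on `C`
  have he'cl : Cfsg.IsClassFunction (Subgroup.centralizer (P : Set G))
      (fun c : Subgroup.centralizer (P : Set G) =>
        Cfsg.subgroupBlockCoeff L (Cfsg.principalBlock M L) (c : G)) := by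
    intro c d
    show Cfsg.subgroupBlockCoeff L (Cfsg.principalBlock M L)
        ((d * c * d⁻¹ : Subgroup.centralizer (P : Set G)) : G)
      = Cfsg.subgroupBlockCoeff L (Cfsg.principalBlock M L) (c : G)
    have hc : (c : G) ∈ L := hCL c.2
    have hd : (d : G) ∈ L := hCL d.2
    have hdc : ((d * c * d⁻¹ : Subgroup.centralizer (P : Set G)) : G) ∈ L :=
      hCL (d * c * d⁻¹).2
    rw [subgroupBlockCoeff_of_mem L _ hc, subgroupBlockCoeff_of_mem L _ hdc]
    exact Helper77.blockCoeff_isClassFunction (Cfsg.principalBlock M L) ⟨c, hc⟩ ⟨d, hd⟩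
  -- the Brauer congruence
  have hbr : ∀ h : Subgroup.centralizer (P : Set G), Cfsg.MemLocalIdeal M
      (pregInd p (Subgroup.centralizer (P : Set G)) h
        - Helper81.conv (fun c : Subgroup.centralizer (P : Set G) =>
            Cfsg.subgroupBlockCoeff L (Cfsg.principalBlock M L) (c : G))
          (pregInd p (Subgroup.centralizer (P : Set G))) h) := by
    intro h
    have hhL : (h : G) ∈ L := hCL h.2
    have hfS : ∀ x : G, Cfsg.MemLocalRing M
        (Cfsg.subgroupBlockCoeff L (Cfsg.principalBlock M L) x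
          * pregInd p G (x⁻¹ * (h : G))) := fun x =>
      Helper77.memLocalRing_mul hMm (hβS x) (pregInd_memLocalRing hMm p _)
    have hfinv : ∀ d ∈ P, ∀ x : G,
        Cfsg.subgroupBlockCoeff L (Cfsg.principalBlock M L) (d * x * d⁻¹)
          * pregInd p G ((d * x * d⁻¹)⁻¹ * (h : G))
        = Cfsg.subgroupBlockCoeff L (Cfsg.principalBlock M L) x
          * pregInd p G (x⁻¹ * (h : G)) := by
      intro d hd x
      rw [subgroupBlockCoeff_principal_conj M L (hPL d hd) x]
      have hcomm : d * (h : G) = (h : G) * d := Subgroup.mem_centralizer_iff.mp h.2 d hd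
      have e1 : (d * x * d⁻¹)⁻¹ * (h : G) = d * (x⁻¹ * (h : G)) * d⁻¹ := by
        have : (h : G) = d * (h : G) * d⁻¹ := by rw [hcomm]; group
        calc (d * x * d⁻¹)⁻¹ * (h : G) = d * x⁻¹ * d⁻¹ * (h : G) := by group
          _ = d * x⁻¹ * d⁻¹ * (d * (h : G) * d⁻¹) := by rw [← this]
          _ = d * (x⁻¹ * (h : G)) * d⁻¹ := by group
      rw [e1, pregInd_conj]
    have h1 := Helper16.sum_sub_sum_centralizer_memLocalIdeal hM P hP
      (fun x : G => Cfsg.subgroupBlockCoeff L (Cfsg.principalBlock M L) x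
          * pregInd p G (x⁻¹ * (h : G))) hfS hfinv
    -- the sum over `G`
    have h2 : ∑ x : G, Cfsg.subgroupBlockCoeff L (Cfsg.principalBlock M L) x
          * pregInd p G (x⁻¹ * (h : G))
        = pregInd p (Subgroup.centralizer (P : Set G)) h := by
      rw [sum_eq_sum_subgroup L _ (fun x hx => by
        rw [subgroupBlockCoeff_of_not_mem L _ hx, zero_mul])]
      have h3 := congrFun (conv_blockCoeff_pregInd (G := L) hM) ⟨h, hhL⟩
      have h4 : pregInd p L ⟨(h : G), hhL⟩ = pregInd p (Subgroup.centralizer (P : Set G)) h := by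
        rw [← pregInd_coe p L, ← pregInd_coe p (Subgroup.centralizer (P : Set G))]
      rw [← h4, ← h3]
      unfold Helper81.conv
      refine Finset.sum_congr rfl fun y _ => ?_
      rw [subgroupBlockCoeff_of_mem L _ y.2, ← pregInd_coe p L]
      rfl
    -- the sum over the centralizer
    have h5 : ∑ x ∈ Finset.univ.filter (fun x : G => x ∈ Subgroup.centralizer (P : Set G)),
          Cfsg.subgroupBlockCoeff L (Cfsg.principalBlock M L) x * pregInd p G (x⁻¹ * (h : G))
        = Helper81.conv (fun c : Subgroup.centralizer (P : Set G) =>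
            Cfsg.subgroupBlockCoeff L (Cfsg.principalBlock M L) (c : G))
          (pregInd p (Subgroup.centralizer (P : Set G))) h := by
      rw [Finset.sum_subtype (p := fun x : G => x ∈ Subgroup.centralizer (P : Set G))
        (Finset.univ.filter (fun x : G => x ∈ Subgroup.centralizer (P : Set G)))
        (fun x => by simp)]
      unfold Helper81.conv
      refine Finset.sum_congr rfl fun c _ => ?_
      rw [← pregInd_coe p (Subgroup.centralizer (P : Set G))]
      rfl
    rw [h2, h5] at h1
    exact h1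
  -- apply the central character
  have h6 := Helper16.omega_memLocalIdeal hMm ξ
    (Helper81.isClassFunction_sub (pregInd_isClassFunction p)
        (Helper81.conv_isClassFunction he'cl (pregInd_isClassFunction p))) hbr
  rw [Helper81.omega_sub, Helper81.omega_conv ξ he'cl (pregInd_isClassFunction p)] at h6
  have h7 := (mem_principalBlock_iff_omega hM ξ).1 hξ
  have h8 : Cfsg.MemLocalRing M (Helper81.omega (ξ : Subgroup.centralizer (P : Set G) → ℂ)
      (pregInd p (Subgroup.centralizer (P : Set G)))) :=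
    Helper16.omega_memLocalRing hMm ξ (pregInd_isClassFunction p) (pregInd_memLocalRing hMm p)
  have h9 := Helper77.memLocalRing_inv hMm h8 h7
  have h10 := Helper77.memLocalIdeal_mul' hMm h6 h9
  have hne : Helper81.omega (ξ : Subgroup.centralizer (P : Set G) → ℂ)
      (pregInd p (Subgroup.centralizer (P : Set G))) ≠ 0 := by
    intro h0
    apply h7
    rw [h0]
    exact Helper77.memLocalIdeal_zero hMm
  rw [sub_mul, mul_assoc, mul_inv_cancel₀ hne, mul_one] at h10
  have h12 := Helper77.memLocalIdeal_neg h10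
  rw [neg_sub] at h12
  rw [brauerOmega_eq_omega]
  exact h12

/-- Normal inclusion of principal-block Brauer pairs. -/
theorem isNormalSubpair_principal {p : ℕ} [Fact p.Prime] {M : Ideal Cfsg.AlgInt}
    (hM : Cfsg.IsPModular p M) (Q P : Subgroup G) (hP : IsPGroup p P) (hQP : Q ≤ P)
    (hPN : P ≤ Subgroup.normalizer (Q : Set G)) :
    Cfsg.IsNormalSubpair p M Q (Cfsg.principalBlock M (Subgroup.centralizer (Q : Set G))) P
      (Cfsg.principalBlock M (Subgroup.centralizer (P : Set G))) := by
  refine ⟨⟨hP.to_le hQP, ⟨Helper81.trivIrr _, rfl⟩⟩, ⟨hP, ⟨Helper81.trivIrr _, rfl⟩⟩, hQP, hPN,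
    fun x hx => stabilizesBlock_principal_centralizer M Q x (hPN hx), ?_⟩
  intro ξ hξ
  exact brauerOmega_subgroupBlockCoeff_principal hM P (Subgroup.centralizer (Q : Set G)) hP
    (fun u hu => normalizer_le_normalizer_centralizer' Q (hPN hu))
    (Subgroup.centralizer_le (by exact_mod_cast hQP)) ξ hξ

/-- Normalizers grow in `p`-groups. -/
theorem exists_normalizer_not_mem {p : ℕ} [Fact p.Prime] (S Q : Subgroup G) (hS : IsPGroup p S)
    (hQS : Q < S) : ∃ x ∈ S, x ∈ Subgroup.normalizer (Q : Set G) ∧ x ∉ Q := by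
  haveI : Group.IsNilpotent S := hS.isNilpotent
  have hnc := Group.normalizerCondition_of_isNilpotent (G := S)
  have hne : Q.subgroupOf S < ⊤ := by
    rw [lt_top_iff_ne_top, Ne, Subgroup.subgroupOf_eq_top]
    exact fun h => (not_le_of_gt hQS) h
  obtain ⟨y, hyN, hyQ⟩ := SetLike.exists_of_lt (hnc _ hne)
  refine ⟨(y : G), y.2, ?_, fun h => hyQ (Subgroup.mem_subgroupOf.mpr h)⟩
  rw [Subgroup.mem_normalizer_iff] at hyN ⊢
  intro g
  constructor
  · intro hg
    have h1 := (hyN ⟨g, hQS.le hg⟩).1 (Subgroup.mem_subgroupOf.mpr hg)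
    exact Subgroup.mem_subgroupOf.mp h1
  · intro hg
    have hgS : g ∈ S := by
      have h2 : (y : G)⁻¹ * ((y : G) * g * (y : G)⁻¹) * (y : G) ∈ S :=
        S.mul_mem (S.mul_mem (S.inv_mem y.2) (hQS.le hg)) y.2
      have e : (y : G)⁻¹ * ((y : G) * g * (y : G)⁻¹) * (y : G) = g := by group
      rwa [e] at h2
    have h1 := (hyN ⟨g, hgS⟩).2 (Subgroup.mem_subgroupOf.mpr hg)
    exact Subgroup.mem_subgroupOf.mp h1

/-- For `Q ≤ S`, `S` a `p`-subgroup, the principal-block pair at `Q` lies below the one at `S`. -/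
theorem subpairLE_principal {p : ℕ} [Fact p.Prime] {M : Ideal Cfsg.AlgInt}
    (hM : Cfsg.IsPModular p M) (S : Subgroup G) (hS : IsPGroup p S) :
    ∀ Q : Subgroup G, Q ≤ S →
      Cfsg.SubpairLE p M Q (Cfsg.principalBlock M (Subgroup.centralizer (Q : Set G))) S
        (Cfsg.principalBlock M (Subgroup.centralizer (S : Set G))) := by
  intro Q
  induction Q using WellFoundedGT.induction with
  | _ Q ih =>
    intro hQS
    by_cases hQ : Q = S
    · subst hQ
      exact Relation.ReflTransGen.refl
    · have hlt : Q < S := lt_of_le_of_ne hQS hQ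
      obtain ⟨x, hxS, hxN, hxQ⟩ := exists_normalizer_not_mem S Q hS hlt
      have hQP : Q ≤ S ⊓ Subgroup.normalizer (Q : Set G) := le_inf hQS Subgroup.le_normalizer
      have hQltP : Q < S ⊓ Subgroup.normalizer (Q : Set G) :=
        lt_of_le_of_ne hQP (fun h => hxQ (h ▸ Subgroup.mem_inf.mpr ⟨hxS, hxN⟩))
      have h1 := isNormalSubpair_principal hM Q (S ⊓ Subgroup.normalizer (Q : Set G))
        (hS.to_le inf_le_left) hQP inf_le_right
      exact Relation.ReflTransGen.head
        (show Cfsg.NormalSubpairRel p M ⟨Q, _⟩ ⟨S ⊓ Subgroup.normalizer (Q : Set G), _⟩ from h1)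
        (ih _ hQltP inf_le_left)

omit [Fintype G] in
theorem subpairLE_fst_le {p : ℕ} {M : Ideal Cfsg.AlgInt} {a b : Cfsg.BrauerPairIdx G}
    (h : Relation.ReflTransGen (Cfsg.NormalSubpairRel p M) a b) : a.1 ≤ b.1 := by
  induction h with
  | refl => exact le_rfl
  | tail _ hbc ih => exact ih.trans hbc.2.2.1

/-- `(S, B₀(C_G(S)))` is a maximal Brauer pair of the principal block, `S` a Sylow subgroup. -/
theorem isMaximalBrauerPair_principal {p : ℕ} [Fact p.Prime] {M : Ideal Cfsg.AlgInt}
    (hM : Cfsg.IsPModular p M) (S : Sylow p G) :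
    Cfsg.IsMaximalBrauerPair p M (Cfsg.principalBlock M G) (S : Subgroup G)
      (Cfsg.principalBlock M (Subgroup.centralizer ((S : Subgroup G) : Set G))) := by
  refine ⟨(isBrauerPairOf_principal_iff hM (S : Subgroup G) S.isPGroup' _
    ⟨Helper81.trivIrr _, rfl⟩).2 rfl, fun R g hR hle => ?_⟩
  have h1 : (S : Subgroup G) ≤ R := subpairLE_fst_le hle
  exact S.is_maximal' hR.1.1 h1

/-- The fusion system of the principal block on `(S, B₀(C_G(S)))` is `F_S(G)`. -/
theorem blockFusion_principal {p : ℕ} [Fact p.Prime] {M : Ideal Cfsg.AlgInt}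
    (hM : Cfsg.IsPModular p M) (S : Sylow p G) (F : Cfsg.FusionSystem (S : Subgroup G))
    (hF : Cfsg.IsBlockFusionSystemOn p M (Cfsg.principalBlock M G) (S : Subgroup G)
      (Cfsg.principalBlock M (Subgroup.centralizer ((S : Subgroup G) : Set G))) F)
    (Q : Subgroup G) : F.Hom Q = (Cfsg.groupFusionSystem (S : Subgroup G)).Hom Q := by
  ext φ
  rw [hF.2 Q φ]
  constructor
  · rintro ⟨hQS, g, hφ, hmap, -⟩
    refine ⟨hQS, fun x => ?_, g, hφ⟩
    rw [hφ]
    exact hmap ⟨x, x.2, by simp⟩
  · rintro ⟨hQS, hφS, g, hφ⟩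
    have hmap : Q.map (MulAut.conj g).toMonoidHom ≤ (S : Subgroup G) := by
      rintro _ ⟨x, hx, rfl⟩
      have := hφS ⟨x, hx⟩
      rw [hφ] at this
      simpa using this
    refine ⟨hQS, g, hφ, hmap, Cfsg.principalBlock M (Subgroup.centralizer (Q : Set G)),
      subpairLE_principal hM (S : Subgroup G) S.isPGroup' Q hQS, ?_⟩
    rw [conjBlock_principal]
    exact subpairLE_principal hM (S : Subgroup G) S.isPGroup' _ hmap

end fin

end Cfsg.Agent.Helper75
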