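import Cfsg.Agent.Helper75.GaloisMean

/-!
# The ring `ℤ[ζ]` for `ζ` a primitive `2^(k+1)`-th root of unity (helper75)

Elements are written `aeval ζ f` with `f ∈ ℤ[X]`.  Relative to a maximal ideal `M` of the algebraic
integers containing `2`:

* `exists_mul_of_memLocalIdeal`: an element of the local ideal is divisible by `ζ - 1`.
* `exists_two_pow_mul_of_div`: if `x / 2^h` is a local integer then `x = 2^h x'` with `x'` in
  `ℤ[ζ]`.
* `gmean_real`: for real `x`, the Galois mean of `x` is an integer which is even exactly when `x`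
  is in the local ideal.
-/

set_option autoImplicit false
open Cfsg
open scoped ComplexConjugate
open Polynomial

namespace Cfsg.Agent.Helper75

theorem rootSign_of_ne {ω : ℂ} (h1 : ω ≠ 1) (h2 : ω ≠ -1) : rootSign ω = 0 := by
  unfold rootSign
  simp [h1, h2]

theorem even_of_intCast_memLocalIdeal {M : Ideal Cfsg.AlgInt} (hM : Cfsg.IsPModular 2 M) {c : ℤ}
    (h : Cfsg.MemLocalIdeal M (c : ℂ)) : Even c := by
  have hMm := hM.2.1
  by_contra hodd
  rw [Int.not_even_iff_odd] at hodd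
  obtain ⟨r, hr⟩ := hodd
  apply Helper77.not_memLocalIdeal_one hMm
  have h2 : Cfsg.MemLocalIdeal M ((2 : ℕ) : ℂ) := Helper77.memLocalIdeal_prime hM
  have h3 : Cfsg.MemLocalIdeal M ((r : ℂ) * ((2 : ℕ) : ℂ)) :=
    Helper77.memLocalIdeal_mul hMm (Helper81.memLocalRing_intCast hMm.ne_top r) h2
  have h4 := Helper77.memLocalIdeal_sub hMm h h3
  have e : (c : ℂ) - (r : ℂ) * ((2 : ℕ) : ℂ) = 1 := by
    rw [hr]
    push_cast
    ring
  rwa [e] at h4

theorem intCast_memLocalIdeal_of_even {M : Ideal Cfsg.AlgInt} (hM : Cfsg.IsPModular 2 M) {c : ℤ}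
    (h : Even c) : Cfsg.MemLocalIdeal M (c : ℂ) := by
  have hMm := hM.2.1
  obtain ⟨r, hr⟩ := h
  have h2 : Cfsg.MemLocalIdeal M ((2 : ℕ) : ℂ) := Helper77.memLocalIdeal_prime hM
  have h3 : Cfsg.MemLocalIdeal M ((r : ℂ) * ((2 : ℕ) : ℂ)) :=
    Helper77.memLocalIdeal_mul hMm (Helper81.memLocalRing_intCast hMm.ne_top r) h2
  have e : (c : ℂ) = (r : ℂ) * ((2 : ℕ) : ℂ) := by
    rw [hr]
    push_cast
    ring
  rwa [e]

theorem aeval_formal (ζ : ℂ) (f : ℤ[X]) :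
    aeval ζ f = ∑ i ∈ Finset.range (f.natDegree + 1), ((f.coeff i : ℤ) : ℂ) * ζ ^ i := by
  rw [aeval_eq_sum_range]
  refine Finset.sum_congr rfl fun i _ => ?_
  rw [zsmul_eq_mul]

theorem aeval_eq_eval_one_add (ζ : ℂ) (f : ℤ[X]) :
    ∃ g : ℤ[X], aeval ζ f = ((f.eval 1 : ℤ) : ℂ) + (ζ - 1) * aeval ζ g := by
  obtain ⟨g, hg⟩ := X_sub_C_dvd_sub_C_eval (a := (1 : ℤ)) (p := f)
  refine ⟨g, ?_⟩
  have h := congrArg (aeval ζ) hg
  simp only [map_sub, map_mul, aeval_X, map_one, eq_intCast, map_intCast] at h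
  linear_combination h

section twoadic

variable {k : ℕ} {ζ : ℂ}

theorem zeta_pow_half (hζ : IsPrimitiveRoot ζ (2 ^ (k + 1))) : ζ ^ 2 ^ k = -1 := by
  have h1 : IsPrimitiveRoot (ζ ^ 2 ^ k) 2 := hζ.pow (by positivity) (pow_succ 2 k)
  exact h1.eq_neg_one_of_two_right

theorem zeta_sub_one_ne_zero (hζ : IsPrimitiveRoot ζ (2 ^ (k + 1))) : ζ - 1 ≠ 0 := by
  intro h
  have h1 : ζ = 1 := sub_eq_zero.mp h
  have h2 := zeta_pow_half hζ
  rw [h1, one_pow] at h2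
  norm_num at h2

theorem zeta_pow_root (hζ : IsPrimitiveRoot ζ (2 ^ (k + 1))) (i : ℕ) :
    (ζ ^ i) ^ 2 ^ (k + 1) = 1 := by
  rw [← pow_mul, mul_comm, pow_mul, hζ.pow_eq_one, one_pow]

theorem aeval_isIntegral (hζ : IsPrimitiveRoot ζ (2 ^ (k + 1))) (f : ℤ[X]) :
    IsIntegral ℤ (aeval ζ f) := by
  rw [aeval_formal]
  refine IsIntegral.sum _ fun i _ => ?_
  exact IsIntegral.mul (isIntegral_intCast _) (IsIntegral.pow (hζ.isIntegral (by positivity)) i)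

theorem zeta_sub_one_memLocalIdeal {M : Ideal Cfsg.AlgInt} (hM : Cfsg.IsPModular 2 M)
    (hζ : IsPrimitiveRoot ζ (2 ^ (k + 1))) : Cfsg.MemLocalIdeal M (ζ - 1) :=
  Helper77.memLocalIdeal_root_sub_one hM (n := k + 1) hζ.pow_eq_one

/-- An element of `ℤ[ζ]` in the local ideal is divisible by `ζ - 1`. -/
theorem exists_mul_of_memLocalIdeal {M : Ideal Cfsg.AlgInt} (hM : Cfsg.IsPModular 2 M)
    (hζ : IsPrimitiveRoot ζ (2 ^ (k + 1))) (f : ℤ[X])
    (h : Cfsg.MemLocalIdeal M (aeval ζ f)) : ∃ g : ℤ[X], aeval ζ f = (ζ - 1) * aeval ζ g := by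
  have hMm := hM.2.1
  obtain ⟨g, hg⟩ := aeval_eq_eval_one_add ζ f
  have hπ := zeta_sub_one_memLocalIdeal hM hζ
  have h1 : Cfsg.MemLocalIdeal M (((f.eval 1 : ℤ) : ℂ)) := by
    have := Helper77.memLocalIdeal_sub hMm h (Helper77.memLocalIdeal_mul' hMm hπ
      (Helper77.memLocalRing_of_isIntegral hMm (aeval_isIntegral hζ g)))
    rwa [hg, add_sub_cancel_right] at this
  obtain ⟨r, hr⟩ := even_of_intCast_memLocalIdeal hM h1
  have h2 : (ζ - 1) * ∑ i ∈ Finset.range (2 ^ k), ζ ^ i = -2 := by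
    rw [mul_geom_sum, zeta_pow_half hζ]
    norm_num
  refine ⟨g - C r * ∑ i ∈ Finset.range (2 ^ k), X ^ i, ?_⟩
  rw [hg, hr]
  simp only [map_sub, map_mul, map_sum, map_pow, aeval_X, eq_intCast, map_intCast]
  push_cast
  linear_combination (r : ℂ) * h2

theorem exists_pow_mul_of_div {M : Ideal Cfsg.AlgInt} (hM : Cfsg.IsPModular 2 M)
    (hζ : IsPrimitiveRoot ζ (2 ^ (k + 1))) (j : ℕ) :
    ∀ f : ℤ[X], Cfsg.MemLocalRing M (aeval ζ f / (ζ - 1) ^ j) →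
      ∃ g : ℤ[X], aeval ζ f = (ζ - 1) ^ j * aeval ζ g := by
  have hMm := hM.2.1
  have hπ := zeta_sub_one_memLocalIdeal hM hζ
  have hne := zeta_sub_one_ne_zero hζ
  induction j with
  | zero =>
    intro f _
    exact ⟨f, by simp⟩
  | succ j ih =>
    intro f hf
    have h1 : Cfsg.MemLocalIdeal M (aeval ζ f / (ζ - 1) ^ j) := by
      have := Helper77.memLocalIdeal_mul' hMm hπ hf
      have e : (ζ - 1) * (aeval ζ f / (ζ - 1) ^ (j + 1)) = aeval ζ f / (ζ - 1) ^ j := by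
        rw [pow_succ]
        field_simp
      rwa [e] at this
    obtain ⟨g₁, hg₁⟩ := ih f (Helper77.memLocalRing_of_memLocalIdeal h1)
    have h2 : Cfsg.MemLocalIdeal M (aeval ζ g₁) := by
      have e : aeval ζ f / (ζ - 1) ^ j = aeval ζ g₁ := by
        rw [hg₁]
        field_simp
      rwa [e] at h1
    obtain ⟨g₂, hg₂⟩ := exists_mul_of_memLocalIdeal hM hζ g₁ h2
    exact ⟨g₂, by rw [hg₁, hg₂, pow_succ]; ring⟩

theorem exists_sub_one_pow_two_pow (k : ℕ) :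
    ∃ g : ℤ[X], (X - 1 : ℤ[X]) ^ 2 ^ k = X ^ 2 ^ k + 1 + 2 * g := by
  induction k with
  | zero => exact ⟨-1, by ring⟩
  | succ k ih =>
    obtain ⟨g, hg⟩ := ih
    refine ⟨X ^ 2 ^ k + 2 * g * (X ^ 2 ^ k + 1) + 2 * g ^ 2, ?_⟩
    rw [pow_succ, pow_mul, hg]
    ring

theorem exists_unit_pow {M : Ideal Cfsg.AlgInt} (hM : Cfsg.IsPModular 2 M)
    (hζ : IsPrimitiveRoot ζ (2 ^ (k + 1))) :
    ∃ g₀ : ℤ[X], (ζ - 1) ^ 2 ^ k = 2 * aeval ζ g₀ ∧ ¬ Cfsg.MemLocalIdeal M (aeval ζ g₀) := by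
  have hMm := hM.2.1
  have hπ := zeta_sub_one_memLocalIdeal hM hζ
  obtain ⟨g₀, hg₀⟩ := exists_sub_one_pow_two_pow k
  refine ⟨g₀, ?_, ?_⟩
  · have h := congrArg (aeval ζ) hg₀
    simp only [map_sub, map_pow, map_add, map_mul, aeval_X, map_one, map_ofNat] at h
    rw [zeta_pow_half hζ] at h
    linear_combination h
  · have h1 := congrArg (eval 1) hg₀
    have h0 : (2 : ℕ) ^ k ≠ 0 := by positivity
    simp only [eval_pow, eval_sub, eval_X, eval_one, sub_self, eval_add, eval_mul, one_pow,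
      zero_pow h0, eval_ofNat] at h1
    have h2 : g₀.eval 1 = -1 := by omega
    obtain ⟨g', hg'⟩ := aeval_eq_eval_one_add ζ g₀
    intro hmem
    rw [hg', h2] at hmem
    apply Helper77.not_memLocalIdeal_one hMm
    have := Helper77.memLocalIdeal_sub hMm (Helper77.memLocalIdeal_mul' hMm hπ
      (Helper77.memLocalRing_of_isIntegral hMm (aeval_isIntegral hζ g'))) hmem
    convert this using 1
    push_cast
    ring

/-- If `x / 2^h` is a local integer for `x ∈ ℤ[ζ]`, then `x = 2^h x'` with `x' ∈ ℤ[ζ]`. -/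
theorem exists_two_pow_mul_of_div {M : Ideal Cfsg.AlgInt} (hM : Cfsg.IsPModular 2 M)
    (hζ : IsPrimitiveRoot ζ (2 ^ (k + 1))) (h : ℕ) (f : ℤ[X])
    (hf : Cfsg.MemLocalRing M (aeval ζ f / 2 ^ h)) :
    ∃ g : ℤ[X], aeval ζ f = 2 ^ h * aeval ζ g := by
  have hMm := hM.2.1
  have hMp : M.IsPrime := hMm.isPrime
  obtain ⟨g₀, hg₀, hu⟩ := exists_unit_pow hM hζ
  have huR : Cfsg.MemLocalRing M (aeval ζ g₀) :=
    Helper77.memLocalRing_of_isIntegral hMm (aeval_isIntegral hζ g₀)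
  have huinv := Helper77.memLocalRing_inv hMm huR hu
  have hu0 : aeval ζ g₀ ≠ 0 := fun h0 => hu (h0 ▸ Helper77.memLocalIdeal_zero hMm)
  have e : aeval ζ f / (ζ - 1) ^ (2 ^ k * h) = (aeval ζ f / 2 ^ h) * ((aeval ζ g₀)⁻¹) ^ h := by
    rw [pow_mul, hg₀, mul_pow]
    ring
  have h1 : Cfsg.MemLocalRing M (aeval ζ f / (ζ - 1) ^ (2 ^ k * h)) := by
    rw [e]
    exact Helper77.memLocalRing_mul hMm hf (Helper81.memLocalRing_pow huinv h)
  obtain ⟨g₁, hg₁⟩ := exists_pow_mul_of_div hM hζ _ f h1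
  refine ⟨g₀ ^ h * g₁, ?_⟩
  rw [hg₁, pow_mul, hg₀, mul_pow, map_mul, map_pow]
  ring

theorem conj_zeta_pow (hζ : IsPrimitiveRoot ζ (2 ^ (k + 1))) {i : ℕ} (hi : i ≤ 2 ^ (k + 1)) :
    conj (ζ ^ i) = ζ ^ (2 ^ (k + 1) - i) := by
  have hnorm : ‖ζ ^ i‖ = 1 := by
    rw [norm_pow, Complex.norm_eq_one_of_pow_eq_one hζ.pow_eq_one (by positivity), one_pow]
  rw [← Complex.inv_eq_conj hnorm]
  apply inv_eq_of_mul_eq_one_right
  rw [← pow_add, Nat.add_sub_cancel' hi, hζ.pow_eq_one]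

theorem conj_aeval (ζ : ℂ) (f : ℤ[X]) : conj (aeval ζ f) = aeval (conj ζ) f := by
  rw [aeval_formal, aeval_formal, map_sum]
  refine Finset.sum_congr rfl fun i _ => ?_
  rw [map_mul, map_pow, map_intCast]

section gmean

variable (σ : (ZMod (2 ^ (k + 1)))ˣ → (ℂ ≃+* ℂ))
  (hσ : ∀ (u : (ZMod (2 ^ (k + 1)))ˣ) (z : ℂ), z ^ 2 ^ (k + 1) = 1 →
    σ u z = z ^ (u : ZMod (2 ^ (k + 1))).val)

include hσ

theorem gmean_aeval (hζ : IsPrimitiveRoot ζ (2 ^ (k + 1))) (f : ℤ[X]) :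
    ∃ T : ℤ, gmean (2 ^ (k + 1)) σ (aeval ζ f) = (T : ℂ) := by
  rw [aeval_formal]
  exact ⟨_, gmean_formal σ hσ _ _ _ (fun i _ => zeta_pow_root hζ i)⟩

theorem gmean_conj_aeval (hζ : IsPrimitiveRoot ζ (2 ^ (k + 1))) (f : ℤ[X]) :
    gmean (2 ^ (k + 1)) σ (conj (aeval ζ f)) = gmean (2 ^ (k + 1)) σ (aeval ζ f) := by
  rw [conj_aeval, aeval_formal, aeval_formal,
    gmean_formal σ hσ _ _ _ (fun i _ => zeta_pow_root hζ i),
    gmean_formal σ hσ _ _ _ (fun i _ => by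
      rw [← map_pow, ← map_pow, zeta_pow_root hζ i, map_one])]
  congr 1
  refine Finset.sum_congr rfl fun i _ => ?_
  rw [← map_pow, rootSign_conj]

theorem gmean_normSq_aeval {M : Ideal Cfsg.AlgInt} (hM : Cfsg.IsPModular 2 M)
    (hζ : IsPrimitiveRoot ζ (2 ^ (k + 1))) (f : ℤ[X]) :
    ∃ N : ℤ, gmean (2 ^ (k + 1)) σ (aeval ζ f * conj (aeval ζ f)) = (N : ℂ) ∧ 0 ≤ N ∧
      (¬ Cfsg.MemLocalIdeal M (aeval ζ f) → Odd N) := by
  rw [aeval_formal]
  exact gmean_normSq_formal σ hσ hM _ _ _ (fun i _ => zeta_pow_root hζ i)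

/-- Coefficient extraction. -/
theorem gmean_coeff (hζ : IsPrimitiveRoot ζ (2 ^ (k + 1))) {g : ℤ[X]}
    (hg : g.natDegree < 2 ^ k) {i : ℕ} (hi : i < 2 ^ k) :
    gmean (2 ^ (k + 1)) σ (aeval ζ g * ζ ^ (2 ^ (k + 1) - i)) = ((g.coeff i : ℤ) : ℂ) := by
  have hm : 2 ^ (k + 1) = 2 * 2 ^ k := by rw [pow_succ, mul_comm]
  have e : aeval ζ g * ζ ^ (2 ^ (k + 1) - i)
      = ∑ j ∈ Finset.range (2 ^ k), ((g.coeff j : ℤ) : ℂ) * ζ ^ (j + (2 ^ (k + 1) - i)) := by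
    rw [aeval_eq_sum_range' hg, Finset.sum_mul]
    refine Finset.sum_congr rfl fun j _ => ?_
    rw [zsmul_eq_mul, mul_assoc, ← pow_add]
  rw [e, gmean_formal σ hσ _ _ _ (fun j _ => zeta_pow_root hζ _)]
  congr 1
  rw [Finset.sum_eq_single i]
  · have : i + (2 ^ (k + 1) - i) = 2 ^ (k + 1) := by omega
    rw [this, hζ.pow_eq_one, rootSign_one, mul_one]
  · intro j hj hji
    rw [Finset.mem_range] at hj
    have h1 : ζ ^ (j + (2 ^ (k + 1) - i)) ≠ 1 := by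
      intro h
      rw [hζ.pow_eq_one_iff_dvd] at h
      have := Nat.eq_of_dvd_of_lt_two_mul (by omega) h (by omega)
      omega
    have h2 : ζ ^ (j + (2 ^ (k + 1) - i)) ≠ -1 := by
      intro h
      have h3 : ζ ^ (j + (2 ^ (k + 1) - i) + 2 ^ k) = 1 := by
        rw [pow_add, h, zeta_pow_half hζ]
        norm_num
      rw [hζ.pow_eq_one_iff_dvd] at h3
      have := Nat.eq_of_dvd_of_lt_two_mul (by omega) h3 (by omega)
      omega
    rw [rootSign_of_ne h1 h2, mul_zero]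
  · intro hni
    exact absurd (Finset.mem_range.mpr hi) hni

/-- For a real element `x` of `ℤ[ζ]`, the Galois mean of `x` is an integer, even exactly when `x`
lies in the local ideal. -/
theorem gmean_real {M : Ideal Cfsg.AlgInt} (hM : Cfsg.IsPModular 2 M)
    (hζ : IsPrimitiveRoot ζ (2 ^ (k + 1))) (f : ℤ[X])
    (hreal : conj (aeval ζ f) = aeval ζ f) :
    ∃ T : ℤ, gmean (2 ^ (k + 1)) σ (aeval ζ f) = (T : ℂ) ∧
      (Cfsg.MemLocalIdeal M (aeval ζ f) ↔ Even T) := by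
  have hMm := hM.2.1
  have hπ := zeta_sub_one_memLocalIdeal hM hζ
  have hm : 2 ^ (k + 1) = 2 * 2 ^ k := by rw [pow_succ, mul_comm]
  have hmpos : 0 < 2 ^ k := by positivity
  have hq : (X ^ 2 ^ k + C (1 : ℤ)).Monic := monic_X_pow_add_C 1 hmpos.ne'
  have hqdeg : (X ^ 2 ^ k + C (1 : ℤ)).natDegree = 2 ^ k := natDegree_X_pow_add_C
  have hq1 : (X ^ 2 ^ k + C (1 : ℤ)) ≠ 1 := by
    intro h
    rw [h, natDegree_one] at hqdeg
    omega
  obtain ⟨g, hgdef⟩ : ∃ g : ℤ[X], g = f %ₘ (X ^ 2 ^ k + C (1 : ℤ)) := ⟨_, rfl⟩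
  have hdeg : g.natDegree < 2 ^ k := by
    rw [hgdef]
    have := natDegree_modByMonic_lt f hq hq1
    rwa [hqdeg] at this
  have hfg : aeval ζ f = aeval ζ g := by
    have h1 := modByMonic_add_div f (X ^ 2 ^ k + C (1 : ℤ))
    have h2 := congrArg (aeval ζ) h1
    rw [map_add, map_mul] at h2
    have h3 : aeval ζ (X ^ 2 ^ k + C (1 : ℤ)) = 0 := by
      simp only [map_add, map_pow, aeval_X, map_one]
      rw [zeta_pow_half hζ]
      norm_num
    rw [h3, zero_mul, add_zero] at h2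
    rw [hgdef, h2]
  rw [hfg] at hreal ⊢
  have hc : ∀ i, i < 2 ^ k →
      gmean (2 ^ (k + 1)) σ (aeval ζ g * ζ ^ (2 ^ (k + 1) - i)) = ((g.coeff i : ℤ) : ℂ) :=
    fun i hi => gmean_coeff σ hσ hζ hdeg hi
  have hsym : ∀ i, 0 < i → i < 2 ^ k → g.coeff (2 ^ k - i) = - g.coeff i := by
    intro i hi0 hi
    have h1 := hc (2 ^ k - i) (by omega)
    have h2 := hc i hi
    have e1 : 2 ^ (k + 1) - (2 ^ k - i) = i + 2 ^ k := by omega
    have e2 : aeval ζ g * ζ ^ (i + 2 ^ k) = ((-1 : ℤ) : ℂ) * (aeval ζ g * ζ ^ i) := by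
      rw [pow_add, zeta_pow_half hζ]
      push_cast
      ring
    rw [e1, e2, gmean_intCast_mul] at h1
    have e3 : aeval ζ g * ζ ^ i = aeval ζ (g * X ^ i) := by
      rw [map_mul, map_pow, aeval_X]
    have h3 := gmean_conj_aeval σ hσ hζ (g * X ^ i)
    rw [← e3, map_mul, hreal, conj_zeta_pow hζ (by omega), h2] at h3
    rw [← h3] at h1
    have h4 : ((-1 : ℤ) : ℂ) * ((g.coeff i : ℤ) : ℂ) = ((g.coeff (2 ^ k - i) : ℤ) : ℂ) := h1
    have h5 : (-1 : ℤ) * g.coeff i = g.coeff (2 ^ k - i) := by exact_mod_cast h4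
    omega
  have hS : ∑ j ∈ Finset.range (2 ^ k - 1), g.coeff (j + 1) = 0 := by
    have h1 := Finset.sum_range_reflect (fun j => g.coeff (j + 1)) (2 ^ k - 1)
    have h2 : ∑ j ∈ Finset.range (2 ^ k - 1), g.coeff (2 ^ k - 1 - 1 - j + 1)
        = ∑ j ∈ Finset.range (2 ^ k - 1), - g.coeff (j + 1) := by
      refine Finset.sum_congr rfl fun j hj => ?_
      rw [Finset.mem_range] at hj
      have e : 2 ^ k - 1 - 1 - j + 1 = 2 ^ k - (j + 1) := by omega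
      rw [e]
      exact hsym (j + 1) (by omega) (by omega)
    rw [h2, Finset.sum_neg_distrib] at h1
    omega
  have heval : g.eval 1 = g.coeff 0 := by
    rw [eval_eq_sum_range' hdeg]
    have e : 2 ^ k = (2 ^ k - 1) + 1 := by omega
    rw [e, Finset.sum_range_succ']
    simp only [one_pow, mul_one]
    rw [hS, zero_add]
  have hT : gmean (2 ^ (k + 1)) σ (aeval ζ g) = ((g.coeff 0 : ℤ) : ℂ) := by
    have h1 := hc 0 hmpos
    rwa [Nat.sub_zero, hζ.pow_eq_one, mul_one] at h1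
  obtain ⟨g', hg'⟩ := aeval_eq_eval_one_add ζ g
  rw [heval] at hg'
  have hrest : Cfsg.MemLocalIdeal M ((ζ - 1) * aeval ζ g') :=
    Helper77.memLocalIdeal_mul' hMm hπ
      (Helper77.memLocalRing_of_isIntegral hMm (aeval_isIntegral hζ g'))
  refine ⟨g.coeff 0, hT, ?_, ?_⟩
  · intro hmem
    apply even_of_intCast_memLocalIdeal hM
    have := Helper77.memLocalIdeal_sub hMm hmem hrest
    rwa [hg', add_sub_cancel_right] at this
  · intro hev
    rw [hg']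
    exact Helper77.memLocalIdeal_add hMm (intCast_memLocalIdeal_of_even hM hev) hrest

end gmean

end twoadic

end Cfsg.Agent.Helper75
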